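import Mathlib

/-!
# Intertwiners from a field structure

If `T` has order `q` without fixed vectors on an `𝔽_p`-space and `p` is a primitive root modulo `q`,
then `V` is a vector space over `𝔽_p[T]`, a field, and we obtain the automorphisms needed in the
Laffey–MacHale theorem.
-/

set_option autoImplicit false
set_option linter.style.haveILetI false
set_option linter.unusedSectionVars false

namespace Cfsg.Agent.Lib.AutOrbits.Field

open Polynomial

/-- Linear automorphisms of a vector space are transitive on nonzero vectors. -/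
lemma exists_linearEquiv_apply_eq {L V : Type*} [Field L] [AddCommGroup V] [Module L V] [Finite V]
    {v w : V} (hv : v ≠ 0) (hw : w ≠ 0) : ∃ A : V ≃ₗ[L] V, A v = w := by
  classical
  have hdual : ∀ u : V, u ≠ 0 → ∃ f : Module.Dual L V, f u = 1 := by
    intro u hu
    by_contra hc
    push Not at hc
    apply hu
    rw [← Module.forall_dual_apply_eq_zero_iff L u]
    intro f
    by_contra hf
    apply hc ((f u)⁻¹ • f)
    simp [hf]
  obtain ⟨f₁, hf₁⟩ := hdual v hv
  obtain ⟨f₂, hf₂⟩ := hdual w hw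
  have hex : ∃ f : Module.Dual L V, f v = 1 ∧ f w ≠ 0 := by
    by_cases h1 : f₁ w = 0
    · by_cases h2 : f₂ v = 0
      · refine ⟨f₁ + f₂, ?_, ?_⟩ <;> simp [h1, h2, hf₁, hf₂]
      · refine ⟨(f₂ v)⁻¹ • f₂, ?_, ?_⟩ <;> simp [h2, hf₂]
    · exact ⟨f₁, hf₁, h1⟩
  obtain ⟨f, hfv, hfw⟩ := hex
  haveI : Module.Finite L V := Module.Finite.of_finite
  let A₀ : V →ₗ[L] V := LinearMap.id + f.smulRight (w - v)
  have hA₀ : ∀ x, A₀ x = x + f x • (w - v) := fun x => rfl
  have hinj : Function.Injective A₀ := by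
    rw [injective_iff_map_eq_zero]
    intro x hx
    rw [hA₀] at hx
    have h1 := congrArg f hx
    simp only [map_add, map_smul, map_sub, hfv, map_zero, smul_eq_mul] at h1
    have h2 : f x * f w = 0 := by
      linear_combination h1
    have h3 : f x = 0 := (mul_eq_zero.1 h2).resolve_right hfw
    rw [h3, zero_smul, add_zero] at hx
    exact hx
  refine ⟨LinearEquiv.ofInjectiveEndo A₀ hinj, ?_⟩
  change A₀ v = w
  rw [hA₀, hfv, one_smul]
  abel

/-- A ring endomorphism of a field extends coordinatewise to a semilinear additive automorphism. -/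
lemma exists_semilinear {L V : Type*} [Field L] [AddCommGroup V] [Module L V] [Finite V]
    (σ : L →+* L) : ∃ C : V ≃+ V, ∀ (c : L) (v : V), C (c • v) = σ c • C v := by
  classical
  haveI : Module.Finite L V := Module.Finite.of_finite
  let b := Module.finBasis L V
  let C₀ : V →+ V :=
    { toFun := fun v => b.equivFun.symm (fun i => σ (b.equivFun v i))
      map_zero' := by
        simp
      map_add' := by
        intro x y
        rw [← map_add]
        congr 1
        ext i
        simp }
  have hC₀ : ∀ v, C₀ v = b.equivFun.symm (fun i => σ (b.equivFun v i)) := fun v => rfl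
  have hinj : Function.Injective C₀ := by
    intro x y hxy
    rw [hC₀, hC₀] at hxy
    have h1 := b.equivFun.symm.injective hxy
    apply b.equivFun.injective
    ext i
    exact σ.injective (congrFun h1 i)
  have hbij : Function.Bijective C₀ := ⟨hinj, Finite.injective_iff_surjective.1 hinj⟩
  refine ⟨AddEquiv.ofBijective C₀ hbij, ?_⟩
  intro c v
  change C₀ (c • v) = σ c • C₀ v
  rw [hC₀, hC₀, ← map_smul]
  congr 1
  ext i
  simp

variable {p q : ℕ} [hp : Fact p.Prime] [hq : Fact q.Prime]

local notation "F" => ZMod p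

lemma irreducible_cyclotomic (hpq : p ≠ q) (hord : orderOf (p : ZMod q) = q - 1) :
    Irreducible (cyclotomic q F) := by
  have hpn : ¬ p ∣ q := fun h => hpq ((Nat.prime_dvd_prime_iff_eq hp.out hq.out).1 h)
  apply ZMod.irreducible_of_dvd_cyclotomic_of_natDegree hpn dvd_rfl
  rw [natDegree_cyclotomic, Nat.totient_prime hq.out, ← hord]
  have : ((ZMod.unitOfCoprime p (hp.out.coprime_iff_not_dvd.mpr hpn) : (ZMod q)ˣ) : ZMod q) = (p : ZMod q) := rfl
  rw [← this, orderOf_units]

lemma X_sub_one_mul_cyclotomic : (X - 1) * cyclotomic q F = X ^ q - 1 := by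
  rw [cyclotomic_prime, mul_geom_sum]

lemma aeval_one_cyclotomic {R : Type*} [Ring R] [Algebra F R] :
    aeval (1 : R) (cyclotomic q F) = (q : R) := by
  rw [cyclotomic_prime, map_sum]
  simp

/-- The ring hom `𝔽_p[X]/(Φ_q) → End V`. -/
noncomputable def rho {V : Type*} [AddCommGroup V] [Module F V] (T : Module.End F V)
    (hΦ : aeval T (cyclotomic q F) = 0) : AdjoinRoot (cyclotomic q F) →+* Module.End F V :=
  Ideal.Quotient.lift _ (aeval T : F[X] →ₐ[F] Module.End F V).toRingHom (by
    intro a ha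
    obtain ⟨c, rfl⟩ := Ideal.mem_span_singleton.1 ha
    simp [hΦ])

lemma rho_root {V : Type*} [AddCommGroup V] [Module F V] (T : Module.End F V)
    (hΦ : aeval T (cyclotomic q F) = 0) :
    rho (q := q) T hΦ (AdjoinRoot.root _) = T := by
  change Ideal.Quotient.lift _ (aeval T : F[X] →ₐ[F] Module.End F V).toRingHom _ (Ideal.Quotient.mk _ X) = T
  simp

/-- `Φ_q(T) = 0` when `T` has no fixed vectors and `T ^ q = 1`. -/
lemma aeval_cyclotomic_eq_zero {V : Type*} [AddCommGroup V] [Module F V] (T : Module.End F V)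
    (hTq : T ^ q = 1) (hfix : ∀ v, T v = v → v = 0) : aeval T (cyclotomic q F) = 0 := by
  refine LinearMap.ext fun v => ?_
  apply hfix
  have h1 : aeval T ((X - 1) * cyclotomic q F) = T ^ q - 1 := by
    rw [X_sub_one_mul_cyclotomic]
    simp
  rw [hTq, sub_self, map_mul] at h1
  have h2 := congrArg (fun f : Module.End F V => f v) h1
  simp only [Module.End.mul_apply, map_sub, aeval_X, map_one, LinearMap.sub_apply, Module.End.one_apply,
    LinearMap.zero_apply, sub_eq_zero] at h2
  exact h2

lemma root_pow_ne_one (hpq : p ≠ q) (hirr : Irreducible (cyclotomic q F)) {k : ℕ} (hk : k.Coprime q) :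
    haveI : Fact (Irreducible (cyclotomic q F)) := ⟨hirr⟩
    (AdjoinRoot.root (cyclotomic q F)) ^ k ≠ 1 ∧ (AdjoinRoot.root (cyclotomic q F)) ^ q = 1 := by
  haveI : Fact (Irreducible (cyclotomic q F)) := ⟨hirr⟩
  have hΦ0 : cyclotomic q F ≠ 0 := hirr.ne_zero
  have h0 : aeval (AdjoinRoot.root (cyclotomic q F)) (cyclotomic q F) = 0 :=
    AdjoinRoot.aeval_eq (cyclotomic q F) |>.trans (AdjoinRoot.mk_self)
  have hrq : (AdjoinRoot.root (cyclotomic q F)) ^ q = 1 := by
    have h1 : aeval (AdjoinRoot.root (cyclotomic q F)) ((X - 1) * cyclotomic q F) = (AdjoinRoot.root (cyclotomic q F)) ^ q - 1 := by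
      rw [X_sub_one_mul_cyclotomic]
      simp
    rw [map_mul, h0, mul_zero] at h1
    exact (sub_eq_zero.1 h1.symm)
  have hne : AdjoinRoot.root (cyclotomic q F) ≠ 1 := by
    intro h1
    rw [h1, aeval_one_cyclotomic] at h0
    have h2 : algebraMap F (AdjoinRoot (cyclotomic q F)) (q : F) = 0 := by
      rw [map_natCast]; exact h0
    have h3 := (map_eq_zero_iff _ (algebraMap F (AdjoinRoot (cyclotomic q F))).injective).1 h2
    rw [ZMod.natCast_eq_zero_iff] at h3
    exact hpq ((Nat.prime_dvd_prime_iff_eq hp.out hq.out).1 h3)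
  have hord : orderOf (AdjoinRoot.root (cyclotomic q F)) = q := orderOf_eq_prime hrq hne
  refine ⟨?_, hrq⟩
  intro h
  have h1 := orderOf_dvd_of_pow_eq_one h
  rw [hord] at h1
  have h2 : q ∣ 1 := by
    have := Nat.dvd_gcd h1 (dvd_refl q)
    rwa [Nat.Coprime.gcd_eq_one hk] at this
  exact hq.out.one_lt.ne' (Nat.dvd_one.1 h2)

/-- The main theorem of this file. -/
theorem exists_intertwiners {V : Type*} [AddCommGroup V] [Module F V] [Finite V] (hpq : p ≠ q)
    (T : Module.End F V) (hTq : T ^ q = 1) (hfix : ∀ v, T v = v → v = 0)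
    (hord : orderOf (p : ZMod q) = q - 1) :
    (∀ v w : V, v ≠ 0 → w ≠ 0 → ∃ A : V ≃+ V, (∀ u, A (T u) = T (A u)) ∧ A v = w) ∧
    (∀ k : ℕ, k.Coprime q → ∃ A : V ≃+ V, ∀ u, A (T u) = (T ^ k) (A u)) := by
  have hirr := irreducible_cyclotomic hpq hord
  haveI : Fact (Irreducible (cyclotomic q F)) := ⟨hirr⟩
  have hΦ := aeval_cyclotomic_eq_zero T hTq hfix
  letI : Module (AdjoinRoot (cyclotomic q F)) V := Module.compHom V
    ((rho (q := q) T hΦ : AdjoinRoot (cyclotomic q F) →+* Module.End F V))
  have hact : ∀ (c : AdjoinRoot (cyclotomic q F)) (v : V), c • v = rho (q := q) T hΦ c v := fun _ _ => rfl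
  have hroot : ∀ v : V, (AdjoinRoot.root (cyclotomic q F)) • v = T v := by
    intro v
    rw [hact, rho_root]
  have hrootk : ∀ (k : ℕ) (v : V), ((AdjoinRoot.root (cyclotomic q F)) ^ k) • v = (T ^ k) v := by
    intro k v
    rw [hact, map_pow, rho_root]
  constructor
  · intro v w hv hw
    obtain ⟨A, hA⟩ := exists_linearEquiv_apply_eq (L := AdjoinRoot (cyclotomic q F)) hv hw
    refine ⟨A.toAddEquiv, ?_, hA⟩
    intro u
    change A (T u) = T (A u)
    rw [← hroot, ← hroot, map_smul]
  · intro k hk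
    obtain ⟨hne, hrq⟩ := root_pow_ne_one hpq hirr hk
    set y : AdjoinRoot (cyclotomic q F) := (AdjoinRoot.root (cyclotomic q F)) ^ k with hy
    have hyq : y ^ q = 1 := by
      rw [hy, ← pow_mul, mul_comm, pow_mul, hrq, one_pow]
    have hy0 : eval₂ (algebraMap F (AdjoinRoot (cyclotomic q F))) y (cyclotomic q F) = 0 := by
      rw [← aeval_def]
      have h1 : aeval y ((X - 1) * cyclotomic q F) = y ^ q - 1 := by
        rw [X_sub_one_mul_cyclotomic]
        simp
      rw [hyq, sub_self, map_mul] at h1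
      refine (mul_eq_zero.1 h1).resolve_left ?_
      simp [sub_eq_zero, hne]
    obtain ⟨C, hC⟩ := exists_semilinear (V := V) (AdjoinRoot.lift (algebraMap F (AdjoinRoot (cyclotomic q F))) y hy0)
    refine ⟨C, ?_⟩
    intro u
    rw [← hroot, hC, AdjoinRoot.lift_root, hy, hrootk]

end Cfsg.Agent.Lib.AutOrbits.Field
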