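import Cfsg.Agent.Lib.AutOrbits.Core
import Cfsg.Agent.Lib.AutOrbits.Field

/-!
# Multiplicative versions of the linear algebra for Laffey–MacHale
-/

set_option autoImplicit false
set_option linter.style.haveILetI false
set_option linter.unusedSectionVars false

namespace Cfsg.Agent.Lib.AutOrbits.Mul

variable {p q : ℕ} [hp : Fact p.Prime] [hq : Fact q.Prime]

section comm

variable {D : Type*} [CommGroup D] [Finite D]

/-- The `𝔽_p`-module structure on `Additive D`. -/
abbrev md (hD : ∀ d : D, d ^ p = 1) : Module (ZMod p) (Additive D) :=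
  AddCommGroup.zmodModule (n := p) (G := Additive D) (by
    intro x
    change Additive.ofMul (x.toMul ^ p) = 0
    rw [hD]
    rfl)

/-- The linear endomorphism of `Additive D` from an automorphism of `D`. -/
noncomputable abbrev toEnd (hD : ∀ d : D, d ^ p = 1) (T : MulAut D) :
    letI := md hD
    Module.End (ZMod p) (Additive D) :=
  letI := md hD
  AddMonoidHom.toZModLinearMap p (MonoidHom.toAdditive (T : D →* D))

lemma toEnd_apply (hD : ∀ d : D, d ^ p = 1) (T : MulAut D) (u : D) :
    letI := md hD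
    toEnd hD T (Additive.ofMul u) = Additive.ofMul (T u) := rfl

lemma toEnd_pow (hD : ∀ d : D, d ^ p = 1) (T : MulAut D) (k : ℕ) (u : D) :
    letI := md hD
    (toEnd hD T ^ k) (Additive.ofMul u) = Additive.ofMul ((T ^ k) u) := by
  letI := md hD
  induction k generalizing u with
  | zero => rfl
  | succ k ih =>
    rw [pow_succ, Module.End.mul_apply, toEnd_apply hD, ih]
    rfl

/-- Fixed-point-free automorphisms when `p` is a primitive root: existence of the intertwiners. -/
theorem exists_intertwiners' (hD : ∀ d : D, d ^ p = 1) (hpq : p ≠ q) (T : MulAut D) (hTq : T ^ q = 1)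
    (hfix : ∀ d, T d = d → d = 1) (hord : orderOf (p : ZMod q) = q - 1) :
    (∀ v w : D, v ≠ 1 → w ≠ 1 → ∃ A : MulAut D, (∀ u, A (T u) = T (A u)) ∧ A v = w) ∧
    (∀ k : ℕ, k.Coprime q → ∃ A : MulAut D, ∀ u, A (T u) = (T ^ k) (A u)) := by
  letI := md hD
  have h1 : toEnd hD T ^ q = 1 := by
    refine LinearMap.ext fun v => ?_
    have := toEnd_pow hD T q v.toMul
    rw [hTq] at this
    exact this
  have h2 : ∀ v, toEnd hD T v = v → v = 0 := by
    intro v hv
    exact congrArg Additive.ofMul (hfix v.toMul (congrArg Additive.toMul hv))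
  obtain ⟨ha, hb⟩ := Field.exists_intertwiners (V := Additive D) hpq _ h1 h2 hord
  constructor
  · intro v w hv hw
    obtain ⟨A, hA, hAv⟩ := ha (Additive.ofMul v) (Additive.ofMul w) hv hw
    refine ⟨MulEquiv.toAdditive.symm A, ?_, ?_⟩
    · intro u
      exact congrArg Additive.toMul (hA (Additive.ofMul u))
    · exact congrArg Additive.toMul hAv
  · intro k hk
    obtain ⟨A, hA⟩ := hb k hk
    refine ⟨MulEquiv.toAdditive.symm A, ?_⟩
    intro u
    have := hA (Additive.ofMul u)
    rw [show (toEnd hD T) (Additive.ofMul u) = Additive.ofMul (T u) from rfl] at this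
    rw [show A (Additive.ofMul u) = Additive.ofMul (A (Additive.ofMul u)).toMul from rfl, toEnd_pow] at this
    exact congrArg Additive.toMul this

theorem orderOf_eq' [Nontrivial D] (hD : ∀ d : D, d ^ p = 1) (hpq : p ≠ q) (T : MulAut D) (hTq : T ^ q = 1)
    (hfix : ∀ d, T d = d → d = 1)
    (htrans : ∀ v w : D, v ≠ 1 → w ≠ 1 → ∃ (A : MulAut D) (k : ℕ), (∀ u, A (T u) = (T ^ k) (A u)) ∧ A v = w)
    (hk : ∀ k : ℕ, k.Coprime q → ∃ A : MulAut D, ∀ u, A (T u) = (T ^ k) (A u)) :
    orderOf (p : ZMod q) = q - 1 := by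
  letI := md hD
  have h1 : toEnd hD T ^ q = 1 := by
    refine LinearMap.ext fun v => ?_
    have := toEnd_pow hD T q v.toMul
    rw [hTq] at this
    exact this
  have h2 : ∀ v, toEnd hD T v = v → v = 0 := by
    intro v hv
    exact congrArg Additive.ofMul (hfix v.toMul (congrArg Additive.toMul hv))
  apply Core.orderOf_eq_add (V := Additive D) hpq _ h1 h2
  · intro v w hv hw
    obtain ⟨A, k, hA, hAv⟩ := htrans v.toMul w.toMul hv hw
    refine ⟨MulEquiv.toAdditive A, k, ?_, ?_⟩
    · intro u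
      have h3 := hA u.toMul
      rw [show (MulEquiv.toAdditive A) (toEnd hD T u) = Additive.ofMul (A (T u.toMul)) from rfl, h3]
      rw [show (MulEquiv.toAdditive A) u = Additive.ofMul (A u.toMul) from rfl, toEnd_pow]
    · exact congrArg Additive.ofMul hAv
  · intro k hkq
    obtain ⟨A, hA⟩ := hk k hkq
    refine ⟨MulEquiv.toAdditive A, ?_⟩
    intro u
    have h3 := hA u.toMul
    rw [show (MulEquiv.toAdditive A) (toEnd hD T u) = Additive.ofMul (A (T u.toMul)) from rfl, h3]
    rw [show (MulEquiv.toAdditive A) u = Additive.ofMul (A u.toMul) from rfl, toEnd_pow]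

end comm

section

variable {D : Type*} [Group D] [Finite D]

/-- The commutative group structure. -/
abbrev cg (hcomm : ∀ a b : D, a * b = b * a) : CommGroup D :=
  { (inferInstance : Group D) with mul_comm := hcomm }

theorem exists_intertwiners (hcomm : ∀ a b : D, a * b = b * a) (hD : ∀ d : D, d ^ p = 1) (hpq : p ≠ q)
    (T : MulAut D) (hTq : T ^ q = 1)
    (hfix : ∀ d, T d = d → d = 1) (hord : orderOf (p : ZMod q) = q - 1) :
    (∀ v w : D, v ≠ 1 → w ≠ 1 → ∃ A : MulAut D, (∀ u, A (T u) = T (A u)) ∧ A v = w) ∧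
    (∀ k : ℕ, k.Coprime q → ∃ A : MulAut D, ∀ u, A (T u) = (T ^ k) (A u)) :=
  letI := cg hcomm
  exists_intertwiners' hD hpq T hTq hfix hord

theorem orderOf_eq [Nontrivial D] (hcomm : ∀ a b : D, a * b = b * a) (hD : ∀ d : D, d ^ p = 1) (hpq : p ≠ q)
    (T : MulAut D) (hTq : T ^ q = 1)
    (hfix : ∀ d, T d = d → d = 1)
    (htrans : ∀ v w : D, v ≠ 1 → w ≠ 1 → ∃ (A : MulAut D) (k : ℕ), (∀ u, A (T u) = (T ^ k) (A u)) ∧ A v = w)
    (hk : ∀ k : ℕ, k.Coprime q → ∃ A : MulAut D, ∀ u, A (T u) = (T ^ k) (A u)) :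
    orderOf (p : ZMod q) = q - 1 :=
  letI := cg hcomm
  orderOf_eq' hD hpq T hTq hfix htrans hk

end

end Cfsg.Agent.Lib.AutOrbits.Mul
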