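import Mathlib

/-!
# Automorphism groups with exactly three orbits
-/

set_option autoImplicit false
set_option linter.style.haveILetI false
set_option linter.unusedSectionVars false

namespace Cfsg.Agent.Lib.AutOrbits.Orbits

variable {G : Type*} [Group G]

/-- The orbit of an element. -/
abbrev mk (x : G) : MulAction.orbitRel.Quotient (MulAut G) G :=
  Quotient.mk (MulAction.orbitRel (MulAut G) G) x

lemma mk_eq_iff (x y : G) : mk x = mk y ↔ ∃ α : MulAut G, α y = x := by
  rw [mk, mk, Quotient.eq, MulAction.orbitRel_apply, MulAction.mem_orbit_iff]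
  rfl

/-- The map from `Fin 3`. -/
noncomputable def f3 (a b : G) : Fin 3 → MulAction.orbitRel.Quotient (MulAut G) G :=
  ![mk 1, mk a, mk b]

lemma f3_injective (a b : G) (ha : a ≠ 1) (hb : b ≠ 1) (hab : ∀ α : MulAut G, α a ≠ b) :
    Function.Injective (f3 a b) := by
  have h1 : mk (1 : G) ≠ mk a := by
    intro h
    obtain ⟨α, hα⟩ := (mk_eq_iff _ _).1 h
    exact ha (by simpa using hα)
  have h2 : mk (1 : G) ≠ mk b := by
    intro h
    obtain ⟨α, hα⟩ := (mk_eq_iff _ _).1 h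
    exact hb (by simpa using hα)
  have h3 : mk a ≠ mk b := by
    intro h
    obtain ⟨α, hα⟩ := (mk_eq_iff _ _).1 h.symm
    exact hab α hα
  intro i j hij
  fin_cases i <;> fin_cases j <;> simp_all [f3, eq_comm]

lemma card_orbits_eq_three (a b : G) (ha : a ≠ 1) (hb : b ≠ 1) (hab : ∀ α : MulAut G, α a ≠ b)
    (hall : ∀ g : G, g = 1 ∨ (∃ α : MulAut G, α a = g) ∨ (∃ α : MulAut G, α b = g)) :
    Nat.card (MulAction.orbitRel.Quotient (MulAut G) G) = 3 := by
  have hsurj : Function.Surjective (f3 a b) := by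
    intro y
    induction y using Quotient.inductionOn with
    | h g =>
      rcases hall g with rfl | ⟨α, rfl⟩ | ⟨α, rfl⟩
      · exact ⟨0, rfl⟩
      · exact ⟨1, (mk_eq_iff _ _).2 ⟨α⁻¹, by simp⟩⟩
      · exact ⟨2, (mk_eq_iff _ _).2 ⟨α⁻¹, by simp⟩⟩
  have := Nat.card_congr (Equiv.ofBijective _ ⟨f3_injective a b ha hb hab, hsurj⟩)
  rw [← this]
  simp

lemma exists_of_card_orbits [Finite G] (h : Nat.card (MulAction.orbitRel.Quotient (MulAut G) G) = 3)
    (a b : G) (ha : a ≠ 1) (hb : b ≠ 1) (hab : ∀ α : MulAut G, α a ≠ b) :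
    ∀ g : G, g = 1 ∨ (∃ α : MulAut G, α a = g) ∨ (∃ α : MulAut G, α b = g) := by
  have hinj := f3_injective a b ha hb hab
  have hbij : Function.Bijective (f3 a b) :=
    hinj.bijective_of_nat_card_le (by rw [h]; simp)
  intro g
  obtain ⟨i, hi⟩ := hbij.2 (mk g)
  fin_cases i
  · left
    obtain ⟨α, hα⟩ := (mk_eq_iff _ _).1 hi
    exact (map_eq_one_iff α α.injective).1 hα
  · right; left
    obtain ⟨α, hα⟩ := (mk_eq_iff _ _).1 hi.symm
    exact ⟨α, hα⟩
  · right; right
    obtain ⟨α, hα⟩ := (mk_eq_iff _ _).1 hi.symm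
    exact ⟨α, hα⟩

end Cfsg.Agent.Lib.AutOrbits.Orbits
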