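import Mathlib

/-!
# Extending automorphisms over a complement
-/

set_option autoImplicit false
set_option linter.style.haveILetI false
set_option linter.unusedSectionVars false

namespace Cfsg.Agent.Lib.AutOrbits.Semi

variable {G : Type*} [Group G]

open Subgroup

/-- Extending a pair of automorphisms from complementary factors. -/
theorem exists_aut_of_complement (D K : Subgroup G) [D.Normal] (hc : D.IsComplement' K)
    (A : MulAut D) (B : MulAut K)
    (h : ∀ (g : K) (d : D), A (MulAut.conjNormal (g : G) d) = MulAut.conjNormal ((B g : K) : G) (A d)) :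
    ∃ α : MulAut G, (∀ d : D, α d = A d) ∧ (∀ g : K, α g = B g) := by
  let e := SemidirectProduct.mulEquivSubgroup hc
  have hcongr : ∀ g : K, ((D.normalizerMonoidHom.comp (inclusion (D.normalizer_eq_top ▸ le_top))) g).trans A
      = A.trans ((D.normalizerMonoidHom.comp (inclusion (D.normalizer_eq_top ▸ le_top))) (B g)) := by
    intro g
    ext d
    exact congrArg Subtype.val (h g d)
  let c := SemidirectProduct.congr A B hcongr
  have he1 : ∀ d : D, e (SemidirectProduct.inl d) = d := by
    intro d
    simp [e]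
  have he2 : ∀ g : K, e (SemidirectProduct.inr g) = g := by
    intro g
    simp [e]
  have hs1 : ∀ d : D, e.symm d = SemidirectProduct.inl d := by
    intro d
    rw [MulEquiv.symm_apply_eq, he1]
  have hs2 : ∀ g : K, e.symm g = SemidirectProduct.inr g := by
    intro g
    rw [MulEquiv.symm_apply_eq, he2]
  refine ⟨e.symm.trans (c.trans e), ?_, ?_⟩
  · intro d
    change e (c (e.symm d)) = A d
    rw [hs1]
    have : c (SemidirectProduct.inl d) = SemidirectProduct.inl (A d) := by
      ext <;> simp [c]
    rw [this, he1]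
  · intro g
    change e (c (e.symm g)) = B g
    rw [hs2]
    have : c (SemidirectProduct.inr g) = SemidirectProduct.inr (B g) := by
      ext <;> simp [c]
    rw [this, he2]

/-- The special case of a cyclic complement of prime order. -/
theorem exists_aut_of_intertwine [Finite G] {q : ℕ} (D : Subgroup G) [D.Normal] (x : G) (hx : orderOf x = q)
    (hc : D.IsComplement' (zpowers x)) (A : MulAut D) (k : ℕ) (hk : k.Coprime q)
    (h : ∀ d : D, A (MulAut.conjNormal x d) = (MulAut.conjNormal x ^ k) (A d)) :
    ∃ α : MulAut G, (∀ d : D, α d = A d) ∧ α x = x ^ k := by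
  letI : CommGroup (zpowers x) := IsCyclic.commGroup
  have hcard : (Nat.card (zpowers x)).Coprime k := by
    rw [Nat.card_zpowers, hx]
    exact hk.symm
  let B₀ : MulAut (zpowers x) :=
    MulEquiv.ofBijective (powMonoidHom k : zpowers x →* zpowers x) (powCoprime hcard).bijective
  have hB : ∀ g : zpowers x, ((B₀ g : zpowers x) : G) = (g : G) ^ k := fun g => rfl
  have hsemi : SemiconjBy A (MulAut.conjNormal x) (MulAut.conjNormal x ^ k) := by
    ext d
    exact congrArg Subtype.val (h d)
  obtain ⟨α, h1, h2⟩ := exists_aut_of_complement D (zpowers x) hc A B₀ (by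
    rintro ⟨g, j, rfl⟩ d
    have h3 := hsemi.zpow_right j
    have h4 := DFunLike.congr_fun h3.eq d
    have hz : ((x ^ j : G) ^ k) = (x ^ k) ^ j := by
      rw [← zpow_natCast, ← zpow_mul, ← zpow_natCast, ← zpow_mul, mul_comm]
    rw [hB]
    simp only [MulAut.mul_apply] at h4
    have e1 : MulAut.conjNormal (H := D) (x ^ j) = (MulAut.conjNormal x) ^ j := map_zpow _ _ _
    have e2 : MulAut.conjNormal (H := D) ((x ^ j) ^ k) = (MulAut.conjNormal x ^ k) ^ j := by
      rw [hz, map_zpow, map_pow]
    change A (MulAut.conjNormal (x ^ j) d) = MulAut.conjNormal ((x ^ j) ^ k) (A d)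
    rw [e1, e2]
    exact h4)
  refine ⟨α, h1, ?_⟩
  have := h2 ⟨x, mem_zpowers x⟩
  rw [hB] at this
  exact this

/-- Restricting an automorphism to an invariant subgroup of a finite group. -/
lemma exists_restrict [Finite G] (D : Subgroup G) (β : MulAut G) (h : ∀ d ∈ D, β d ∈ D) :
    ∃ A : MulAut D, ∀ d : D, (A d : G) = β d := by
  let f : D →* D := MonoidHom.codRestrict ((β : G →* G).comp D.subtype) D (fun d => h d d.2)
  have hf : Function.Injective f := by
    intro a b hab
    have : β a = β b := congrArg Subtype.val hab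
    exact Subtype.ext (β.injective this)
  exact ⟨MulEquiv.ofBijective f ⟨hf, Finite.injective_iff_surjective.1 hf⟩, fun d => rfl⟩

lemma restrict_intertwine (D : Subgroup G) [D.Normal] (β : MulAut G) (x : G) (k : ℕ) (hβ : β x = x ^ k)
    (A : MulAut D) (hA : ∀ d : D, (A d : G) = β d) (u : D) :
    A (MulAut.conjNormal x u) = (MulAut.conjNormal x ^ k) (A u) := by
  apply Subtype.ext
  rw [hA, ← map_pow, MulAut.conjNormal_apply, MulAut.conjNormal_apply, hA, map_mul, map_mul, map_inv, hβ]

/-- Conjugacy of subgroups of prime order `q` when `q ^ 2` does not divide the order. -/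
lemma exists_conj_pow [Finite G] {q : ℕ} [Fact q.Prime] (hcard : (Nat.card G).factorization q = 1)
    (x y : G) (hx : orderOf x = q) (hy : orderOf y = q) :
    ∃ (g : G) (k : ℕ), g * y * g⁻¹ = x ^ k := by
  let S₁ : Sylow q G := Sylow.ofCard (zpowers y) (by rw [Nat.card_zpowers, hy, hcard, pow_one])
  let S₂ : Sylow q G := Sylow.ofCard (zpowers x) (by rw [Nat.card_zpowers, hx, hcard, pow_one])
  obtain ⟨g, hg⟩ := MulAction.exists_smul_eq G S₁ S₂
  have h1 : g * y * g⁻¹ ∈ zpowers x := by
    have h2 : ((g • S₁ : Sylow q G) : Subgroup G) = (S₂ : Subgroup G) := by rw [hg]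
    have h3 : g * y * g⁻¹ ∈ ((g • S₁ : Sylow q G) : Subgroup G) := by
      rw [Sylow.coe_subgroup_smul]
      exact ⟨y, (mem_zpowers y), by simp [MulAut.conj_apply]⟩
    rw [h2] at h3
    exact h3
  obtain ⟨j, hj⟩ := (mem_powers_iff_mem_zpowers).2 h1
  exact ⟨g, j, hj.symm⟩

end Cfsg.Agent.Lib.AutOrbits.Semi
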