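import Cfsg.Prelude
import Cfsg.Agent.Lib.AutOrbits.Mul
import Cfsg.Agent.Lib.AutOrbits.Orbits
import Cfsg.Agent.Lib.AutOrbits.Semi

/-!
# Laffey–MacHale: the groups in the list have three automorphism orbits
-/

set_option autoImplicit false
set_option linter.style.haveILetI false
set_option linter.unusedSectionVars false

namespace Cfsg.Agent.Lib.AutOrbits.Backward

variable {G : Type*} [Group G] [Finite G]

open Subgroup

lemma factorization_left {p q n : ℕ} (hp : p.Prime) (hq : q.Prime) (hpq : p ≠ q) :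
    (p ^ n * q).factorization p = n := by
  rw [Nat.factorization_mul (pow_ne_zero _ hp.ne_zero) hq.ne_zero, Nat.Prime.factorization_pow hp,
    Nat.Prime.factorization hq]
  simp [hpq.symm]

lemma factorization_right {p q n : ℕ} (hp : p.Prime) (hq : q.Prime) (hpq : p ≠ q) :
    (p ^ n * q).factorization q = 1 := by
  rw [Nat.factorization_mul (pow_ne_zero _ hp.ne_zero) hq.ne_zero, Nat.Prime.factorization_pow hp,
    Nat.Prime.factorization hq]
  simp [hpq]

theorem backward {p q n : ℕ} [hp : Fact p.Prime] [hq : Fact q.Prime] (hpq : p ≠ q) (hn : 1 ≤ n)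
    (hcard : Nat.card G = p ^ n * q)
    (hSyl : ∀ P : Sylow p G, (P : Subgroup G).Normal ∧ Cfsg.IsElementaryAbelian p (P : Subgroup G))
    (hord : orderOf (p : ZMod q) = q - 1)
    (hfpf : ∀ x y : G, orderOf x = q → orderOf y = p → x * y * x⁻¹ ≠ y) :
    Nat.card (MulAction.orbitRel.Quotient (MulAut G) G) = 3 := by
  let P₀ : Sylow p G := default
  obtain ⟨hnormal, hcomm, hexp⟩ := hSyl P₀
  set D : Subgroup G := (P₀ : Subgroup G) with hD
  haveI : D.Normal := hnormal
  have hcommD : ∀ a b : D, a * b = b * a := fun a b => hcomm.is_comm.comm a b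
  have hexpD : ∀ d : D, d ^ p = 1 := fun d => Subtype.ext (hexp d d.2)
  have hcardD : Nat.card D = p ^ n := by
    rw [hD, P₀.card_eq_multiplicity, hcard, factorization_left hp.out hq.out hpq]
  obtain ⟨x, hx⟩ := exists_prime_orderOf_dvd_card' q (by rw [hcard]; exact dvd_mul_left q _ : q ∣ Nat.card G)
  have hpcop : Nat.Coprime p q := (Nat.coprime_primes hp.out hq.out).2 hpq
  have hc : D.IsComplement' (zpowers x) := by
    apply isComplement'_of_coprime
    · rw [hcardD, Nat.card_zpowers, hx, hcard]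
    · rw [hcardD, Nat.card_zpowers, hx]
      exact hpcop.pow_left n
  have hindex : D.index = q := by
    have h1 := D.card_mul_index
    rw [hcardD, hcard] at h1
    exact Nat.eq_of_mul_eq_mul_left (pow_pos hp.out.pos n) h1
  have hordD : ∀ d ∈ D, d ≠ 1 → orderOf d = p := fun d hd hd1 => orderOf_eq_prime (hexp d hd) hd1
  have hTq : (MulAut.conjNormal x : MulAut D) ^ q = 1 := by
    rw [← map_pow, ← hx, pow_orderOf_eq_one, map_one]
  have hfix : ∀ d : D, (MulAut.conjNormal x : MulAut D) d = d → d = 1 := by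
    intro d hd
    by_contra hd1
    have h1 : (d : G) ≠ 1 := fun h => hd1 (Subtype.ext h)
    apply hfpf x d hx (hordD d d.2 h1)
    have := congrArg Subtype.val hd
    rwa [MulAut.conjNormal_apply] at this
  obtain ⟨h1, h2⟩ := Mul.exists_intertwiners hcommD hexpD hpq _ hTq hfix hord
  have hauta : ∀ v w : D, v ≠ 1 → w ≠ 1 → ∃ α : MulAut G, α v = w := by
    intro v w hv hw
    obtain ⟨A, hA, hAv⟩ := h1 v w hv hw
    obtain ⟨α, hα, -⟩ := Semi.exists_aut_of_intertwine D x hx hc A 1 (by simp) (by
      intro d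
      rw [pow_one]
      exact hA d)
    exact ⟨α, by rw [hα, hAv]⟩
  have hautb : ∀ k : ℕ, k.Coprime q → ∃ α : MulAut G, α x = x ^ k := by
    intro k hk
    obtain ⟨A, hA⟩ := h2 k hk
    obtain ⟨α, -, hα⟩ := Semi.exists_aut_of_intertwine D x hx hc A k hk hA
    exact ⟨α, hα⟩
  -- an element of order `p`
  have hDnt : Nontrivial D := by
    rw [← Finite.one_lt_card_iff_nontrivial, hcardD]
    exact Nat.one_lt_pow (by omega) hp.out.one_lt
  obtain ⟨a, ha1⟩ := exists_ne (1 : D)
  have ha1' : (a : G) ≠ 1 := fun h => ha1 (Subtype.ext h)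
  have hao := hordD a a.2 ha1'
  have hx1 : x ≠ 1 := by
    rintro rfl
    rw [orderOf_one] at hx
    exact hq.out.one_lt.ne hx
  -- elements outside `D` have order `q`
  have hout : ∀ g : G, g ∉ D → orderOf g = q := by
    intro g hg
    have hg1 : g ≠ 1 := fun h => hg (h ▸ D.one_mem)
    have hgq : g ^ q ∈ D := hindex ▸ D.pow_index_mem g
    by_contra hne
    have hgq1 : g ^ q ≠ 1 := fun h => hne (orderOf_eq_prime h hg1)
    have hh1 : g ^ p ≠ 1 := by
      intro h
      apply hg
      obtain ⟨m, hm⟩ := Nat.exists_mul_mod_eq_one_of_coprime hpcop.symm hp.out.one_lt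
      have h3 : g ^ (q * m) = g := by
        rw [pow_eq_pow_mod (q * m) h, hm.2, pow_one]
      rw [← h3, pow_mul]
      exact D.pow_mem hgq m
    have hh2 : (g ^ p) ^ q = 1 := by
      rw [← pow_mul, mul_comm, pow_mul]
      exact hexp _ hgq
    have hh3 := orderOf_eq_prime hh2 hh1
    apply hfpf (g ^ p) (g ^ q) hh3 (hordD _ hgq hgq1)
    have : Commute (g ^ p) (g ^ q) := (Commute.refl g).pow_pow p q
    rw [this.eq, mul_inv_cancel_right]
  refine Orbits.card_orbits_eq_three (a : G) x ha1' hx1 ?_ ?_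
  · intro α h
    have : orderOf (α a) = orderOf (a : G) := MulEquiv.orderOf_eq α _
    rw [h, hx, hao] at this
    exact hpq this.symm
  · intro g
    by_cases hg1 : g = 1
    · exact Or.inl hg1
    right
    by_cases hgD : g ∈ D
    · left
      obtain ⟨α, hα⟩ := hauta a ⟨g, hgD⟩ ha1 (fun h => hg1 (congrArg Subtype.val h))
      exact ⟨α, hα⟩
    · right
      have hgo := hout g hgD
      have hfact : (Nat.card G).factorization q = 1 := by
        rw [hcard, factorization_right hp.out hq.out hpq]
      obtain ⟨h', k, hk⟩ := Semi.exists_conj_pow hfact x g hx hgo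
      have hkq : k.Coprime q := by
        rw [Nat.coprime_comm, Nat.Prime.coprime_iff_not_dvd hq.out]
        intro hdvd
        have h3 : x ^ k = 1 := by
          rw [← hx] at hdvd
          exact orderOf_dvd_iff_pow_eq_one.1 hdvd
        rw [h3] at hk
        apply hg1
        have : h'⁻¹ * (h' * g * h'⁻¹) * h' = h'⁻¹ * 1 * h' := by rw [hk]
        simpa [mul_assoc] using this
      obtain ⟨α, hα⟩ := hautb k hkq
      refine ⟨(MulAut.conj h')⁻¹ * α, ?_⟩
      rw [MulAut.mul_apply, hα, ← hk]
      simp [MulAut.conj_symm_apply, mul_assoc]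

end Cfsg.Agent.Lib.AutOrbits.Backward
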