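import Mathlib
import Cfsg.Agent.Lib.Char.Burnside

/-!
# Groups with four automorphism orbits: first reductions
-/

set_option autoImplicit false
set_option linter.unusedSectionVars false

namespace Cfsg.Agent.Lib.AutOrbits.Basic

open Subgroup

variable {G : Type*} [Group G] [Finite G]

/-- Groups whose order has at most two prime factors are solvable. -/
theorem solvable_of_card_primeFactors {H : Type*} [Group H] [Finite H]
    (hc : (Nat.card H).primeFactors.card ≤ 2) : Group.IsSolvable H := by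
  have hne : Nat.card H ≠ 0 := Nat.card_pos.ne'
  have hprod : ∏ p ∈ (Nat.card H).primeFactors, p ^ (Nat.card H).factorization p = Nat.card H :=
    Nat.factorization_prod_pow_eq_self hne
  have h2 : Nat.Prime 2 := Nat.prime_two
  rcases (by omega : (Nat.card H).primeFactors.card = 0 ∨ (Nat.card H).primeFactors.card = 1 ∨
    (Nat.card H).primeFactors.card = 2) with h | h | h
  · rw [Finset.card_eq_zero] at h
    rw [h, Finset.prod_empty] at hprod
    exact Char.Burnside.isSolvable_of_card_eq 2 2 0 0 h2 h2 (by rw [← hprod]; norm_num)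
  · obtain ⟨p, hp⟩ := Finset.card_eq_one.1 h
    rw [hp, Finset.prod_singleton] at hprod
    have hpp : p.Prime := Nat.prime_of_mem_primeFactors (by rw [hp]; simp)
    exact Char.Burnside.isSolvable_of_card_eq p 2 ((Nat.card H).factorization p) 0 hpp h2
      (by rw [pow_zero, mul_one]; exact hprod.symm)
  · obtain ⟨p, q, hpq, hp⟩ := Finset.card_eq_two.1 h
    rw [hp, Finset.prod_pair hpq] at hprod
    have hpp : p.Prime := Nat.prime_of_mem_primeFactors (by rw [hp]; simp)
    have hqq : q.Prime := Nat.prime_of_mem_primeFactors (by rw [hp]; simp)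
    exact Char.Burnside.isSolvable_of_card_eq p q _ _ hpp hqq hprod.symm

/-- The structure extracted from four orbits. -/
structure Hyp (G : Type*) [Group G] [Finite G] : Prop where
  nsolv : ¬ Group.IsSolvable G
  prime : ∀ g : G, g ≠ 1 → (orderOf g).Prime
  trans : ∀ g h : G, orderOf g = orderOf h → ∃ σ : MulAut G, σ g = h
  three : (Nat.card G).primeFactors.card = 3

/-- **Step A.** -/
theorem hyp_of_four (hns : ¬ Group.IsSolvable G)
    (h4 : Nat.card (MulAction.orbitRel.Quotient (MulAut G) G) = 4) : Hyp G := by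
  classical
  -- the order function on orbits
  let Q := MulAction.orbitRel.Quotient (MulAut G) G
  let ord : Q → ℕ := Quotient.lift (fun g : G => orderOf g) (by
    intro a b hab
    obtain ⟨σ, hσ⟩ := hab
    change orderOf a = orderOf b
    rw [← hσ]
    exact MulEquiv.orderOf_eq σ b)
  have hord : ∀ g : G, ord (Quotient.mk _ g) = orderOf g := fun g => rfl
  have hQfin : Finite Q := Nat.finite_of_card_ne_zero (by rw [h4]; norm_num)
  let π := (Nat.card G).primeFactors
  have hπ3 : 3 ≤ π.card := by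
    by_contra hlt
    have h2 : π.card ≤ 2 := by omega
    exact hns (solvable_of_card_primeFactors h2)
  have hsub : ∀ m ∈ insert 1 π, m ∈ Set.range ord := by
    intro m hm
    rcases Finset.mem_insert.1 hm with rfl | hm
    · exact ⟨Quotient.mk _ 1, by rw [hord, orderOf_one]⟩
    · have hp := Nat.prime_of_mem_primeFactors hm
      have hd := Nat.dvd_of_mem_primeFactors hm
      haveI : Fact m.Prime := ⟨hp⟩
      obtain ⟨g, hg⟩ := exists_prime_orderOf_dvd_card' (G := G) m hd
      exact ⟨Quotient.mk _ g, by rw [hord, hg]⟩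
  have h1π : (1 : ℕ) ∉ π := fun h => Nat.not_prime_one (Nat.prime_of_mem_primeFactors h)
  have hcardS : (insert 1 π).card = π.card + 1 := Finset.card_insert_of_notMem h1π
  let R : Finset ℕ := (Set.finite_range ord).toFinset
  have hRcard : R.card ≤ 4 := by
    have h1 : R.card = Nat.card (Set.range ord) := by
      rw [Nat.card_coe_set_eq, Set.ncard_eq_toFinset_card _ (Set.finite_range ord)]
    rw [h1, ← h4]
    exact Nat.card_le_card_of_surjective (Set.rangeFactorization ord) Set.rangeFactorization_surjective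
  have hSR : insert 1 π ⊆ R := fun m hm => by
    simp only [R, Set.Finite.mem_toFinset]
    exact hsub m hm
  have hle := Finset.card_le_card hSR
  have hEq : insert 1 π = R := Finset.eq_of_subset_of_card_le hSR (by omega)
  have hπ : π.card = 3 := by omega
  have hRc : R.card = 4 := by rw [← hEq]; omega
  -- injectivity of ord
  have hinj : Function.Injective ord := by
    have hsurj : Function.Surjective (Set.rangeFactorization ord) := Set.rangeFactorization_surjective
    have hc : Nat.card Q = Nat.card (Set.range ord) := by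
      have h1 : R.card = Nat.card (Set.range ord) := by
        rw [Nat.card_coe_set_eq, Set.ncard_eq_toFinset_card _ (Set.finite_range ord)]
      rw [← h1, hRc, h4]
    have hb := (Nat.bijective_iff_surjective_and_card _).2 ⟨hsurj, hc⟩
    intro a b hab
    apply hb.1
    exact Subtype.ext hab
  refine ⟨hns, ?_, ?_, hπ⟩
  · intro g hg
    have h1 : orderOf g ∈ R := by
      simp only [R, Set.Finite.mem_toFinset]
      exact ⟨Quotient.mk _ g, hord g⟩
    rw [← hEq] at h1
    rcases Finset.mem_insert.1 h1 with h2 | h2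
    · exact absurd (orderOf_eq_one_iff.1 h2) hg
    · exact Nat.prime_of_mem_primeFactors h2
  · intro g h hgh
    have h1 : ord (Quotient.mk _ g) = ord (Quotient.mk _ h) := by rw [hord, hord, hgh]
    have h2 := hinj h1
    have h3 := Quotient.exact h2
    obtain ⟨σ, hσ⟩ := h3
    refine ⟨σ⁻¹, ?_⟩
    change σ⁻¹ g = h
    rw [← hσ]
    change σ⁻¹ (σ h) = h
    simp

/-- Characteristic subgroups are preserved. -/
theorem char_mem {K : Subgroup G} [hK : K.Characteristic] (σ : MulAut G) {x : G} (hx : x ∈ K) :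
    σ x ∈ K := by
  have h := hK.fixed (MulEquiv.symm σ)
  rw [← h, Subgroup.mem_comap]
  simpa using hx

/-- Commuting non-identity elements have the same order. -/
theorem order_eq_of_commute (H : Hyp G) {x y : G} (hx : x ≠ 1) (hy : y ≠ 1) (hc : Commute x y) :
    orderOf x = orderOf y := by
  by_contra hne
  have hpx := H.prime x hx
  have hpy := H.prime y hy
  have hco : Nat.Coprime (orderOf x) (orderOf y) := (Nat.coprime_primes hpx hpy).2 hne
  have hord := hc.orderOf_mul_eq_mul_orderOf_of_coprime hco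
  by_cases hxy : x * y = 1
  · rw [hxy, orderOf_one] at hord
    have := hpx.two_le
    have := hpy.two_le
    nlinarith
  · have h1 := H.prime _ hxy
    rw [hord] at h1
    exact Nat.not_prime_mul hpx.ne_one hpy.ne_one h1

/-- Elements of an `ℓ`-subgroup have order `ℓ`. -/
theorem order_of_mem_pgroup (H : Hyp G) {ℓ : ℕ} [Fact ℓ.Prime] {S : Subgroup G} (hS : IsPGroup ℓ S)
    {x : G} (hxS : x ∈ S) (hx : x ≠ 1) : orderOf x = ℓ := by
  obtain ⟨k, hk⟩ := IsPGroup.iff_orderOf.1 hS ⟨x, hxS⟩
  rw [Subgroup.orderOf_mk] at hk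
  have hp := H.prime x hx
  rw [hk] at hp ⊢
  have hk1 : k = 1 := by
    by_contra hne
    exact (Nat.Prime.not_prime_pow' hne) hp
  rw [hk1, pow_one]

/-- An `ℓ`-group is not all of `G`. -/
theorem not_pgroup (H : Hyp G) {ℓ : ℕ} [hℓ : Fact ℓ.Prime] : ¬ IsPGroup ℓ G := by
  intro h
  obtain ⟨m, hm⟩ := IsPGroup.iff_card.1 h
  have h3 := H.three
  rw [hm] at h3
  have h4 : (ℓ ^ m).primeFactors.card ≤ 1 := by
    rcases Nat.eq_zero_or_pos m with rfl | hm0
    · simp
    · rw [Nat.primeFactors_prime_pow hm0.ne' hℓ.out]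
      simp
  omega

/-- **No proper nontrivial characteristic subgroups.** -/
theorem no_char (H : Hyp G) (K : Subgroup G) [hK : K.Characteristic] (h1 : K ≠ ⊥) (h2 : K ≠ ⊤) :
    False := by
  classical
  haveI : K.Normal := inferInstance
  have hcard : Nat.card G = Nat.card (G ⧸ K) * Nat.card K :=
    Subgroup.card_eq_card_quotient_mul_card_subgroup K
  have hK1 : 1 < Nat.card K := by
    have h3 : Nat.card K ≠ 1 := fun h => h1 (Subgroup.eq_bot_of_card_eq K h)
    have h4 : 0 < Nat.card K := Nat.card_pos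
    omega
  have hQ1 : 1 < Nat.card (G ⧸ K) := by
    have h3 : Nat.card (G ⧸ K) ≠ 1 := fun h => h2 (Subgroup.index_eq_one.1 h)
    have h4 : 0 < Nat.card (G ⧸ K) := Nat.card_pos
    omega
  have hdisj : Disjoint (Nat.card (G ⧸ K)).primeFactors (Nat.card K).primeFactors := by
    rw [Finset.disjoint_left]
    intro ℓ hℓ1 hℓ2
    have hp := Nat.prime_of_mem_primeFactors hℓ1
    haveI : Fact ℓ.Prime := ⟨hp⟩
    obtain ⟨x, hx⟩ := exists_prime_orderOf_dvd_card' (G := K) ℓ (Nat.dvd_of_mem_primeFactors hℓ2)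
    obtain ⟨q, hq⟩ := exists_prime_orderOf_dvd_card' (G := G ⧸ K) ℓ (Nat.dvd_of_mem_primeFactors hℓ1)
    obtain ⟨g, rfl⟩ := QuotientGroup.mk_surjective q
    have hg1 : g ≠ 1 := by
      rintro rfl
      have : orderOf ((1 : G) : G ⧸ K) = 1 := by
        rw [QuotientGroup.mk_one, orderOf_one]
      rw [this] at hq
      exact hp.ne_one hq.symm
    have hgp := H.prime g hg1
    have hdvd : orderOf ((g : G ⧸ K)) ∣ orderOf g :=
      orderOf_map_dvd (QuotientGroup.mk' K) g
    rw [hq] at hdvd
    have hgord : ℓ = orderOf g := (Nat.prime_dvd_prime_iff_eq hp hgp).1 hdvd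
    obtain ⟨σ, hσ⟩ := H.trans (x : G) g (by rw [Subgroup.orderOf_coe, hx, hgord])
    have hgK : g ∈ K := by
      rw [← hσ]
      exact char_mem σ x.2
    have : ((g : G ⧸ K)) = 1 := (QuotientGroup.eq_one_iff g).2 hgK
    rw [this, orderOf_one] at hq
    exact hp.ne_one hq.symm
  have hunion : (Nat.card G).primeFactors =
      (Nat.card (G ⧸ K)).primeFactors ∪ (Nat.card K).primeFactors := by
    rw [hcard]
    exact Nat.primeFactors_mul (by omega) (by omega)
  have h3 := H.three
  rw [hunion, Finset.card_union_of_disjoint hdisj] at h3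
  have hne1 : 0 < (Nat.card (G ⧸ K)).primeFactors.card :=
    Finset.card_pos.2 (Nat.nonempty_primeFactors.2 hQ1)
  have hne2 : 0 < (Nat.card K).primeFactors.card :=
    Finset.card_pos.2 (Nat.nonempty_primeFactors.2 hK1)
  haveI s1 : Group.IsSolvable K := solvable_of_card_primeFactors (by omega)
  haveI s2 : Group.IsSolvable (G ⧸ K) := solvable_of_card_primeFactors (by omega)
  apply H.nsolv
  refine solvable_of_ker_le_range K.subtype (QuotientGroup.mk' K) ?_
  intro g hg
  rw [MonoidHom.mem_ker, QuotientGroup.mk'_apply, QuotientGroup.eq_one_iff] at hg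
  exact ⟨⟨g, hg⟩, rfl⟩

/-- **`G` is simple.** -/
theorem isSimple (H : Hyp G) : IsSimpleGroup G := by
  classical
  haveI hnt : Nontrivial G := by
    by_contra hnt
    rw [not_nontrivial_iff_subsingleton] at hnt
    have h3 := H.three
    rw [Nat.card_of_subsingleton (1 : G)] at h3
    simp at h3
  refine ⟨fun M hM => ?_⟩
  by_contra hne
  push_neg at hne
  obtain ⟨hM1, hM2⟩ := hne
  -- a minimal normal subgroup
  let α := {N : Subgroup G // N.Normal ∧ N ≠ ⊥}
  haveI : Nonempty α := ⟨⟨M, hM, hM1⟩⟩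
  obtain ⟨⟨N, hN, hN1⟩, hmin⟩ := Finite.exists_min (fun N : α => Nat.card N.1)
  have hNM : Nat.card N ≤ Nat.card M := hmin ⟨M, hM, hM1⟩
  have hNtop : N ≠ ⊤ := by
    rintro rfl
    apply hM2
    apply Subgroup.eq_top_of_card_eq
    have h1 : Nat.card (⊤ : Subgroup G) = Nat.card G := Subgroup.card_top
    have h2 : Nat.card M ≤ Nat.card G := Subgroup.card_le_card_group M
    omega
  -- not characteristic
  have hσ : ∃ σ : MulAut G, N.map σ.toMonoidHom ≠ N := by
    by_contra hall
    push_neg at hall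
    haveI hc : N.Characteristic := Subgroup.characteristic_iff_map_eq.2 hall
    exact no_char H N hN1 hNtop
  obtain ⟨σ, hσ⟩ := hσ
  set N' := N.map σ.toMonoidHom with hN'
  have hN'n : N'.Normal := hN.map _ (MulEquiv.surjective σ)
  have hN'1 : N' ≠ ⊥ := by
    intro h
    rw [hN', Subgroup.map_eq_bot_iff_of_injective _ (MulEquiv.injective σ)] at h
    exact hN1 h
  have hcardN' : Nat.card N' = Nat.card N :=
    Subgroup.card_map_of_injective (MulEquiv.injective σ)
  have hinf : N ⊓ N' = ⊥ := by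
    by_contra hne
    have h1 : Nat.card N ≤ Nat.card (N ⊓ N' : Subgroup G) :=
      hmin ⟨N ⊓ N', Subgroup.normal_inf_normal N N', hne⟩
    have h2 : N ⊓ N' = N := Subgroup.eq_of_le_of_card_ge inf_le_left h1
    have h3 : N ≤ N' := inf_eq_left.1 h2
    have h4 : N = N' := Subgroup.eq_of_le_of_card_ge h3 (by omega)
    exact hσ h4.symm
  have hcomm : ∀ x ∈ N, ∀ y ∈ N', Commute x y := fun x hx y hy =>
    Subgroup.commute_of_normal_of_disjoint N N' hN hN'n (disjoint_iff.2 hinf) x y hx hy
  obtain ⟨y₀, hy₀, hy₀1⟩ : ∃ y ∈ N', y ≠ (1 : G) := by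
    obtain ⟨y, hy⟩ := Subgroup.ne_bot_iff_exists_ne_one.1 hN'1
    exact ⟨(y : G), y.2, fun h => hy (Subtype.ext h)⟩
  obtain ⟨x₀, hx₀, hx₀1⟩ : ∃ y ∈ N, y ≠ (1 : G) := by
    obtain ⟨y, hy⟩ := Subgroup.ne_bot_iff_exists_ne_one.1 hN1
    exact ⟨(y : G), y.2, fun h => hy (Subtype.ext h)⟩
  set ℓ := orderOf y₀ with hℓ
  have hℓp : ℓ.Prime := H.prime y₀ hy₀1
  haveI : Fact ℓ.Prime := ⟨hℓp⟩
  have hNord : ∀ x ∈ N, x ≠ 1 → orderOf x = ℓ := fun x hx hx1 =>
    order_eq_of_commute H hx1 hy₀1 (hcomm x hx y₀ hy₀)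
  have hNp : IsPGroup ℓ N := by
    rw [IsPGroup.iff_orderOf]
    intro g
    by_cases hg : g = 1
    · exact ⟨0, by rw [hg, orderOf_one, pow_zero]⟩
    · refine ⟨1, ?_⟩
      rw [pow_one, ← Subgroup.orderOf_coe]
      exact hNord _ g.2 (fun h => hg (Subtype.ext h))
  obtain ⟨Q⟩ : Nonempty (Sylow ℓ G) := inferInstance
  have hQall : ∀ w : G, orderOf w = ℓ → w ∈ Q := by
    intro w hw
    obtain ⟨τ, hτ⟩ := H.trans x₀ w (by rw [hw, hNord x₀ hx₀ hx₀1])
    have hnorm : (N.map τ.toMonoidHom).Normal := hN.map _ (MulEquiv.surjective τ)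
    have hpg : IsPGroup ℓ (N.map τ.toMonoidHom) := hNp.map _
    have hle := hpg.le_sylow_of_normal Q
    apply hle
    exact ⟨x₀, hx₀, hτ⟩
  have hQc : (Q : Subgroup G).Characteristic := by
    rw [Subgroup.characteristic_iff_map_le]
    rintro ϕ _ ⟨q, hq, rfl⟩
    by_cases hq1 : q = 1
    · subst hq1
      simpa using (Q : Subgroup G).one_mem
    · apply hQall
      have h1 := order_of_mem_pgroup H Q.isPGroup' hq hq1
      change orderOf (ϕ q) = ℓ
      rw [MulEquiv.orderOf_eq, h1]
  have hQ1 : (Q : Subgroup G) ≠ ⊥ := by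
    intro h
    have h1 : y₀ ∈ (Q : Subgroup G) := hQall y₀ rfl
    rw [h, Subgroup.mem_bot] at h1
    exact hy₀1 h1
  have hQ2 : (Q : Subgroup G) ≠ ⊤ := by
    intro h
    apply not_pgroup H (ℓ := ℓ)
    have h1 := Q.isPGroup'
    rw [h] at h1
    exact (IsPGroup.iff_card.2 (by
      obtain ⟨m, hm⟩ := IsPGroup.iff_card.1 h1
      exact ⟨m, by rw [← hm, Subgroup.card_top]⟩))
  exact no_char H Q hQ1 hQ2

end Cfsg.Agent.Lib.AutOrbits.Basic
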