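import Mathlib

/-!
# Linear algebra for the Laffey–MacHale theorem

A linear automorphism `T` of prime order `q` without nonzero fixed vectors of an `𝔽_p`-space, such
that the group of semilinear maps normalizing `⟨T⟩` is transitive on nonzero vectors and induces all
powers of `T`, forces `p` to be a primitive root modulo `q`.
-/

set_option autoImplicit false
set_option linter.style.haveILetI false
set_option linter.unusedSectionVars false

namespace Cfsg.Agent.Lib.AutOrbits.Core

open Polynomial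

variable {p q : ℕ} [hp : Fact p.Prime] [hq : Fact q.Prime]
variable {V : Type*} [AddCommGroup V] [Module (ZMod p) V] [Finite V]

local notation "F" => ZMod p

/-- The cyclic `F[T]`-module generated by `v`. -/
noncomputable def W (T : Module.End F V) (v : V) : Submodule F V :=
  LinearMap.range ((LinearMap.applyₗ v).comp (aeval T : F[X] →ₐ[F] Module.End F V).toLinearMap)

lemma mem_W {T : Module.End F V} {v z : V} : z ∈ W T v ↔ ∃ g : F[X], aeval T g v = z := by
  simp [W]

lemma self_mem_W (T : Module.End F V) (v : V) : v ∈ W T v := mem_W.2 ⟨1, by simp⟩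

lemma W_le_of_mem {T : Module.End F V} {v z : V} (h : z ∈ W T v) : W T z ≤ W T v := by
  obtain ⟨g, rfl⟩ := mem_W.1 h
  intro y hy
  obtain ⟨f, rfl⟩ := mem_W.1 hy
  refine mem_W.2 ⟨f * g, ?_⟩
  simp [map_mul]

lemma annih_of_mem {T : Module.End F V} {u z : V} {φ : F[X]} (h : aeval T φ u = 0) (hz : z ∈ W T u) :
    aeval T φ z = 0 := by
  obtain ⟨g, rfl⟩ := mem_W.1 hz
  have : aeval T φ * aeval T g = aeval T g * aeval T φ := by
    rw [← map_mul, ← map_mul, mul_comm]
  have h2 := congrArg (fun f : Module.End F V => f u) this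
  simp only [Module.End.mul_apply] at h2
  rw [h2, h, map_zero]

/-- Intertwining with polynomials. -/
lemma intertwine {T S : Module.End F V} (A : V ≃ₗ[F] V) (hA : ∀ u, A (T u) = S (A u)) (g : F[X]) (u : V) :
    A (aeval T g u) = aeval S g (A u) := by
  have hpow : ∀ (n : ℕ) (u : V), A ((T ^ n) u) = (S ^ n) (A u) := by
    intro n
    induction n with
    | zero => intro u; simp
    | succ n ih =>
      intro u
      rw [pow_succ, pow_succ, Module.End.mul_apply, Module.End.mul_apply, ih, hA]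
  induction g using Polynomial.induction_on' with
  | add f g hf hg =>
    simp only [map_add, LinearMap.add_apply, hf, hg]
  | monomial n a =>
    simp only [aeval_monomial, Module.End.mul_apply]
    simp [Algebra.algebraMap_eq_smul_one, hpow]

lemma card_W_le {T : Module.End F V} {k : ℕ} (A : V ≃ₗ[F] V) (hA : ∀ u, A (T u) = (T ^ k) (A u)) (v : V) :
    Nat.card (W T v) ≤ Nat.card (W T (A v)) := by
  have hmap : ∀ z ∈ W T v, A z ∈ W T (A v) := by
    intro z hz
    obtain ⟨g, rfl⟩ := mem_W.1 hz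
    refine mem_W.2 ⟨g.comp (X ^ k), ?_⟩
    rw [intertwine A hA, aeval_comp]
    simp
  refine Nat.card_le_card_of_injective (fun z : W T v => (⟨A z.1, hmap z.1 z.2⟩ : W T (A v))) ?_
  intro a b hab
  apply Subtype.ext
  apply A.injective
  exact congrArg Subtype.val hab

lemma eq_of_le_of_card {A B : Submodule F V} (h : A ≤ B) (hc : Nat.card B ≤ Nat.card A) : A = B := by
  have h1 : (A : Set V) = (B : Set V) := by
    apply Set.eq_of_subset_of_ncard_le h _ (Set.toFinite _)
    rw [← Nat.card_coe_set_eq, ← Nat.card_coe_set_eq]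
    exact hc
  exact SetLike.coe_injective h1

/-- Existence of an irreducible polynomial annihilating `T`, from the transitivity. -/
theorem exists_irreducible [Nontrivial V] (T : Module.End F V)
    (htrans : ∀ v w : V, v ≠ 0 → w ≠ 0 → ∃ (A : V ≃ₗ[F] V) (k : ℕ), (∀ u, A (T u) = (T ^ k) (A u)) ∧ A v = w) :
    ∃ φ : F[X], Irreducible φ ∧ aeval T φ = 0 := by
  have hcard : ∀ v w : V, v ≠ 0 → w ≠ 0 → Nat.card (W T v) = Nat.card (W T w) := by
    intro v w hv hw
    apply le_antisymm
    · obtain ⟨A, k, hA, rfl⟩ := htrans v w hv hw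
      exact card_W_le A hA v
    · obtain ⟨A, k, hA, rfl⟩ := htrans w v hw hv
      exact card_W_le A hA w
  have hmin : ∀ v z : V, v ≠ 0 → z ≠ 0 → z ∈ W T v → W T z = W T v := by
    intro v z hv hz hm
    exact eq_of_le_of_card (W_le_of_mem hm) (le_of_eq (hcard v z hv hz))
  have hint : IsIntegral F T := IsIntegral.of_finite F T
  set m := minpoly F T with hm
  have hm0 : m ≠ 0 := minpoly.ne_zero hint
  have hm1 : ¬ IsUnit m := minpoly.not_isUnit F T
  obtain ⟨φ, hφ, h, hfac⟩ := WfDvdMonoid.exists_irreducible_factor hm1 hm0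
  refine ⟨φ, hφ, ?_⟩
  have hh0 : h ≠ 0 := by
    rintro rfl
    exact hm0 (by rw [hfac, mul_zero])
  have hhT : aeval T h ≠ 0 := by
    intro hz
    obtain ⟨c, hc⟩ := minpoly.dvd F T hz
    rw [← hm, hfac, mul_assoc] at hc
    have h1 : φ * c = 1 := by
      have : h * (φ * c) = h * 1 := by
        rw [mul_one]
        conv_rhs => rw [hc]
        ring
      exact mul_left_cancel₀ hh0 this
    exact hφ.not_isUnit (IsUnit.of_mul_eq_one c h1)
  have hex : ∃ w, aeval T h w ≠ 0 := by
    by_contra hc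
    push Not at hc
    exact hhT (LinearMap.ext hc)
  obtain ⟨w, hw⟩ := hex
  set u := aeval T h w with hu
  have hφu : aeval T φ u = 0 := by
    have h1 : aeval T m = 0 := minpoly.aeval F T
    rw [hfac, map_mul] at h1
    have h2 := congrArg (fun f : Module.End F V => f w) h1
    simpa [Module.End.mul_apply] using h2
  refine LinearMap.ext fun v => ?_
  by_contra hy
  have hy' : aeval T φ v ≠ 0 := hy
  set y := aeval T φ v with hydef
  have hv0 : v ≠ 0 := by
    rintro rfl
    exact hy' (by simp [hydef])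
  have hs0 : u + v ≠ 0 := by
    intro h0
    have hv' : v = -u := by
      rw [eq_neg_iff_add_eq_zero, add_comm]; exact h0
    apply hy'
    rw [hydef, hv', map_neg, hφu, neg_zero]
  have hyv : y ∈ W T v := mem_W.2 ⟨φ, rfl⟩
  have hys : y ∈ W T (u + v) := mem_W.2 ⟨φ, by rw [map_add, hφu, zero_add]⟩
  have h1 : W T y = W T v := hmin v y hv0 hy' hyv
  have h2 : W T y = W T (u + v) := hmin _ y hs0 hy' hys
  have h3 : W T v = W T (u + v) := h1.symm.trans h2
  have huv : u ∈ W T v := by
    have h4 : u + v ∈ W T v := by rw [h3]; exact self_mem_W T _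
    have h5 := (W T v).sub_mem h4 (self_mem_W T v)
    simpa using h5
  have h6 : W T u = W T v := hmin v u hv0 hw huv
  have hvu : v ∈ W T u := by rw [h6]; exact self_mem_W T v
  exact hy' (annih_of_mem hφu hvu)

/-- If `φ` is irreducible and annihilates `T`, the polynomials annihilating `T` are the multiples
of `φ`. -/
lemma dvd_of_aeval_eq_zero [Nontrivial V] {T : Module.End F V} {φ g : F[X]} (hφ : Irreducible φ)
    (hφT : aeval T φ = 0) (hg : aeval T g = 0) : φ ∣ g :=
  (hφ.dvd_iff_aeval_eq_zero hφT).1 hg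

/-- Frobenius fixes everything, when it fixes a generator. -/
lemma frob_fix {L : Type*} [Field L] [Algebra (ZMod p) L] (τ : L) (f : ℕ) (hτ : τ ^ (p ^ f) = τ)
    (g : (ZMod p)[X]) : (aeval τ g) ^ (p ^ f) = aeval τ g := by
  haveI hchar : CharP L p := charP_of_injective_algebraMap (algebraMap (ZMod p) L).injective p
  induction g using Polynomial.induction_on' with
  | add a b ha hb =>
    rw [map_add, add_pow_char_pow, ha, hb]
  | monomial n a =>
    rw [aeval_monomial, mul_pow, ← map_pow, ZMod.pow_card_pow, ← pow_mul, mul_comm n, pow_mul, hτ]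

lemma finrank_le {L : Type*} [Field L] [Algebra (ZMod p) L] [Module.Finite (ZMod p) L] (f : ℕ) (hf : f ≠ 0)
    (h : ∀ s : L, s ^ (p ^ f) = s) : Module.finrank (ZMod p) L ≤ f := by
  classical
  have hp1 : 1 < p := hp.out.one_lt
  haveI : Finite L := Module.finite_of_finite (ZMod p)
  letI : Fintype L := Fintype.ofFinite L
  have h1 : Nat.card L = p ^ Module.finrank (ZMod p) L := by
    rw [Module.natCard_eq_pow_finrank (K := ZMod p), Nat.card_zmod]
  have hne := FiniteField.X_pow_card_pow_sub_X_ne_zero L hf hp1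
  have hdeg := FiniteField.X_pow_card_pow_sub_X_natDegree_eq L hf hp1
  have h2 : (Finset.univ : Finset L) ⊆ ((X ^ p ^ f - X : L[X]).roots).toFinset := by
    intro s _
    rw [Multiset.mem_toFinset, mem_roots hne]
    simp [IsRoot, h s]
  have h3 : Fintype.card L ≤ p ^ f := by
    calc Fintype.card L = (Finset.univ : Finset L).card := Finset.card_univ.symm
      _ ≤ ((X ^ p ^ f - X : L[X]).roots).toFinset.card := Finset.card_le_card h2
      _ ≤ Multiset.card (X ^ p ^ f - X : L[X]).roots := Multiset.toFinset_card_le _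
      _ ≤ (X ^ p ^ f - X : L[X]).natDegree := Polynomial.card_roots' _
      _ = p ^ f := hdeg
  rw [← Nat.card_eq_fintype_card, h1] at h3
  exact (Nat.pow_le_pow_iff_right hp1).mp h3

lemma pow_pow_eq_self {M : Type*} [Monoid M] {τ : M} (hτ : τ ^ q = 1) (f : ℕ)
    (hf : (p : ZMod q) ^ f = 1) : τ ^ (p ^ f) = τ := by
  have h1 : ((p ^ f : ℕ) : ZMod q) = ((1 : ℕ) : ZMod q) := by
    push_cast
    exact hf
  have h2 : p ^ f ≡ 1 [MOD q] := (ZMod.natCast_eq_natCast_iff _ _ _).1 h1
  have h3 : τ ^ (p ^ f) = τ ^ (p ^ f % q) := by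
    conv_lhs => rw [← Nat.div_add_mod (p ^ f) q, pow_add, pow_mul, hτ, one_pow, one_mul]
  have h4 : p ^ f % q = 1 := by
    have := h2
    rw [Nat.ModEq, Nat.mod_eq_of_lt hq.out.one_lt] at this
    exact this
  rw [h3, h4, pow_one]

/-- Frobenius bound in `AdjoinRoot`. -/
lemma natDegree_le_of_frob {φ : F[X]} (hφ : Irreducible φ) (f : ℕ) (hf : f ≠ 0)
    (hτ : haveI : Fact (Irreducible φ) := ⟨hφ⟩; (AdjoinRoot.root φ) ^ (p ^ f) = AdjoinRoot.root φ) :
    φ.natDegree ≤ f := by
  haveI : Fact (Irreducible φ) := ⟨hφ⟩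
  have hφ0 : φ ≠ 0 := hφ.ne_zero
  have hfrob' : ∀ s : AdjoinRoot φ, s ^ (p ^ f) = s := by
    intro s
    obtain ⟨g, rfl⟩ := AdjoinRoot.mk_surjective s
    rw [← AdjoinRoot.aeval_eq]
    exact frob_fix _ f hτ g
  haveI : Module.Finite F (AdjoinRoot φ) := (AdjoinRoot.powerBasis hφ0).finite
  have hfr : Module.finrank F (AdjoinRoot φ) = φ.natDegree := by
    rw [(AdjoinRoot.powerBasis hφ0).finrank]
    simp
  have h1 := finrank_le (p := p) (L := AdjoinRoot φ) f hf hfrob'
  rwa [hfr] at h1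

/-- The number of roots bound. -/
lemma card_Ico_le_natDegree {φ : F[X]} (hφ : Irreducible φ)
    (τ : AdjoinRoot φ) (hordτ : orderOf τ = q)
    (hroot : ∀ k : ℕ, k.Coprime q → aeval (τ ^ k) φ = 0) : q - 1 ≤ φ.natDegree := by
  classical
  haveI : Fact (Irreducible φ) := ⟨hφ⟩
  have hφ0 : φ ≠ 0 := hφ.ne_zero
  let S : Finset (AdjoinRoot φ) := (φ.aroots (AdjoinRoot φ)).toFinset
  have hS : S.card ≤ φ.natDegree := by
    calc S.card ≤ Multiset.card (φ.aroots (AdjoinRoot φ)) := Multiset.toFinset_card_le _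
      _ ≤ (φ.map (algebraMap F (AdjoinRoot φ))).natDegree := Polynomial.card_roots' _
      _ = φ.natDegree := natDegree_map _
  have hmaps : ∀ i ∈ Finset.Ico 1 q, τ ^ i ∈ S := by
    intro i hi
    obtain ⟨hi1, hi2⟩ := Finset.mem_Ico.mp hi
    have hcop : i.Coprime q := (Nat.coprime_of_lt_prime (by omega) hi2 hq.out).symm
    simp only [S, Multiset.mem_toFinset]
    rw [mem_aroots]
    exact ⟨hφ0, hroot i hcop⟩
  have hinj : Set.InjOn (fun i : ℕ => τ ^ i) (Finset.Ico 1 q : Set ℕ) := by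
    intro i hi j hj hij
    have hi' := (Finset.mem_Ico.mp hi).2
    have hj' := (Finset.mem_Ico.mp hj).2
    apply pow_injOn_Iio_orderOf (x := τ)
    · rw [Set.mem_Iio, hordτ]; exact hi'
    · rw [Set.mem_Iio, hordτ]; exact hj'
    · exact hij
  have h1 := Finset.card_le_card_of_injOn _ hmaps hinj
  rw [Nat.card_Ico] at h1
  omega

/-- The core computation. -/
theorem orderOf_eq [Nontrivial V] (hpq : p ≠ q) (T : Module.End F V) (hTq : T ^ q = 1)
    (hfix : ∀ v, T v = v → v = 0)
    (htrans : ∀ v w : V, v ≠ 0 → w ≠ 0 → ∃ (A : V ≃ₗ[F] V) (k : ℕ), (∀ u, A (T u) = (T ^ k) (A u)) ∧ A v = w)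
    (hk : ∀ k : ℕ, k.Coprime q → ∃ A : V ≃ₗ[F] V, ∀ u, A (T u) = (T ^ k) (A u)) :
    orderOf (p : ZMod q) = q - 1 := by
  classical
  obtain ⟨φ, hφ, hφT⟩ := exists_irreducible T htrans
  haveI : Fact (Irreducible φ) := ⟨hφ⟩
  have hφ0 : φ ≠ 0 := hφ.ne_zero
  -- τ has order q
  have hτ_aeval : ∀ g : F[X], aeval T g = 0 → aeval (AdjoinRoot.root φ) g = 0 := by
    intro g hg
    have h1 := dvd_of_aeval_eq_zero hφ hφT hg
    rw [AdjoinRoot.aeval_eq]
    exact AdjoinRoot.mk_eq_zero.2 h1
  have hτq : (AdjoinRoot.root φ) ^ q = 1 := by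
    have h1 := hτ_aeval (X ^ q - 1) (by simp [hTq])
    simpa [sub_eq_zero] using h1
  have hτ1 : AdjoinRoot.root φ ≠ 1 := by
    intro h1
    have h2 : aeval (AdjoinRoot.root φ) (X - 1 : F[X]) = 0 := by simp [h1]
    rw [AdjoinRoot.aeval_eq] at h2
    have h3 := AdjoinRoot.mk_eq_zero.1 h2
    have h4 : aeval T (X - 1 : F[X]) = 0 := by
      obtain ⟨c, hc⟩ := h3
      rw [hc, map_mul, hφT, zero_mul]
    have h5 : T = 1 := by
      simpa [sub_eq_zero] using h4
    obtain ⟨v, hv⟩ := exists_ne (0 : V)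
    exact hv (hfix v (by rw [h5]; rfl))
  have hordτ : orderOf (AdjoinRoot.root φ) = q := orderOf_eq_prime hτq hτ1
  -- powers of τ are roots of φ
  have hroot : ∀ k : ℕ, k.Coprime q → aeval ((AdjoinRoot.root φ) ^ k) φ = 0 := by
    intro k hkq
    obtain ⟨A, hA⟩ := hk k hkq
    have h1 : aeval (T ^ k) φ = 0 := by
      refine LinearMap.ext fun u => ?_
      obtain ⟨u', rfl⟩ := A.surjective u
      rw [← intertwine A hA, hφT]
      simp
    have h2 : aeval T (φ.comp (X ^ k)) = 0 := by
      rw [aeval_comp]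
      simpa using h1
    have h3 := hτ_aeval _ h2
    rw [aeval_comp] at h3
    simpa using h3
  -- lower bound for the degree
  have hdeg : q - 1 ≤ φ.natDegree := card_Ico_le_natDegree hφ _ hordτ hroot
  -- the Frobenius bound
  have hp0 : (p : ZMod q) ≠ 0 := by
    intro h0
    rw [ZMod.natCast_eq_zero_iff] at h0
    exact hpq ((Nat.prime_dvd_prime_iff_eq hq.out hp.out).1 h0).symm
  have hfdvd : orderOf (p : ZMod q) ∣ q - 1 := ZMod.orderOf_dvd_card_sub_one hp0
  have hfpos : orderOf (p : ZMod q) ≠ 0 := by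
    intro h0
    rw [h0] at hfdvd
    have := Nat.eq_zero_of_zero_dvd hfdvd
    have := hq.out.two_le
    omega
  have hfle : orderOf (p : ZMod q) ≤ q - 1 :=
    Nat.le_of_dvd (by have := hq.out.two_le; omega) hfdvd
  have hpf := pow_pow_eq_self (p := p) hτq (orderOf (p : ZMod q)) (pow_orderOf_eq_one _)
  have h1 := natDegree_le_of_frob hφ _ hfpos hpf
  omega

/-- The version with additive automorphisms. -/
theorem orderOf_eq_add [Nontrivial V] (hpq : p ≠ q) (T : Module.End F V) (hTq : T ^ q = 1)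
    (hfix : ∀ v, T v = v → v = 0)
    (htrans : ∀ v w : V, v ≠ 0 → w ≠ 0 → ∃ (A : V ≃+ V) (k : ℕ), (∀ u, A (T u) = (T ^ k) (A u)) ∧ A v = w)
    (hk : ∀ k : ℕ, k.Coprime q → ∃ A : V ≃+ V, ∀ u, A (T u) = (T ^ k) (A u)) :
    orderOf (p : ZMod q) = q - 1 := by
  have hconv : ∀ e : V ≃+ V, ∃ A : V ≃ₗ[F] V, ∀ u, A u = e u := fun e =>
    ⟨e.toLinearEquiv (fun c x => ZMod.map_smul (e : V →+ V) c x), fun _ => rfl⟩
  apply orderOf_eq hpq T hTq hfix
  · intro v w hv hw
    obtain ⟨e, k, h1, h2⟩ := htrans v w hv hw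
    obtain ⟨A, hA⟩ := hconv e
    exact ⟨A, k, fun u => by rw [hA, hA, h1], by rw [hA, h2]⟩
  · intro k hkq
    obtain ⟨e, h1⟩ := hk k hkq
    obtain ⟨A, hA⟩ := hconv e
    exact ⟨A, fun u => by rw [hA, hA, h1]⟩

end Cfsg.Agent.Lib.AutOrbits.Core
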