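import Cfsg.Prelude
import Cfsg.Agent.Lib.AutOrbits.Mul
import Cfsg.Agent.Lib.AutOrbits.Orbits
import Cfsg.Agent.Lib.AutOrbits.Semi
import Cfsg.Agent.Lib.AutOrbits.Backward
import Cfsg.Agent.Lib.Char.Burnside
import Cfsg.Agent.Lib.FPF.Concrete

/-!
# Laffey–MacHale: three automorphism orbits force the structure
-/

set_option autoImplicit false
set_option linter.style.haveILetI false
set_option linter.unusedSectionVars false

namespace Cfsg.Agent.Lib.AutOrbits.Forward

variable {G : Type*} [Group G] [Finite G]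

open Subgroup
open scoped commutatorElement

/-- The order of a Sylow `q`-subgroup is `q`. -/
lemma card_sylow_eq {p q : ℕ} [hp : Fact p.Prime] [hq : Fact q.Prime]
    (hnocomm : ∀ x y : G, orderOf x = q → orderOf y = p → x * y * x⁻¹ ≠ y)
    (hord : ∀ g : G, g = 1 ∨ orderOf g = p ∨ orderOf g = q) (hpq : p ≠ q)
    (D : Subgroup G) [D.Normal] (hcomm : ∀ x ∈ D, ∀ y ∈ D, x * y = y * x)
    (hDo : ∀ d ∈ D, d ≠ 1 → orderOf d = p) (hDnt : D ≠ ⊥) (S : Sylow q G) (b : G) (hbS : b ∈ S) (hb1 : b ≠ 1) :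
    Nat.card S = q := by
  have hSo : ∀ s ∈ (S : Subgroup G), s ≠ 1 → orderOf s = q := by
    intro s hs hs1
    obtain ⟨k, hk⟩ := (IsPGroup.iff_orderOf.1 S.isPGroup') ⟨s, hs⟩
    have hk' : orderOf s = q ^ k := by
      rw [← hk]
      exact (Subgroup.orderOf_mk s hs).symm
    rcases hord s with h | h | h
    · exact absurd h hs1
    · rw [hk'] at h
      have h1 : p ∣ q ^ k := h ▸ dvd_refl _
      have h2 := hp.out.dvd_of_dvd_pow h1
      exact absurd ((Nat.prime_dvd_prime_iff_eq hp.out hq.out).1 h2) hpq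
    · exact h
  haveI : Nontrivial (S : Subgroup G) := ⟨⟨⟨b, hbS⟩, 1, fun h => hb1 (congrArg Subtype.val h)⟩⟩
  haveI := IsPGroup.center_nontrivial (S.isPGroup')
  obtain ⟨z₀, hz₀⟩ := exists_ne (1 : center (S : Subgroup G))
  set z : G := ((z₀ : (S : Subgroup G)) : G) with hz
  have hzS : z ∈ (S : Subgroup G) := (z₀ : (S : Subgroup G)).2
  have hz1 : z ≠ 1 := by
    intro h
    apply hz₀
    apply Subtype.ext
    apply Subtype.ext
    exact h
  have hzcomm : ∀ s ∈ (S : Subgroup G), z * s = s * z := by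
    intro s hs
    have := (Subgroup.mem_center_iff.1 z₀.2) ⟨s, hs⟩
    exact (congrArg Subtype.val this).symm
  have hzo := hSo z hzS hz1
  have hmain : ∀ u ∈ (S : Subgroup G), u ∈ zpowers z := by
    intro u hu
    have hk : ∀ x ∈ ({z, u} : Set G), ∀ y ∈ ({z, u} : Set G), x * y = y * x := by
      intro x hx y hy
      rcases hx with rfl | rfl <;> rcases hy with rfl | rfl
      · rfl
      · exact hzcomm _ hu
      · exact (hzcomm _ hu).symm
      · rfl
    let A : Subgroup G := closure ({z, u} : Set G)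
    have hAS : A ≤ S := by
      rw [closure_le]
      intro x hx
      rcases hx with rfl | rfl
      · exact hzS
      · exact hu
    have hA : ∀ a ∈ A, ∀ c ∈ A, a * c = c * a := by
      intro a ha c hc
      have := (isMulCommutative_closure hk).is_comm.comm (⟨a, ha⟩ : closure ({z, u} : Set G)) ⟨c, hc⟩
      exact congrArg Subtype.val this
    have hcyc : IsCyclic A := FPF.Concrete.isCyclic_of_comm A D hcomm hDnt (by
        rw [normalizer_eq_top]; exact le_top) (by
        intro a ha ha1 v hv hav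
        by_contra hv1
        apply hnocomm a v (hSo a (hAS ha) ha1) (hDo v hv hv1)
        rw [hav, mul_inv_cancel_right]) hA
    obtain ⟨g, hg⟩ := hcyc.exists_generator
    have hcardA : Nat.card A = q := by
      rw [← orderOf_eq_card_of_forall_mem_zpowers hg]
      have hg1 : g ≠ 1 := by
        rintro rfl
        have : (⟨z, subset_closure (by simp)⟩ : A) ∈ zpowers (1 : A) := hg _
        rw [zpowers_one_eq_bot, mem_bot] at this
        exact hz1 (congrArg Subtype.val this)
      have h1 := hSo g (hAS g.2) (fun h => hg1 (Subtype.ext h))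
      rw [← h1]
      exact (Subgroup.orderOf_coe g).symm
    have hle : zpowers z ≤ A := by
      rw [zpowers_le]
      exact subset_closure (by simp)
    have heq : zpowers z = A := by
      apply Subgroup.eq_of_le_of_card_ge hle
      rw [hcardA, Nat.card_zpowers, hzo]
    rw [heq]
    exact subset_closure (by simp)
  have hSz : (S : Subgroup G) = zpowers z := by
    apply le_antisymm
    · exact hmain
    · rw [zpowers_le]; exact hzS
  change Nat.card (S : Subgroup G) = q
  rw [hSz, Nat.card_zpowers, hzo]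

/-- The core of the forward direction. -/
theorem forward_core {p q a' b' : ℕ} [hp : Fact p.Prime] [hq : Fact q.Prime] (hpq : p ≠ q)
    (hord : ∀ g : G, g = 1 ∨ orderOf g = p ∨ orderOf g = q)
    (htrans : ∀ g h : G, orderOf g = orderOf h → ∃ α : MulAut G, α g = h)
    (a b : G) (ha : orderOf a = p) (hb : orderOf b = q)
    (D : Subgroup G) (hDchar : ∀ (α : MulAut G), ∀ d ∈ D, α d ∈ D)
    (hcomm : ∀ x ∈ D, ∀ y ∈ D, x * y = y * x) (haD : a ∈ D)
    (hN : Nat.card G = p ^ a' * q ^ b') :
    ∃ n : ℕ, 1 ≤ n ∧ Nat.card G = p ^ n * q ∧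
      (∀ P : Sylow p G, (P : Subgroup G).Normal ∧ Cfsg.IsElementaryAbelian p (P : Subgroup G)) ∧
      orderOf (p : ZMod q) = q - 1 ∧
      ∀ x y : G, orderOf x = q → orderOf y = p → x * y * x⁻¹ ≠ y := by
  have hpcop : Nat.Coprime p q := (Nat.coprime_primes hp.out hq.out).2 hpq
  have hnocomm : ∀ x y : G, orderOf x = q → orderOf y = p → x * y * x⁻¹ ≠ y := by
    intro x y hx hy h
    have hc : Commute x y := by
      have := h
      rw [mul_inv_eq_iff_eq_mul] at this
      exact this
    have h1 := hc.orderOf_mul_eq_mul_orderOf_of_coprime (by rw [hx, hy]; exact hpcop.symm)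
    rw [hx, hy] at h1
    have hp2 := hp.out.two_le
    have hq2 := hq.out.two_le
    rcases hord (x * y) with h2 | h2 | h2
    · rw [h2, orderOf_one] at h1
      nlinarith
    · rw [h2] at h1
      nlinarith
    · rw [h2] at h1
      nlinarith
  have ha1 : a ≠ 1 := by
    rintro rfl
    rw [orderOf_one] at ha
    exact hp.out.one_lt.ne ha
  have hb1 : b ≠ 1 := by
    rintro rfl
    rw [orderOf_one] at hb
    exact hq.out.one_lt.ne hb
  have hDo : ∀ d ∈ D, d ≠ 1 → orderOf d = p := by
    intro d hd hd1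
    rcases hord d with h | h | h
    · exact absurd h hd1
    · exact h
    · exfalso
      apply hnocomm d a h ha
      rw [hcomm d hd a haD, mul_inv_cancel_right]
  have hDp : ∀ d ∈ D, d ^ p = 1 := by
    intro d hd
    by_cases hd1 : d = 1
    · rw [hd1, one_pow]
    · rw [← hDo d hd hd1]
      exact pow_orderOf_eq_one d
  have hmemD : ∀ y : G, orderOf y = p → y ∈ D := by
    intro y hy
    obtain ⟨α, rfl⟩ := htrans a y (by rw [ha, hy])
    exact hDchar α a haD
  haveI hDnormal : D.Normal := ⟨fun n hn g => hDchar (MulAut.conj g) n hn⟩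
  have hDnt : D ≠ ⊥ := by
    intro h
    rw [h, mem_bot] at haD
    exact ha1 haD
  have hDpg : IsPGroup p D := fun d => ⟨1, by
    apply Subtype.ext
    simpa using hDp d d.2⟩
  have hP : ∀ P : Sylow p G, D = (P : Subgroup G) := by
    intro P
    apply P.3 hDpg
    intro y hy
    obtain ⟨k, hk⟩ := (IsPGroup.iff_orderOf.1 P.isPGroup') ⟨y, hy⟩
    have hk' : orderOf y = p ^ k := by
      rw [← hk]
      exact (Subgroup.orderOf_mk y hy).symm
    rcases hord y with h | h | h
    · rw [h]; exact D.one_mem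
    · exact hmemD y h
    · rw [hk'] at h
      have h1 : q ∣ p ^ k := h ▸ dvd_refl _
      have h2 := hq.out.dvd_of_dvd_pow h1
      exact absurd ((Nat.prime_dvd_prime_iff_eq hq.out hp.out).1 h2).symm hpq
  -- the Sylow `q`-subgroup
  have hbp : IsPGroup q (zpowers b) := by
    rw [IsPGroup.iff_card, Nat.card_zpowers, hb]
    exact ⟨1, (pow_one q).symm⟩
  obtain ⟨S, hS⟩ := hbp.exists_le_sylow
  have hSb : b ∈ (S : Subgroup G) := hS (mem_zpowers b)
  have hcS := card_sylow_eq hnocomm hord hpq D hcomm hDo hDnt S b hSb hb1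
  -- the order of `G`
  have hb'le : b' ≤ 1 := by
    have h1 : q ^ b' ∣ Nat.card S := S.pow_dvd_card_of_pow_dvd_card (by rw [hN]; exact dvd_mul_left _ _)
    rw [hcS] at h1
    have h2 := (Nat.pow_dvd_pow_iff_le_right hq.out.one_lt).1 (by simpa using h1 : q ^ b' ∣ q ^ 1)
    exact h2
  have hb'1 : b' = 1 := by
    have h1 : q ∣ p ^ a' * q ^ b' := by
      rw [← hN, ← hb]
      exact orderOf_dvd_natCard b
    by_contra h2
    have h3 : b' = 0 := by omega
    rw [h3, pow_zero, mul_one] at h1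
    have h4 := hq.out.dvd_of_dvd_pow h1
    exact hpq ((Nat.prime_dvd_prime_iff_eq hq.out hp.out).1 h4).symm
  subst hb'1
  rw [pow_one] at hN
  have ha'1 : 1 ≤ a' := by
    have h1 : p ∣ p ^ a' * q := by
      rw [← hN, ← ha]
      exact orderOf_dvd_natCard a
    by_contra h2
    have h3 : a' = 0 := by omega
    rw [h3, pow_zero, one_mul] at h1
    exact hpq ((Nat.prime_dvd_prime_iff_eq hp.out hq.out).1 h1)
  refine ⟨a', ha'1, hN, ?_, ?_, hnocomm⟩
  · intro P
    rw [← hP P]
    refine ⟨hDnormal, ⟨⟨fun x y => Subtype.ext (hcomm x x.2 y y.2)⟩⟩, hDp⟩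
  -- the order of `p` modulo `q`
  have hfact : (Nat.card G).factorization q = 1 := by
    rw [hN, Backward.factorization_right hp.out hq.out hpq]
  have hfactp : (Nat.card G).factorization p = a' := by
    rw [hN, Backward.factorization_left hp.out hq.out hpq]
  have hcardD : Nat.card D = p ^ a' := by
    let P₀ : Sylow p G := default
    rw [hP P₀, P₀.card_eq_multiplicity, hfactp]
  have hcommD : ∀ a b : D, a * b = b * a := fun a b => Subtype.ext (hcomm a a.2 b b.2)
  have hexpD : ∀ d : D, d ^ p = 1 := fun d => Subtype.ext (hDp d d.2)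
  have hTq : (MulAut.conjNormal b : MulAut D) ^ q = 1 := by
    rw [← map_pow, ← hb, pow_orderOf_eq_one, map_one]
  have hfix : ∀ d : D, (MulAut.conjNormal b : MulAut D) d = d → d = 1 := by
    intro d hd
    by_contra hd1
    have h1 : (d : G) ≠ 1 := fun h => hd1 (Subtype.ext h)
    apply hnocomm b d hb (hDo d d.2 h1)
    have := congrArg Subtype.val hd
    rwa [MulAut.conjNormal_apply] at this
  have hcK : (zpowers b).IsComplement' D := by
    apply isComplement'_of_coprime
    · rw [hcardD, Nat.card_zpowers, hb, hN, mul_comm]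
    · rw [hcardD, Nat.card_zpowers, hb]
      exact (hpcop.pow_left a').symm
  haveI hDnt' : Nontrivial D := by
    refine ⟨⟨⟨a, haD⟩, 1, fun h => ha1 (congrArg Subtype.val h)⟩⟩
  apply Mul.orderOf_eq hcommD hexpD hpq _ hTq hfix
  · -- transitivity
    intro v w hv hw
    have hv' : (v : G) ≠ 1 := fun h => hv (Subtype.ext h)
    have hw' : (w : G) ≠ 1 := fun h => hw (Subtype.ext h)
    obtain ⟨α, hα⟩ := htrans v w (by rw [hDo v v.2 hv', hDo w w.2 hw'])
    have hαb : orderOf (α b) = q := by rw [MulEquiv.orderOf_eq, hb]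
    obtain ⟨g, k, hgk⟩ := Semi.exists_conj_pow hfact b (α b) hb hαb
    obtain ⟨⟨k₀, u⟩, hku₀, -⟩ := hcK.existsUnique g
    have hku : (k₀ : G) * (u : G) = g := hku₀
    have hcomm0 : Commute (k₀ : G) (b ^ k) := by
      obtain ⟨j, hj⟩ := mem_zpowers_iff.1 k₀.2
      rw [← hj]
      exact (Commute.refl b).zpow_left j |>.pow_right k
    have hu : (u : G) * α b * (u : G)⁻¹ = b ^ k := by
      rw [← hku] at hgk
      have h1 : (k₀ : G) * ((u : G) * α b * (u : G)⁻¹) * (k₀ : G)⁻¹ = b ^ k := by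
        rw [← hgk]
        group
      have h2 := hcomm0.eq
      rw [mul_inv_eq_iff_eq_mul] at h1
      rw [← h2] at h1
      exact mul_left_cancel h1
    let β : MulAut G := MulAut.conj (u : G) * α
    have hβb : β b = b ^ k := by
      change (u : G) * α b * (u : G)⁻¹ = b ^ k
      exact hu
    have hβv : β v = w := by
      change (u : G) * α v * (u : G)⁻¹ = w
      rw [hα, hcomm u u.2 w w.2, mul_inv_cancel_right]
    obtain ⟨A, hA⟩ := Semi.exists_restrict D β (fun d hd => hDchar β d hd)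
    refine ⟨A, k, Semi.restrict_intertwine D β b k hβb A hA, ?_⟩
    apply Subtype.ext
    rw [hA, hβv]
  · intro k hk
    have hbk : orderOf (b ^ k) = q := by
      rw [Nat.Coprime.orderOf_pow (by rw [hb]; exact hk.symm), hb]
    obtain ⟨β, hβ⟩ := htrans b (b ^ k) (by rw [hb, hbk])
    obtain ⟨A, hA⟩ := Semi.exists_restrict D β (fun d hd => hDchar β d hd)
    exact ⟨A, Semi.restrict_intertwine D β b k hβ A hA⟩

/-- Extraction of a nontrivial abelian characteristic subgroup of a solvable group. -/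
lemma exists_abelian_char [Nontrivial G] (hsol : Group.IsSolvable G) :
    ∃ D : Subgroup G, D ≠ ⊥ ∧ (∀ (α : MulAut G), ∀ d ∈ D, α d ∈ D) ∧
      ∀ x ∈ D, ∀ y ∈ D, x * y = y * x := by
  classical
  have hex := (Group.isSolvable_def G).1 hsol
  let n := Nat.find hex
  have hn : derivedSeries G n = ⊥ := Nat.find_spec hex
  have hn0 : n ≠ 0 := by
    intro h0
    rw [h0, derivedSeries_zero] at hn
    exact top_ne_bot hn
  obtain ⟨m, hm⟩ := Nat.exists_eq_succ_of_ne_zero hn0
  have hm' : derivedSeries G m ≠ ⊥ := by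
    have := Nat.find_min hex (m := m) (by omega)
    exact this
  refine ⟨derivedSeries G m, hm', ?_, ?_⟩
  · intro α d hd
    have hchar : (derivedSeries G m).Characteristic := inferInstance
    have := (characteristic_iff_comap_eq.1 hchar) α
    rw [← this] at hd
    exact hd
  · intro x hx y hy
    rw [hm, derivedSeries_succ] at hn
    have h1 : ⁅x, y⁆ ∈ ⁅derivedSeries G m, derivedSeries G m⁆ := commutator_mem_commutator hx hy
    rw [hn, mem_bot] at h1
    exact commutatorElement_eq_one_iff_mul_comm.1 h1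

/-- The forward direction. -/
theorem forward (hnpp : ¬ IsPrimePow (Nat.card G)) (hnt : Nat.card G ≠ 1)
    (h3 : Nat.card (MulAction.orbitRel.Quotient (MulAut G) G) = 3) :
    ∃ (p q n : ℕ) (_ : Fact p.Prime) (_ : Fact q.Prime), p ≠ q ∧ 1 ≤ n ∧ Nat.card G = p ^ n * q ∧
      (∀ P : Sylow p G, (P : Subgroup G).Normal ∧ Cfsg.IsElementaryAbelian p (P : Subgroup G)) ∧
      orderOf (p : ZMod q) = q - 1 ∧
      ∀ x y : G, orderOf x = q → orderOf y = p → x * y * x⁻¹ ≠ y := by
  classical
  have hN0 : Nat.card G ≠ 0 := Nat.card_pos.ne'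
  -- two primes
  have hp' : (Nat.card G).minFac.Prime := Nat.minFac_prime hnt
  have hpd : (Nat.card G).minFac ∣ Nat.card G := Nat.minFac_dvd _
  obtain ⟨q, hq', hqd, hpq⟩ : ∃ q : ℕ, q.Prime ∧ q ∣ Nat.card G ∧ (Nat.card G).minFac ≠ q := by
    by_contra hc
    push Not at hc
    apply hnpp
    rw [isPrimePow_iff_unique_prime_dvd]
    refine ⟨(Nat.card G).minFac, ⟨hp', hpd⟩, ?_⟩
    rintro y ⟨hy1, hy2⟩
    exact (hc y hy1 hy2).symm
  set p := (Nat.card G).minFac with hpdef
  haveI hpf : Fact p.Prime := ⟨hp'⟩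
  haveI hqf : Fact q.Prime := ⟨hq'⟩
  obtain ⟨a, ha⟩ := exists_prime_orderOf_dvd_card' p hpd
  obtain ⟨b, hb⟩ := exists_prime_orderOf_dvd_card' q hqd
  have ha1 : a ≠ 1 := by
    rintro rfl
    rw [orderOf_one] at ha
    exact hp'.one_lt.ne ha
  have hb1 : b ≠ 1 := by
    rintro rfl
    rw [orderOf_one] at hb
    exact hq'.one_lt.ne hb
  have hab : ∀ α : MulAut G, α a ≠ b := by
    intro α h
    have : orderOf (α a) = orderOf a := MulEquiv.orderOf_eq α _
    rw [h, ha, hb] at this
    exact hpq this.symm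
  have hall := Orbits.exists_of_card_orbits h3 a b ha1 hb1 hab
  have hord : ∀ g : G, g = 1 ∨ orderOf g = p ∨ orderOf g = q := by
    intro g
    rcases hall g with h | ⟨α, rfl⟩ | ⟨α, rfl⟩
    · exact Or.inl h
    · right; left
      rw [MulEquiv.orderOf_eq, ha]
    · right; right
      rw [MulEquiv.orderOf_eq, hb]
  have htrans : ∀ g h : G, orderOf g = orderOf h → ∃ α : MulAut G, α g = h := by
    intro g h hgh
    rcases hall g with rfl | ⟨α, rfl⟩ | ⟨α, rfl⟩
    · rw [orderOf_one] at hgh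
      have : h = 1 := orderOf_eq_one_iff.1 hgh.symm
      exact ⟨1, by simp [this]⟩
    · rw [MulEquiv.orderOf_eq, ha] at hgh
      rcases hall h with rfl | ⟨β, rfl⟩ | ⟨β, rfl⟩
      · rw [orderOf_one] at hgh
        exact absurd hgh hp'.one_lt.ne'
      · exact ⟨β * α⁻¹, by simp⟩
      · rw [MulEquiv.orderOf_eq, hb] at hgh
        exact absurd hgh hpq
    · rw [MulEquiv.orderOf_eq, hb] at hgh
      rcases hall h with rfl | ⟨β, rfl⟩ | ⟨β, rfl⟩
      · rw [orderOf_one] at hgh
        exact absurd hgh hq'.one_lt.ne'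
      · rw [MulEquiv.orderOf_eq, ha] at hgh
        exact absurd hgh.symm hpq
      · exact ⟨β * α⁻¹, by simp⟩
  -- the order of `G`
  obtain ⟨a', N₁, hN₁, hN⟩ := Nat.exists_eq_pow_mul_and_not_dvd hN0 p hp'.ne_one
  have hN₁0 : N₁ ≠ 0 := by
    rintro rfl
    exact hN₁ (dvd_zero _)
  obtain ⟨b', N₂, hN₂, hN₁'⟩ := Nat.exists_eq_pow_mul_and_not_dvd hN₁0 q hq'.ne_one
  have hN₂1 : N₂ = 1 := by
    by_contra hne
    have hr := Nat.minFac_prime hne
    have hrd := Nat.minFac_dvd N₂
    have hrd2 : N₂.minFac ∣ Nat.card G := by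
      rw [hN, hN₁']
      exact Dvd.dvd.mul_left (Dvd.dvd.mul_left hrd _) _
    haveI : Fact (N₂.minFac).Prime := ⟨hr⟩
    obtain ⟨c, hc⟩ := exists_prime_orderOf_dvd_card' N₂.minFac hrd2
    rcases hord c with h | h | h
    · rw [h, orderOf_one] at hc
      exact hr.one_lt.ne hc
    · rw [hc] at h
      apply hN₁
      rw [hN₁', ← h]
      exact Dvd.dvd.mul_left hrd _
    · rw [hc] at h
      apply hN₂
      rw [← h]
      exact hrd
  rw [hN₂1, mul_one] at hN₁'
  rw [hN₁'] at hN
  have hsol : Group.IsSolvable G := Char.Burnside.isSolvable_of_card_eq p q a' b' hp' hq' hN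
  haveI hntG : Nontrivial G := ⟨⟨a, 1, ha1⟩⟩
  obtain ⟨D, hD0, hDchar, hDcomm⟩ := exists_abelian_char hsol
  obtain ⟨c, hcD, hc1⟩ := (Subgroup.ne_bot_iff_exists_ne_one.1 hD0).elim fun c hc => (⟨c, c.2, fun h => hc (Subtype.ext h)⟩ : ∃ c : G, c ∈ D ∧ c ≠ 1)
  rcases hord c with h | h | h
  · exact absurd h hc1
  · obtain ⟨n, hn1, hn2, hn3, hn4, hn5⟩ := forward_core hpq hord htrans c b h hb D hDchar hDcomm hcD hN
    exact ⟨p, q, n, hpf, hqf, hpq, hn1, hn2, hn3, hn4, hn5⟩
  · have hord' : ∀ g : G, g = 1 ∨ orderOf g = q ∨ orderOf g = p := fun g => by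
      rcases hord g with h | h | h
      · exact Or.inl h
      · exact Or.inr (Or.inr h)
      · exact Or.inr (Or.inl h)
    obtain ⟨n, hn1, hn2, hn3, hn4, hn5⟩ := forward_core hpq.symm hord' htrans c a h ha D hDchar hDcomm hcD (by rw [hN, mul_comm])
    exact ⟨q, p, n, hqf, hpf, hpq.symm, hn1, hn2, hn3, hn4, hn5⟩

end Cfsg.Agent.Lib.AutOrbits.Forward
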