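import Mathlib

/-!
# Arithmetic for groups with four automorphism orbits
-/

set_option autoImplicit false

namespace Cfsg.Agent.Lib.AutOrbits.Num

/-- One-prime bound. -/
theorem bound3 {g A z k X : ℕ} (hA : 2 ≤ A) (hz : 1 ≤ z)
    (hc : X * (A * k) + g = g * z)
    (halt : (z = A ∧ 2 ≤ k) ∨ (9 * z ≤ A ∧ 1 ≤ k)) (hk2 : k ≠ 2) :
    3 * (A * X) + g ≤ g * A := by
  rcases halt with ⟨rfl, hk⟩ | ⟨h9, hk⟩
  · have hk3 : 3 ≤ k := by omega
    have h1 : z * X * 3 ≤ z * X * k := Nat.mul_le_mul_left _ hk3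
    nlinarith
  · have h1 : z * 9 ≤ A := by omega
    have h2 : X * A * 1 ≤ X * A * k := Nat.mul_le_mul_left _ hk
    have h3 : g * (z * 9) ≤ g * A := Nat.mul_le_mul_left _ h1
    nlinarith

/-- Some normalizer index is two. -/
theorem exists_two {g A1 A2 A3 z1 z2 z3 k1 k2 k3 X1 X2 X3 : ℕ}
    (hg : g = A1 * A2 * A3) (hA1 : 2 ≤ A1) (hA2 : 2 ≤ A2) (hA3 : 2 ≤ A3)
    (hz1 : 1 ≤ z1) (hz2 : 1 ≤ z2) (hz3 : 1 ≤ z3)
    (hc1 : X1 * (A1 * k1) + g = g * z1)
    (hc2 : X2 * (A2 * k2) + g = g * z2)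
    (hc3 : X3 * (A3 * k3) + g = g * z3)
    (halt1 : (z1 = A1 ∧ 2 ≤ k1) ∨ (9 * z1 ≤ A1 ∧ 1 ≤ k1))
    (halt2 : (z2 = A2 ∧ 2 ≤ k2) ∨ (9 * z2 ≤ A2 ∧ 1 ≤ k2))
    (halt3 : (z3 = A3 ∧ 2 ≤ k3) ∨ (9 * z3 ≤ A3 ∧ 1 ≤ k3))
    (hsum : X1 + X2 + X3 + 1 = g) : k1 = 2 ∨ k2 = 2 ∨ k3 = 2 := by
  by_contra hne
  push_neg at hne
  have h1 := bound3 hA1 hz1 hc1 halt1 hne.1
  have h2 := bound3 hA2 hz2 hc2 halt2 hne.2.1
  have h3 := bound3 hA3 hz3 hc3 halt3 hne.2.2
  -- cancel
  have h1' : 3 * X1 + A2 * A3 ≤ g := by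
    have : A1 * (3 * X1 + A2 * A3) ≤ A1 * g := by
      subst hg
      nlinarith
    exact Nat.le_of_mul_le_mul_left this (by omega)
  have h2' : 3 * X2 + A1 * A3 ≤ g := by
    have : A2 * (3 * X2 + A1 * A3) ≤ A2 * g := by
      subst hg
      nlinarith
    exact Nat.le_of_mul_le_mul_left this (by omega)
  have h3' : 3 * X3 + A1 * A2 ≤ g := by
    have : A3 * (3 * X3 + A1 * A2) ≤ A3 * g := by
      subst hg
      nlinarith
    exact Nat.le_of_mul_le_mul_left this (by omega)
  have h4 : 4 ≤ A2 * A3 := by nlinarith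
  have h5 : 4 ≤ A1 * A3 := by nlinarith
  have h6 : 4 ≤ A1 * A2 := by nlinarith
  omega

/-- Non-abelian `R` is impossible when `P` has normalizer index two. -/
theorem no_nonab {n a b k kr XT Xp Xr zr : ℕ} (hn : 2 ≤ n) (ha : 3 ≤ a) (hb : 3 ≤ b)
    (hk : 3 ≤ k) (hkr : 1 ≤ kr)
    (hT : XT * k + a * b = a * b * n) (hP : 2 * Xp + n * b = n * b * a)
    (hR : Xr * kr + n * a = n * a * zr) (h9 : 9 * zr ≤ b)
    (hsum : XT + Xp + Xr + 1 = n * a * b) : False := by
  have h1 : XT * 3 ≤ XT * k := Nat.mul_le_mul_left _ hk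
  have h2 : Xr * 1 ≤ Xr * kr := Nat.mul_le_mul_left _ hkr
  have h3 : n * a * (9 * zr) ≤ n * a * b := Nat.mul_le_mul_left _ h9
  have h4 : 2 * 3 ≤ n * b := Nat.mul_le_mul hn hb
  nlinarith

/-- The index pairs left when `R` is abelian with `kr ≠ 2`. -/
theorem index_cases {n a b k kr XT Xp Xr : ℕ} (hn : 2 ≤ n) (ha : 3 ≤ a) (hb : 3 ≤ b)
    (hk : 3 ≤ k) (hkodd : k % 2 = 1) (hkr : 3 ≤ kr) (hkr4 : kr ≠ 4)
    (hT : XT * k + a * b = a * b * n) (hP : 2 * Xp + n * b = n * b * a)
    (hR : Xr * kr + n * a = n * a * b)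
    (hsum : XT + Xp + Xr + 1 = n * a * b) :
    (k = 3 ∧ kr = 3) ∨ (k = 3 ∧ kr = 5) ∨ (k = 5 ∧ kr = 3) := by
  have h4 : 2 * 3 ≤ n * b := Nat.mul_le_mul hn hb
  have h5 : 2 * 3 ≤ n * a := Nat.mul_le_mul hn ha
  have hk7 : k = 3 ∨ k = 5 ∨ 7 ≤ k := by omega
  rcases hk7 with rfl | rfl | hk7
  · -- k = 3
    have hkr6 : kr = 3 ∨ kr = 5 ∨ 6 ≤ kr := by omega
    rcases hkr6 with rfl | rfl | hkr6
    · exact Or.inl ⟨rfl, rfl⟩
    · exact Or.inr (Or.inl ⟨rfl, rfl⟩)
    · exfalso
      have h1 : Xr * 6 ≤ Xr * kr := Nat.mul_le_mul_left _ hkr6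
      nlinarith
  · -- k = 5
    have hkr4' : kr = 3 ∨ 5 ≤ kr := by omega
    rcases hkr4' with rfl | hkr5
    · exact Or.inr (Or.inr ⟨rfl, rfl⟩)
    · exfalso
      have h1 : Xr * 5 ≤ Xr * kr := Nat.mul_le_mul_left _ hkr5
      nlinarith
  · exfalso
    have h1 : XT * 7 ≤ XT * k := Nat.mul_le_mul_left _ hk7
    have h2 : Xr * 3 ≤ Xr * kr := Nat.mul_le_mul_left _ hkr
    nlinarith

/-- Case `(3,3)`. -/
theorem case33 {n a b e XT Xp Xr : ℕ} (hn : 2 ≤ n) (hn3 : n % 3 = 1) (hb3 : b % 3 = 1) (hb : 3 ≤ b)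
    (ha : a = 3 ^ e) (he : 1 ≤ e) (hbodd : b % 2 = 1)
    (hT : XT * 3 + a * b = a * b * n) (hP : 2 * Xp + n * b = n * b * a)
    (hR : Xr * 3 + n * a = n * a * b)
    (hsum : XT + Xp + Xr + 1 = n * a * b) : False := by
  have hE : n * a * b + 6 = 2 * (a * b) + 3 * (n * b) + 2 * (n * a) := by nlinarith
  have hb7 : 7 ≤ b := by omega
  have hn4 : 4 ≤ n := by omega
  rcases (by omega : e = 1 ∨ e = 2 ∨ 3 ≤ e) with rfl | rfl | he3
  · subst ha
    norm_num at hE
    nlinarith
  · subst ha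
    norm_num at hE
    have h1 : n * b + 1 = 3 * b + 3 * n := by nlinarith
    have hn5 : n ≤ 5 := by nlinarith
    interval_cases n <;> omega
  · have ha27 : 27 ≤ a := by
      rw [ha]
      calc 27 = 3 ^ 3 := by norm_num
        _ ≤ 3 ^ e := Nat.pow_le_pow_right (by norm_num) he3
    obtain ⟨a', rfl⟩ := Nat.exists_eq_add_of_le ha27
    obtain ⟨b', rfl⟩ := Nat.exists_eq_add_of_le hb7
    obtain ⟨n', rfl⟩ := Nat.exists_eq_add_of_le hn4
    ring_nf at hE
    nlinarith [Nat.zero_le (a' * b'), Nat.zero_le (a' * n'), Nat.zero_le (b' * n'),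
      Nat.zero_le (a' * b' * n')]

/-- Case `(3,5)`. -/
theorem case35 {n a b e f XT Xp Xr : ℕ} (hf : n = 2 ^ f) (hn : 2 ≤ n) (hn3 : n % 3 = 1) (hb : 81 ≤ b)
    (ha : a = 5 ^ e) (he : 1 ≤ e)
    (hT : XT * 3 + a * b = a * b * n) (hP : 2 * Xp + n * b = n * b * a)
    (hR : Xr * 5 + n * a = n * a * b)
    (hsum : XT + Xp + Xr + 1 = n * a * b) : False := by
  have hE : n * a * b + 30 = 10 * (a * b) + 15 * (n * b) + 6 * (n * a) := by nlinarith
  have hnb : 2 * 81 ≤ n * b := Nat.mul_le_mul hn hb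
  rcases (by omega : e = 1 ∨ e = 2 ∨ 3 ≤ e) with rfl | rfl | he3
  · subst ha
    norm_num at hE
    nlinarith
  · subst ha
    norm_num at hE
    have h1 : n * b + 3 = 25 * b + 15 * n := by nlinarith
    have hn26 : 26 ≤ n := by
      by_contra hlt
      have : n ≤ 25 := by omega
      have h2 : n * b ≤ 25 * b := Nat.mul_le_mul_right _ this
      omega
    have hn30 : n ≤ 30 := by
      by_contra hlt
      have h31 : 31 ≤ n := by omega
      obtain ⟨n', rfl⟩ := Nat.exists_eq_add_of_le h31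
      obtain ⟨b', rfl⟩ := Nat.exists_eq_add_of_le hb
      ring_nf at h1
      nlinarith [Nat.zero_le (n' * b')]
    have hf5 : f < 5 ∨ 5 ≤ f := by omega
    rcases hf5 with h5 | h5
    · have : 2 ^ f ≤ 2 ^ 4 := Nat.pow_le_pow_right (by norm_num) (by omega)
      rw [← hf] at this
      omega
    · have : 2 ^ 5 ≤ 2 ^ f := Nat.pow_le_pow_right (by norm_num) h5
      rw [← hf] at this
      omega
  · have ha125 : 125 ≤ a := by
      rw [ha]
      calc 125 = 5 ^ 3 := by norm_num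
        _ ≤ 5 ^ e := Nat.pow_le_pow_right (by norm_num) he3
    have hn16 : n = 4 ∨ 16 ≤ n := by
      have hf4 : f = 0 ∨ f = 1 ∨ f = 2 ∨ f = 3 ∨ 4 ≤ f := by omega
      rcases hf4 with rfl | rfl | rfl | rfl | h4
      · norm_num at hf; omega
      · norm_num at hf; omega
      · norm_num at hf; omega
      · norm_num at hf; omega
      · right
        have : 2 ^ 4 ≤ 2 ^ f := Nat.pow_le_pow_right (by norm_num) h4
        rw [← hf] at this
        omega
    rcases hn16 with rfl | hn16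
    · nlinarith [Nat.zero_le (a * b)]
    · obtain ⟨a', rfl⟩ := Nat.exists_eq_add_of_le ha125
      obtain ⟨b', rfl⟩ := Nat.exists_eq_add_of_le hb
      obtain ⟨n', rfl⟩ := Nat.exists_eq_add_of_le hn16
      ring_nf at hE
      nlinarith [Nat.zero_le (a' * b'), Nat.zero_le (a' * n'), Nat.zero_le (b' * n'),
        Nat.zero_le (a' * b' * n')]

/-- Case `(5,3)`. -/
theorem case53 {n a b e f XT Xp Xr : ℕ} (hf : n = 2 ^ f) (hn : 16 ≤ n) (hb3 : b % 3 = 1) (hb : 25 ≤ b)
    (ha : a = 3 ^ e) (he : 1 ≤ e)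
    (hT : XT * 5 + a * b = a * b * n) (hP : 2 * Xp + n * b = n * b * a)
    (hR : Xr * 3 + n * a = n * a * b)
    (hsum : XT + Xp + Xr + 1 = n * a * b) : False := by
  have hE : n * a * b + 30 = 6 * (a * b) + 15 * (n * b) + 10 * (n * a) := by nlinarith
  have hnb : 16 * 25 ≤ n * b := Nat.mul_le_mul hn hb
  rcases (by omega : e = 1 ∨ e = 2 ∨ e = 3 ∨ 4 ≤ e) with rfl | rfl | rfl | he3
  · subst ha
    norm_num at hE
    nlinarith
  · subst ha
    norm_num at hE
    nlinarith
  · subst ha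
    norm_num at hE
    have h1 : 2 * (n * b) + 5 = 27 * b + 45 * n := by nlinarith
    have hn134 : n ≤ 134 := by
      by_contra hlt
      have h135 : 135 ≤ n := by omega
      obtain ⟨n', rfl⟩ := Nat.exists_eq_add_of_le h135
      obtain ⟨b', rfl⟩ := Nat.exists_eq_add_of_le hb
      ring_nf at h1
      nlinarith [Nat.zero_le (n' * b')]
    have hf8 : f < 8 := by
      by_contra hlt
      have : 2 ^ 8 ≤ 2 ^ f := Nat.pow_le_pow_right (by norm_num) (by omega)
      rw [← hf] at this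
      omega
    interval_cases f <;> norm_num at hf <;> subst hf <;> omega
  · have ha81 : 81 ≤ a := by
      rw [ha]
      calc 81 = 3 ^ 4 := by norm_num
        _ ≤ 3 ^ e := Nat.pow_le_pow_right (by norm_num) he3
    obtain ⟨a', rfl⟩ := Nat.exists_eq_add_of_le ha81
    obtain ⟨b', rfl⟩ := Nat.exists_eq_add_of_le hb
    obtain ⟨n', rfl⟩ := Nat.exists_eq_add_of_le hn
    ring_nf at hE
    nlinarith [Nat.zero_le (a' * b'), Nat.zero_le (a' * n'), Nat.zero_le (b' * n'),
      Nat.zero_le (a' * b' * n')]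

/-- Divisibility of `n a b` by a prime not dividing `n`, `b`. -/
theorem eq_of_dvd_pow {q p e : ℕ} (hq : q.Prime) (hp : p.Prime) (h : q ∣ p ^ e) : q = p :=
  (Nat.prime_dvd_prime_iff_eq hq hp).1 (hq.dvd_of_dvd_pow h)

/-- An odd prime does not divide a power of two. -/
theorem not_dvd_two_pow {q f : ℕ} (hq : q.Prime) (hq2 : q ≠ 2) : ¬ q ∣ 2 ^ f := fun h =>
  hq2 ((Nat.prime_dvd_prime_iff_eq hq Nat.prime_two).1 (hq.dvd_of_dvd_pow h))

/-- `kr ≠ 2` (with the rest of the data) is impossible. -/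
theorem no_kr {n a b p r e h f k kr XT Xp Xr : ℕ} (hf : n = 2 ^ f) (hn : 2 ≤ n)
    (hp : p.Prime) (hr : r.Prime) (hp2 : p ≠ 2) (hr2 : r ≠ 2) (ha : a = p ^ e) (hb : b = r ^ h)
    (he : 1 ≤ e) (hh : 1 ≤ h)
    (hk : 3 ≤ k) (hkodd : k % 2 = 1) (hkr : 3 ≤ kr) (hkr4 : kr ≠ 4)
    (hkn : k ∣ n - 1) (hkrb : kr ∣ b - 1) (hkg : k ∣ n * a * b) (hkrg : kr ∣ n * a * b)
    (hT : XT * k + a * b = a * b * n) (hP : 2 * Xp + n * b = n * b * a)
    (hR : Xr * kr + n * a = n * a * b)
    (hsum : XT + Xp + Xr + 1 = n * a * b) : False := by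
  have hp3 : 3 ≤ p := by
    have := hp.two_le
    omega
  have hr3 : 3 ≤ r := by
    have := hr.two_le
    omega
  have ha3 : 3 ≤ a := by
    rw [ha]
    calc 3 ≤ p := hp3
      _ = p ^ 1 := (pow_one p).symm
      _ ≤ p ^ e := Nat.pow_le_pow_right hp.pos he
  have hb3 : 3 ≤ b := by
    rw [hb]
    calc 3 ≤ r := hr3
      _ = r ^ 1 := (pow_one r).symm
      _ ≤ r ^ h := Nat.pow_le_pow_right hr.pos hh
  have hbodd : b % 2 = 1 := by
    rw [hb]
    have : Odd r := hr.odd_of_ne_two hr2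
    exact Nat.odd_iff.1 (this.pow)
  have hq3 : Nat.Prime 3 := by norm_num
  have hq5 : Nat.Prime 5 := by norm_num
  rcases index_cases hn ha3 hb3 hk hkodd hkr hkr4 hT hP hR hsum with ⟨rfl, rfl⟩ | ⟨rfl, rfl⟩ | ⟨rfl, rfl⟩
  · -- (3,3)
    have hb1 : b % 3 = 1 := by omega
    have hn1 : n % 3 = 1 := by omega
    have h3a : 3 ∣ a := by
      have h1 := (Nat.Prime.dvd_mul hq3).1 hkg
      rcases h1 with h1 | h1
      · rcases (Nat.Prime.dvd_mul hq3).1 h1 with h2 | h2
        · rw [hf] at h2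
          exact absurd h2 (not_dvd_two_pow hq3 (by norm_num))
        · exact h2
      · omega
    have hp3' : 3 = p := eq_of_dvd_pow hq3 hp (ha ▸ h3a)
    subst hp3'
    exact case33 hn hn1 hb1 hb3 ha he hbodd hT hP hR hsum
  · -- (3,5)
    have hb1 : b % 5 = 1 := by omega
    have hn1 : n % 3 = 1 := by omega
    have h5a : 5 ∣ a := by
      have h1 := (Nat.Prime.dvd_mul hq5).1 hkrg
      rcases h1 with h1 | h1
      · rcases (Nat.Prime.dvd_mul hq5).1 h1 with h2 | h2
        · rw [hf] at h2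
          exact absurd h2 (not_dvd_two_pow hq5 (by norm_num))
        · exact h2
      · omega
    have hp5 : 5 = p := eq_of_dvd_pow hq5 hp (ha ▸ h5a)
    subst hp5
    have h3b : 3 ∣ b := by
      have h1 := (Nat.Prime.dvd_mul hq3).1 hkg
      rcases h1 with h1 | h1
      · rcases (Nat.Prime.dvd_mul hq3).1 h1 with h2 | h2
        · rw [hf] at h2
          exact absurd h2 (not_dvd_two_pow hq3 (by norm_num))
        · rw [ha] at h2
          have := eq_of_dvd_pow hq3 hq5 h2
          omega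
      · exact h1
    have hr3' : 3 = r := eq_of_dvd_pow hq3 hr (hb ▸ h3b)
    subst hr3'
    have hb81 : 81 ≤ b := by
      rcases (by omega : h = 1 ∨ h = 2 ∨ h = 3 ∨ 4 ≤ h) with rfl | rfl | rfl | h4
      · norm_num at hb; omega
      · norm_num at hb; omega
      · norm_num at hb; omega
      · rw [hb]
        calc 81 = 3 ^ 4 := by norm_num
          _ ≤ 3 ^ h := Nat.pow_le_pow_right (by norm_num) h4
    exact case35 hf hn hn1 hb81 ha he hT hP hR hsum
  · -- (5,3)
    have hb1 : b % 3 = 1 := by omega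
    have hn1 : n % 5 = 1 := by omega
    have h3a : 3 ∣ a := by
      have h1 := (Nat.Prime.dvd_mul hq3).1 hkrg
      rcases h1 with h1 | h1
      · rcases (Nat.Prime.dvd_mul hq3).1 h1 with h2 | h2
        · rw [hf] at h2
          exact absurd h2 (not_dvd_two_pow hq3 (by norm_num))
        · exact h2
      · omega
    have hp3' : 3 = p := eq_of_dvd_pow hq3 hp (ha ▸ h3a)
    subst hp3'
    have h5b : 5 ∣ b := by
      have h1 := (Nat.Prime.dvd_mul hq5).1 hkg
      rcases h1 with h1 | h1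
      · rcases (Nat.Prime.dvd_mul hq5).1 h1 with h2 | h2
        · rw [hf] at h2
          exact absurd h2 (not_dvd_two_pow hq5 (by norm_num))
        · rw [ha] at h2
          have := eq_of_dvd_pow hq5 hq3 h2
          omega
      · exact h1
    have hr5 : 5 = r := eq_of_dvd_pow hq5 hr (hb ▸ h5b)
    subst hr5
    have hb25 : 25 ≤ b := by
      rcases (by omega : h = 1 ∨ 2 ≤ h) with rfl | h4
      · norm_num at hb; omega
      · rw [hb]
        calc 25 = 5 ^ 2 := by norm_num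
          _ ≤ 5 ^ h := Nat.pow_le_pow_right (by norm_num) h4
    have hn16 : 16 ≤ n := by
      have hf4 : f = 0 ∨ f = 1 ∨ f = 2 ∨ f = 3 ∨ 4 ≤ f := by omega
      rcases hf4 with rfl | rfl | rfl | rfl | h4
      · norm_num at hf; omega
      · norm_num at hf; omega
      · norm_num at hf; omega
      · norm_num at hf; omega
      · have : 2 ^ 4 ≤ 2 ^ f := Nat.pow_le_pow_right (by norm_num) h4
        rw [← hf] at this
        omega
    exact case53 hf hn16 hb1 hb25 ha he hT hP hR hsum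

/-- The index `c = (n-1)/k` is one. -/
theorem c_eq_one {n a b c k XT Xp Xr : ℕ} (hnk : n = k * c + 1) (hn : 2 ≤ n) (hk : 1 ≤ k)
    (ha : 1 ≤ a) (hb : 1 ≤ b) (hab : 3 ≤ a + b)
    (hT : XT * k + a * b = a * b * n) (hP : 2 * Xp + n * b = n * b * a)
    (hR : 2 * Xr + n * a = n * a * b)
    (hsum : XT + Xp + Xr + 1 = n * a * b)
    (hpair : XT * XT + XT = XT * n + Xp * a + Xr * b) : c = 1 := by
  have hXT : XT = a * b * c := by
    have h1 : XT * k = a * b * c * k := by
      subst hnk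
      nlinarith
    exact Nat.eq_of_mul_eq_mul_right hk h1
  subst hXT
  have hc0 : c ≠ 0 := by
    rintro rfl
    omega
  have hC : 2 * (a * b * c) + 2 = n * (a + b) := by nlinarith
  have hD0 : (a * b) * (2 * (a * b * c * c) + 2 * c) = (a * b) * (2 * c * n + n * (a + b) - 2 * n) := by
    have hn2 : 2 * n ≤ n * (a + b) := by nlinarith
    zify [hn2, (by nlinarith : 2 * n ≤ 2 * c * n + n * (a + b))]
    zify at hpair hP hR
    have h2 : ((a * b : ℤ)) * (2 * (a * b * c * c) + 2 * c) = 2 * ((a * b * c) * (a * b * c) + (a * b * c)) := by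
      ring
    rw [h2, hpair]
    have h3 : (2 : ℤ) * Xp = n * b * a - n * b := by linarith
    have h4 : (2 : ℤ) * Xr = n * a * b - n * a := by linarith
    have h5 : (2 : ℤ) * (a * b * c * n + Xp * a + Xr * b) =
        2 * (a * b * c * n) + (2 * Xp) * a + (2 * Xr) * b := by ring
    rw [h5, h3, h4]
    ring
  have hD : 2 * (a * b * c * c) + 2 * c + 2 * n = 2 * c * n + n * (a + b) := by
    have hpos : 0 < a * b := Nat.mul_pos ha hb
    have h1 := Nat.eq_of_mul_eq_mul_left hpos hD0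
    have hn2 : 2 * n ≤ n * (a + b) := by nlinarith
    have : 2 * n ≤ 2 * c * n + n * (a + b) := by nlinarith
    omega
  by_contra hc1
  have hc2 : 2 ≤ c := by omega
  obtain ⟨c', rfl⟩ := Nat.exists_eq_add_of_le hc2
  -- abc = n - 1
  have hE : a * b * (2 + c') + 1 = n := by
    have h1 : (1 + c') * (a * b * (2 + c')) + (1 + c') = (1 + c') * n := by
      nlinarith
    have h2 : (1 + c') * (a * b * (2 + c') + 1) = (1 + c') * n := by
      rw [mul_add, mul_one]
      exact h1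
    exact Nat.eq_of_mul_eq_mul_left (by omega) h2
  have h6 : n * (a + b) = 2 * n := by
    rw [← hC, ← hE]
    ring
  have h7 : a + b = 2 := Nat.eq_of_mul_eq_mul_left (by omega : 0 < n) (by rw [h6, mul_comm])
  omega

/-- Solving `a b + 1 = N (a + b)` when the prime `2 N - 1` divides the prime power `a`. -/
theorem ab_eq {N a b p e : ℕ} (hN : 2 ≤ N) (h : a * b + 1 = N * (a + b)) (hp : p.Prime)
    (ha : a = p ^ e) (hk : (2 * N - 1).Prime) (hka : (2 * N - 1) ∣ a) :
    a = 2 * N - 1 ∧ b = 2 * N + 1 := by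
  have he0 : e ≠ 0 := by
    rintro rfl
    rw [pow_zero] at ha
    rw [ha] at hka
    have := Nat.le_of_dvd one_pos hka
    omega
  have hkp : 2 * N - 1 = p := eq_of_dvd_pow hk hp (ha ▸ hka)
  obtain ⟨K, hK⟩ : ∃ K, K = 2 * N - 1 := ⟨_, rfl⟩
  have hK2 : K + 1 = 2 * N := by omega
  rw [← hK] at hkp ⊢
  rcases (by omega : e = 1 ∨ 2 ≤ e) with rfl | he2
  · have haK : a = K := by rw [ha, pow_one, hkp]
    subst haK
    refine ⟨rfl, ?_⟩
    have h1 : (N - 1) * b = (N - 1) * (2 * N + 1) := by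
      obtain ⟨N', rfl⟩ := Nat.exists_eq_add_of_le hN
      have h2 : a = 2 * N' + 3 := by omega
      subst h2
      have : 2 + N' - 1 = N' + 1 := by omega
      rw [this]
      nlinarith
    exact Nat.eq_of_mul_eq_mul_left (by omega) h1
  · exfalso
    have ha2 : K * K ≤ a := by
      rw [ha, ← hkp]
      calc K * K = K ^ 2 := (pow_two K).symm
        _ ≤ K ^ e := Nat.pow_le_pow_right (by omega) he2
    have hK3 : 3 ≤ K := by omega
    have haN : N * N + N ≤ a := by nlinarith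
    have hb0 : N + 1 ≤ b := by
      by_contra hlt
      have hbN : b ≤ N := by omega
      have h1 : a * b ≤ a * N := Nat.mul_le_mul_left _ hbN
      have h2 : b ≠ 0 := by
        rintro rfl
        nlinarith
      have h3 : 2 * 1 ≤ N * b := Nat.mul_le_mul hN (by omega)
      nlinarith
    obtain ⟨b', rfl⟩ := Nat.exists_eq_add_of_le hb0
    have h4 : N * b' ≤ a * b' := Nat.mul_le_mul_right _ (by nlinarith)
    nlinarith

/-- `2 ^ f + 1 = 3 ^ h` with `f ≥ 2` forces `f = 3`. -/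
theorem two_pow_add_one {f h : ℕ} (hf : 2 ≤ f) (heq : 2 ^ f + 1 = 3 ^ h) : f = 3 := by
  by_contra hne
  rcases (by omega : f = 2 ∨ 4 ≤ f) with rfl | h4
  · rcases (by omega : h = 0 ∨ h = 1 ∨ 2 ≤ h) with rfl | rfl | h2
    · norm_num at heq
    · norm_num at heq
    · have : 3 ^ 2 ≤ 3 ^ h := Nat.pow_le_pow_right (by norm_num) h2
      omega
  · obtain ⟨f', rfl⟩ := Nat.exists_eq_add_of_le h4
    have h16 : 3 ^ h % 16 = 1 := by
      rw [← heq, pow_add]
      omega
    have hmod : 3 ^ h = 81 ^ (h / 4) * 3 ^ (h % 4) := by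
      conv_lhs => rw [← Nat.div_add_mod h 4, pow_add, pow_mul]
      norm_num
    have h81 : ∀ u : ℕ, 81 ^ u % 16 = 1 := by
      intro u
      rw [Nat.pow_mod]
      norm_num
    have h815 : ∀ u : ℕ, 81 ^ u % 5 = 1 := by
      intro u
      rw [Nat.pow_mod]
      norm_num
    have hv : h % 4 = 0 := by
      have hlt : h % 4 < 4 := Nat.mod_lt _ (by norm_num)
      rw [hmod, Nat.mul_mod, h81] at h16
      interval_cases (h % 4) <;> simp at h16 ⊢
    rw [hv, pow_zero, mul_one] at hmod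
    have h5 : 3 ^ h % 5 = 1 := by
      rw [hmod]
      exact h815 _
    have h6 : 5 ∣ 2 ^ (4 + f') := by
      omega
    exact not_dvd_two_pow (by norm_num : Nat.Prime 5) (by norm_num) h6

/-- The final arithmetic. -/
theorem final {n f s h : ℕ} (hf : n = 2 ^ f) (hn : 4 ≤ n) (hk : (n - 1).Prime) (hs : s.Prime)
    (hnh : n + 1 = s ^ h) : n = 4 ∨ n = 8 := by
  have hq3 : Nat.Prime 3 := by norm_num
  have hf2 : 2 ≤ f := by
    by_contra hlt
    have : f = 0 ∨ f = 1 := by omega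
    rcases this with rfl | rfl <;> norm_num at hf <;> omega
  have h3 : ¬ 3 ∣ n := by
    rw [hf]
    exact not_dvd_two_pow hq3 (by norm_num)
  have hcases : n % 3 = 1 ∨ n % 3 = 2 := by omega
  rcases hcases with h1 | h2
  · left
    have h4 : 3 ∣ n - 1 := by omega
    have := (Nat.prime_dvd_prime_iff_eq hq3 hk).1 h4
    omega
  · right
    have h4 : 3 ∣ s ^ h := by
      rw [← hnh]
      omega
    have hs3 : 3 = s := eq_of_dvd_pow hq3 hs h4
    subst hs3
    rw [hf] at hnh
    have := two_pow_add_one hf2 hnh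
    subst this
    norm_num at hf
    exact hf

/-- **The whole arithmetic.** -/
theorem arith {g n a b k kr XT Xp Xr zr p r e h f : ℕ} (hg : g = n * a * b) (hn2 : n = 2 ^ f) (hfpos : 1 ≤ f)
    (ha2 : a = p ^ e) (hb2 : b = r ^ h) (hepos : 1 ≤ e) (hhpos : 1 ≤ h) (hp : p.Prime) (hr : r.Prime)
    (hp2 : p ≠ 2) (hr2 : r ≠ 2)
    (cT : XT * (n * k) + g = g * n) (cP : Xp * (a * 2) + g = g * a) (cR : Xr * (b * kr) + g = g * zr)
    (hsum : XT + Xp + Xr + 1 = g) (hk3 : 3 ≤ k) (hkodd : k % 2 = 1) (hkn : k ∣ n - 1) (hkg : k ∣ g)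
    (hkrg : kr ∣ g) (halt : (zr = b ∧ 2 ≤ kr) ∨ (9 * zr ≤ b ∧ 1 ≤ kr)) (hkr4 : kr ≠ 4)
    (hkrb : kr ∣ zr - 1) (hkprime : k.Prime)
    (hpair : kr = 2 → XT * XT + XT = XT * n + Xp * a + Xr * b) : g = 60 ∨ g = 504 := by
  subst hg
  have hn2le : 2 ≤ n := by
    rw [hn2]
    calc 2 = 2 ^ 1 := by norm_num
      _ ≤ _ := Nat.pow_le_pow_right (by norm_num) hfpos
  have ha3 : 3 ≤ a := by
    have h1 : 3 ≤ p := by
      have := hp.two_le
      omega
    rw [ha2]
    calc 3 ≤ p := h1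
      _ = p ^ 1 := (pow_one p).symm
      _ ≤ _ := Nat.pow_le_pow_right hp.pos hepos
  have hb3 : 3 ≤ b := by
    have h1 : 3 ≤ r := by
      have := hr.two_le
      omega
    rw [hb2]
    calc 3 ≤ r := h1
      _ = r ^ 1 := (pow_one r).symm
      _ ≤ _ := Nat.pow_le_pow_right hr.pos hhpos
  have hT : XT * k + a * b = a * b * n := by
    apply Nat.eq_of_mul_eq_mul_left (by omega : 0 < n)
    have e1 : n * (XT * k + a * b) = XT * (n * k) + n * a * b := by ring
    have e2 : n * (a * b * n) = n * a * b * n := by ring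
    rw [e1, e2]
    exact cT
  have hP : 2 * Xp + n * b = n * b * a := by
    apply Nat.eq_of_mul_eq_mul_left (by omega : 0 < a)
    have e1 : a * (2 * Xp + n * b) = Xp * (a * 2) + n * a * b := by ring
    have e2 : a * (n * b * a) = n * a * b * a := by ring
    rw [e1, e2]
    exact cP
  have hRz : Xr * kr + n * a = n * a * zr := by
    apply Nat.eq_of_mul_eq_mul_left (by omega : 0 < b)
    have e1 : b * (Xr * kr + n * a) = Xr * (b * kr) + n * a * b := by ring
    have e2 : b * (n * a * zr) = n * a * b * zr := by ring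
    rw [e1, e2]
    exact cR
  rcases halt with ⟨hzR, hkr2⟩ | ⟨h9, hkr1⟩
  · subst hzR
    by_cases hkrne : kr = 2
    · -- the main case
      have hpair' := hpair hkrne
      subst hkrne
      obtain ⟨c, hc⟩ := hkn
      have hnk : n = k * c + 1 := by omega
      have hc1 : c = 1 := c_eq_one hnk hn2le (by omega) (by omega) (by omega) (by omega) hT hP (by rw [← hRz]; ring) hsum hpair'
      subst hc1
      have hnk' : n = k + 1 := by omega
      have hXTeq : XT = a * zr := by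
        apply Nat.eq_of_mul_eq_mul_right (by omega : 0 < k)
        rw [hnk'] at hT
        have e1 : a * zr * (k + 1) = a * zr * k + a * zr := by ring
        rw [e1] at hT
        omega
      have hf2 : 2 ≤ f := by
        by_contra hlt
        have h1 : f = 1 := by omega
        rw [h1] at hn2
        omega
      obtain ⟨f', hf'⟩ : ∃ f', f = f' + 1 := ⟨f - 1, by omega⟩
      have hnN : n = 2 * 2 ^ f' := by
        rw [hn2, hf', pow_succ]
        ring
      obtain ⟨N, hN⟩ : ∃ N, N = 2 ^ f' := ⟨_, rfl⟩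
      rw [← hN] at hnN
      have hN2 : 2 ≤ N := by omega
      have hkN : k = 2 * N - 1 := by omega
      have hC : a * zr + 1 = N * (a + zr) := by
        rw [hXTeq] at hsum
        have h1 : 2 * (a * zr) + 2 = n * (a + zr) := by
          have e1 : n * zr * a = n * a * zr := by ring
          have e2 : n * (a + zr) = n * a + n * zr := by ring
          rw [e1] at hP
          rw [e2]
          omega
        rw [hnN] at h1
        have e3 : 2 * N * (a + zr) = 2 * (N * (a + zr)) := by ring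
        rw [e3] at h1
        omega
      have hkdvd : k ∣ a ∨ k ∣ zr := by
        rcases (Nat.Prime.dvd_mul hkprime).1 hkg with h1 | h1
        · rcases (Nat.Prime.dvd_mul hkprime).1 h1 with h2 | h2
          · exfalso
            have h3 : k ∣ 1 := by
              have h4 : k ∣ k + 1 := hnk' ▸ h2
              exact (Nat.dvd_add_right (dvd_refl k)).1 h4
            have := Nat.le_of_dvd one_pos h3
            omega
          · exact Or.inl h2
        · exact Or.inr h1
      have hkprime' : (2 * N - 1).Prime := hkN ▸ hkprime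
      have hn4 : 4 ≤ n := by omega
      have hpm1 : (n - 1).Prime := by
        have : n - 1 = k := by omega
        rw [this]
        exact hkprime
      rcases hkdvd with hka | hkb
      · obtain ⟨h1, h2⟩ := ab_eq hN2 hC hp ha2 hkprime' (hkN ▸ hka)
        have hnb : n + 1 = r ^ h := by
          rw [← hb2, h2, hnN]
        rcases final hn2 hn4 hpm1 hr hnb with h4 | h8
        · left
          rw [h1, h2, hnN]
          have hN' : N = 2 := by omega
          rw [hN']
        · right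
          rw [h1, h2, hnN]
          have hN' : N = 4 := by omega
          rw [hN']
      · have hC' : zr * a + 1 = N * (zr + a) := by
          rw [mul_comm zr a, add_comm zr a]
          exact hC
        obtain ⟨h1, h2⟩ := ab_eq hN2 hC' hr hb2 hkprime' (hkN ▸ hkb)
        have hnb : n + 1 = p ^ e := by
          rw [← ha2, h2, hnN]
        rcases final hn2 hn4 hpm1 hp hnb with h4 | h8
        · left
          rw [h1, h2, hnN]
          have hN' : N = 2 := by omega
          rw [hN']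
        · right
          rw [h1, h2, hnN]
          have hN' : N = 4 := by omega
          rw [hN']
    · exfalso
      have hkr3 : 3 ≤ kr := by omega
      exact no_kr hn2 hn2le hp hr hp2 hr2 ha2 hb2 hepos hhpos hk3 hkodd hkr3 hkr4 hkn hkrb hkg
        hkrg hT hP hRz hsum
  · exfalso
    exact no_nonab hn2le ha3 hb3 hk3 hkr1 hT hP hRz h9 hsum

end Cfsg.Agent.Lib.AutOrbits.Num
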