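import Cfsg.Agent.Lib.AutOrbits.Struct

/-!
# Groups with four automorphism orbits: counting pairs of involutions
-/

set_option autoImplicit false
set_option linter.unusedSectionVars false

namespace Cfsg.Agent.Lib.AutOrbits.Pair

open Subgroup Cfsg.Agent.Lib.AutOrbits.Basic Cfsg.Agent.Lib.AutOrbits.Syl
  Cfsg.Agent.Lib.AutOrbits.Struct

variable {G : Type*} [Group G] [Finite G]

/-- The involutions `t` with `x t` an involution. -/
abbrev FF (x : G) : Type _ := {t : G // orderOf t = 2 ∧ orderOf (x * t) = 2}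

theorem sum_FF [Fintype G] :
    ∑ x : G, Nat.card (FF x) =
      Nat.card {t : G // orderOf t = 2} * Nat.card {t : G // orderOf t = 2} := by
  rw [← Nat.card_prod, ← Nat.card_sigma]
  refine Nat.card_congr ?_
  refine
    { toFun := fun z => (⟨z.1 * z.2.1, z.2.2.2⟩, ⟨z.2.1, z.2.2.1⟩)
      invFun := fun z => ⟨z.1.1 * z.2.1⁻¹, ⟨z.2.1, z.2.2, by simpa using z.1.2⟩⟩
      left_inv := ?_
      right_inv := ?_ }
  · rintro ⟨x, t, h1, h2⟩
    exact Sigma.subtype_ext (by simp) rfl
  · rintro ⟨⟨s, hs⟩, ⟨t, ht⟩⟩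
    simp

theorem card_FF_one : Nat.card (FF (1 : G)) = Nat.card {t : G // orderOf t = 2} := by
  refine Nat.card_congr ?_
  refine
    { toFun := fun z => ⟨z.1, z.2.1⟩
      invFun := fun z => ⟨z.1, z.2, by simpa using z.2⟩
      left_inv := fun z => rfl
      right_inv := fun z => rfl }

/-- Removing two elements. -/
theorem card_ne_two {A : Type*} [Finite A] {a b : A} (hab : a ≠ b) :
    Nat.card {t : A // t ≠ a ∧ t ≠ b} + 2 = Nat.card A := by
  classical
  haveI := Fintype.ofFinite A
  rw [Nat.card_eq_fintype_card, Nat.card_eq_fintype_card, Fintype.card_subtype]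
  have h1 : (Finset.univ.filter fun t : A => t ≠ a ∧ t ≠ b) = (Finset.univ.erase a).erase b := by
    ext t
    simp [and_comm]
  rw [h1, Finset.card_erase_of_mem, Finset.card_erase_of_mem (Finset.mem_univ _), Finset.card_univ]
  · have h2 : 2 ≤ Fintype.card A := by
      have : Nontrivial A := ⟨⟨a, b, hab⟩⟩
      exact Fintype.one_lt_card
    omega
  · simp [hab.symm]

/-- Fibre over an involution. -/
theorem card_FF_two (H : Hyp G) [hf : Fact (Nat.Prime 2)] (T : Sylow 2 G) {x : G}
    (hx : orderOf x = 2) : Nat.card (FF x) + 2 = Nat.card T := by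
  classical
  obtain ⟨Q, hQ⟩ := Syl.exists_sylow H hx
  have hcardQ : Nat.card Q = Nat.card T := by
    rw [Q.card_eq_multiplicity, T.card_eq_multiplicity]
  have hxsq : x * x = 1 := by
    rw [← pow_two, ← hx]
    exact pow_orderOf_eq_one x
  have hx1 : x ≠ 1 := by
    rintro rfl
    rw [orderOf_one] at hx
    omega
  have hxQ : x ∈ (Q : Subgroup G) := by
    rw [hQ]
    exact Subgroup.mem_centralizer_singleton_iff.2 rfl
  have hmemQ : ∀ t : G, t ∈ (Q : Subgroup G) ↔ x * t = t * x := by
    intro t
    rw [hQ, Subgroup.mem_centralizer_singleton_iff]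
    exact eq_comm
  have hne : (1 : (Q : Subgroup G)) ≠ ⟨x, hxQ⟩ := fun h => hx1 (congrArg Subtype.val h).symm
  rw [← hcardQ]
  change _ = Nat.card (Q : Subgroup G)
  rw [← card_ne_two hne]
  congr 1
  refine Nat.card_congr ?_
  refine
    { toFun := fun z => ⟨⟨z.1, ?_⟩, ?_, ?_⟩
      invFun := fun z => ⟨z.1.1, ?_, ?_⟩
      left_inv := fun z => rfl
      right_inv := fun z => rfl }
  · -- t commutes with x
    obtain ⟨t, ht, hxt⟩ := z
    have h1 : (x * t) * (x * t) = 1 := by
      rw [← pow_two, ← hxt]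
      exact pow_orderOf_eq_one _
    have ht2 : t * t = 1 := by
      rw [← pow_two, ← ht]
      exact pow_orderOf_eq_one _
    rw [hmemQ]
    calc x * t = x * t * ((x * t) * (t * x)) := by
          have : (x * t) * (t * x) = 1 := by
            calc (x * t) * (t * x) = x * (t * t) * x := by group
              _ = 1 := by rw [ht2, mul_one, hxsq]
          rw [this, mul_one]
      _ = ((x * t) * (x * t)) * (t * x) := by group
      _ = t * x := by rw [h1, one_mul]
  · intro h
    have h1 : z.1 = 1 := congrArg Subtype.val h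
    have h2 := z.2.1
    rw [h1, orderOf_one] at h2
    omega
  · intro h
    have h1 : z.1 = x := congrArg Subtype.val h
    have h2 := z.2.2
    rw [h1, hxsq, orderOf_one] at h2
    omega
  · exact order_of_mem_pgroup H Q.isPGroup' z.1.2 (fun h => z.2.1 (Subtype.ext h))
  · have hmul : x * (z.1 : G) ∈ (Q : Subgroup G) := (Q : Subgroup G).mul_mem hxQ z.1.2
    refine order_of_mem_pgroup H Q.isPGroup' hmul ?_
    intro h
    apply z.2.2
    apply Subtype.ext
    change (z.1 : G) = x
    have : (z.1 : G) = x⁻¹ := eq_inv_of_mul_eq_one_right h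
    rw [this]
    exact inv_eq_of_mul_eq_one_left hxsq

/-- Difference of subgroups. -/
theorem card_diff (N Q : Subgroup G) (h : Q ≤ N) :
    Nat.card {t : G // t ∈ N ∧ t ∉ Q} + Nat.card Q = Nat.card N := by
  classical
  have e := Equiv.sumCompl (fun n : N => (n : G) ∈ Q)
  rw [← Nat.card_congr e, Nat.card_sum, add_comm]
  congr 1
  · refine Nat.card_congr ?_
    exact
      { toFun := fun z => ⟨⟨z.1, h z.2⟩, z.2⟩
        invFun := fun z => ⟨z.1.1, z.2⟩
        left_inv := fun z => rfl
        right_inv := fun z => rfl }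
  · refine Nat.card_congr ?_
    exact
      { toFun := fun z => ⟨⟨z.1, z.2.1⟩, z.2.2⟩
        invFun := fun z => ⟨z.1.1, z.1.2, z.2⟩
        left_inv := fun z => rfl
        right_inv := fun z => rfl }

/-- The index in the normalizer does not depend on the Sylow subgroup. -/
theorem kk_eq {ℓ : ℕ} [hℓ : Fact ℓ.Prime] (P Q : Sylow ℓ G) : kk Q = kk P := by
  have h1 := card_mul_kk P
  have h2 := card_mul_kk Q
  have hi1 : (NN P).index = Nat.card (Sylow ℓ G) := P.card_eq_index_normalizer.symm
  have hi2 : (NN Q).index = Nat.card (Sylow ℓ G) := Q.card_eq_index_normalizer.symm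
  rw [hi1] at h1
  rw [hi2] at h2
  have hc : Nat.card Q = Nat.card P := by
    rw [Q.card_eq_multiplicity, P.card_eq_multiplicity]
  rw [hc, ← h1] at h2
  have hpos : 0 < Nat.card P := Nat.card_pos
  have h3 := Nat.eq_of_mul_eq_mul_left hpos h2
  have hpos2 : 0 < Nat.card (Sylow ℓ G) := Nat.card_pos
  exact Nat.eq_of_mul_eq_mul_right hpos2 h3

/-- Fibre over an odd element, when the normalizer index is two. -/
theorem card_FF_odd (H : Hyp G) {ℓ : ℕ} [hℓ : Fact ℓ.Prime] (hℓ2 : ℓ ≠ 2) (P : Sylow ℓ G)
    (hk : kk P = 2) {x : G} (hx : orderOf x = ℓ) : Nat.card (FF x) = Nat.card P := by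
  classical
  obtain ⟨Q, hQ⟩ := Syl.exists_sylow H hx
  have hcardQ : Nat.card Q = Nat.card P := by
    rw [Q.card_eq_multiplicity, P.card_eq_multiplicity]
  have hkQ : kk Q = 2 := by rw [kk_eq P Q, hk]
  have hxQ : x ∈ (Q : Subgroup G) := by
    rw [hQ]
    exact Subgroup.mem_centralizer_singleton_iff.2 rfl
  have hx1 : x ≠ 1 := by
    rintro rfl
    rw [orderOf_one] at hx
    exact hℓ.out.ne_one hx.symm
  have hd := card_diff (NN Q) (Q : Subgroup G) Subgroup.le_normalizer
  rw [card_normalizer, hkQ] at hd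
  have hcQ : Nat.card (Q : Subgroup G) = Nat.card Q := rfl
  rw [hcQ] at hd
  have heq : Nat.card {t : G // t ∈ NN Q ∧ t ∉ (Q : Subgroup G)} = Nat.card Q := by omega
  rw [← hcardQ, ← heq]
  refine Nat.card_congr ?_
  have hnotQ : ∀ t : G, orderOf t = 2 → t ∉ (Q : Subgroup G) := by
    intro t ht htQ
    have ht1 : t ≠ 1 := by
      rintro rfl
      rw [orderOf_one] at ht
      omega
    have := order_of_mem_pgroup H Q.isPGroup' htQ ht1
    rw [ht] at this
    exact hℓ2 this.symm
  have hfw : ∀ z : FF x, z.1 ∈ NN Q ∧ z.1 ∉ (Q : Subgroup G) := by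
    rintro ⟨t, ht, hxt⟩
    refine ⟨?_, hnotQ t ht⟩
    have ht2 : t * t = 1 := by
      rw [← pow_two, ← ht]
      exact pow_orderOf_eq_one _
    have h1 : (x * t) * (x * t) = 1 := by
      rw [← pow_two, ← hxt]
      exact pow_orderOf_eq_one _
    have htinv : t⁻¹ = t := inv_eq_of_mul_eq_one_left ht2
    have hconj : t * x * t⁻¹ = x⁻¹ := by
      rw [htinv]
      apply eq_inv_of_mul_eq_one_right
      calc x * (t * x * t) = (x * t) * (x * t) := by group
        _ = 1 := h1
    rw [Subgroup.mem_normalizer_iff]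
    intro h
    rw [hQ, Subgroup.mem_centralizer_singleton_iff, Subgroup.mem_centralizer_singleton_iff]
    constructor
    · intro hc
      -- conjugating `h x = x h`
      have h2 : (t * h * t⁻¹) * (t * x * t⁻¹) = (t * x * t⁻¹) * (t * h * t⁻¹) := by
        calc (t * h * t⁻¹) * (t * x * t⁻¹) = t * (h * x) * t⁻¹ := by group
          _ = t * (x * h) * t⁻¹ := by rw [hc]
          _ = _ := by group
      rw [hconj] at h2
      calc (t * h * t⁻¹) * x = x * (x⁻¹ * (t * h * t⁻¹)) * x := by group
        _ = x * ((t * h * t⁻¹) * x⁻¹) * x := by rw [h2]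
        _ = x * (t * h * t⁻¹) := by group
    · intro hc
      have h2 : (t * h * t⁻¹) * x⁻¹ = x⁻¹ * (t * h * t⁻¹) := by
        calc (t * h * t⁻¹) * x⁻¹ = x⁻¹ * (x * (t * h * t⁻¹)) * x⁻¹ := by group
          _ = x⁻¹ * ((t * h * t⁻¹) * x) * x⁻¹ := by rw [hc]
          _ = _ := by group
      rw [← hconj] at h2
      have h4 : t * (h * x) * t⁻¹ = t * (x * h) * t⁻¹ := by
        calc t * (h * x) * t⁻¹ = (t * h * t⁻¹) * (t * x * t⁻¹) := by group
          _ = (t * x * t⁻¹) * (t * h * t⁻¹) := h2
          _ = _ := by group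
      exact mul_left_cancel (mul_right_cancel h4)
  have hbw : ∀ z : {t : G // t ∈ NN Q ∧ t ∉ (Q : Subgroup G)},
      orderOf z.1 = 2 ∧ orderOf (x * z.1) = 2 := by
    rintro ⟨t, htN, htQ⟩
    have ht1 : t ≠ 1 := by
      rintro rfl
      exact htQ (Q : Subgroup G).one_mem
    -- `t ^ 2 ∈ Q`
    have hidx : ((Q : Subgroup G).subgroupOf (NN Q)).index = 2 := hkQ
    have hsq : (⟨t, htN⟩ : NN Q) ^ 2 ∈ (Q : Subgroup G).subgroupOf (NN Q) :=
      Subgroup.sq_mem_of_index_two hidx _
    have hsqG : t ^ 2 ∈ (Q : Subgroup G) := by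
      rw [Subgroup.mem_subgroupOf] at hsq
      simpa using hsq
    have hm := H.prime t ht1
    have hord2 : orderOf t = 2 := by
      by_contra hne
      have hodd : Odd (orderOf t) := hm.odd_of_ne_two hne
      obtain ⟨u, hu⟩ := hodd
      have h1 : t ^ (orderOf t + 1) = t := by
        rw [pow_succ, pow_orderOf_eq_one, one_mul]
      have h2 : t ^ (orderOf t + 1) = (t ^ 2) ^ (u + 1) := by
        rw [← pow_mul]
        congr 1
        omega
      rw [h1] at h2
      exact htQ (h2 ▸ (Q : Subgroup G).pow_mem hsqG _)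
    have ht2 : t * t = 1 := by
      rw [← pow_two, ← hord2]
      exact pow_orderOf_eq_one _
    refine ⟨hord2, ?_⟩
    have hinv := inverts H hℓ2 Q htN ht2 ht1 x hxQ
    have htinv : t⁻¹ = t := inv_eq_of_mul_eq_one_left ht2
    rw [htinv] at hinv
    have hsq1 : (x * t) ^ 2 = 1 := by
      rw [pow_two]
      calc x * t * (x * t) = x * (t * x * t) := by group
        _ = 1 := by rw [hinv, mul_inv_cancel]
    have hne1 : x * t ≠ 1 := by
      intro h
      apply htQ
      have : t = x⁻¹ := eq_inv_of_mul_eq_one_right h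
      rw [this]
      exact (Q : Subgroup G).inv_mem hxQ
    exact orderOf_eq_prime hsq1 hne1
  exact
    { toFun := fun z => ⟨z.1, hfw z⟩
      invFun := fun z => ⟨z.1, hbw z⟩
      left_inv := fun z => rfl
      right_inv := fun z => rfl }

/-- **The pair count.** -/
theorem pair_count (H : Hyp G) {p r : ℕ} [hf : Fact (Nat.Prime 2)] [hpf : Fact p.Prime] [hrf : Fact r.Prime]
    (hp2 : p ≠ 2) (hr2 : r ≠ 2) (hpr : p ≠ r)
    (hall : ∀ x : G, x ≠ 1 → orderOf x = 2 ∨ orderOf x = p ∨ orderOf x = r)
    (T : Sylow 2 G) (P : Sylow p G) (R : Sylow r G) (hkP : kk P = 2) (hkR : kk R = 2) :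
    Nat.card {t : G // orderOf t = 2} * Nat.card {t : G // orderOf t = 2} +
        Nat.card {t : G // orderOf t = 2} =
      Nat.card {t : G // orderOf t = 2} * Nat.card T + Nat.card {t : G // orderOf t = p} * Nat.card P +
        Nat.card {t : G // orderOf t = r} * Nat.card R := by
  classical
  haveI := Fintype.ofFinite G
  have hsum := sum_FF (G := G)
  have hp1 : p ≠ 1 := hpf.out.ne_one
  have hr1 : r ≠ 1 := hrf.out.ne_one
  -- split by the order
  let S : Finset ℕ := {1, 2, p, r}
  have hmaps : ∀ x ∈ (Finset.univ : Finset G), orderOf x ∈ S := by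
    intro x _
    by_cases hx : x = 1
    · simp [S, hx]
    · rcases hall x hx with h | h | h <;> simp [S, h]
  have hsplit := Finset.sum_fiberwise_of_maps_to hmaps (fun x => Nat.card (FF x))
  have hcardf : ∀ m : ℕ, ((Finset.univ : Finset G).filter fun x => orderOf x = m).card =
      Nat.card {t : G // orderOf t = m} := by
    intro m
    rw [Nat.card_eq_fintype_card, Fintype.card_subtype]
  have hval : ∀ m c : ℕ, (∀ x : G, orderOf x = m → Nat.card (FF x) = c) →
      ∑ x ∈ (Finset.univ : Finset G).filter (fun x => orderOf x = m), Nat.card (FF x) =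
        Nat.card {t : G // orderOf t = m} * c := by
    intro m c hc
    rw [Finset.sum_congr rfl (fun x hx => hc x (Finset.mem_filter.1 hx).2), Finset.sum_const,
      hcardf, smul_eq_mul]
  have h1 := hval 1 (Nat.card {t : G // orderOf t = 2}) (by
    intro x hx
    rw [orderOf_eq_one_iff.1 hx]
    exact card_FF_one)
  have h2 := hval 2 (Nat.card T - 2) (by
    intro x hx
    have := card_FF_two H T hx
    omega)
  have h3 := hval p (Nat.card P) (fun x hx => card_FF_odd H hp2 P hkP hx)
  have h4 := hval r (Nat.card R) (fun x hx => card_FF_odd H hr2 R hkR hx)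
  have hS : ∑ m ∈ S, ∑ x ∈ (Finset.univ : Finset G).filter (fun x => orderOf x = m), Nat.card (FF x) =
      Nat.card {t : G // orderOf t = 1} * Nat.card {t : G // orderOf t = 2} +
      (Nat.card {t : G // orderOf t = 2} * (Nat.card T - 2) +
      (Nat.card {t : G // orderOf t = p} * Nat.card P +
      Nat.card {t : G // orderOf t = r} * Nat.card R)) := by
    simp only [S]
    rw [Finset.sum_insert (by simp [hp1.symm, hr1.symm]), Finset.sum_insert (by simp [hp2.symm, hr2.symm]),
      Finset.sum_insert (by simpa using hpr), Finset.sum_singleton, h1, h2, h3, h4]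
  rw [hS] at hsplit
  rw [← hsplit] at hsum
  have hone : Nat.card {t : G // orderOf t = 1} = 1 := by
    have : Nat.card {t : G // orderOf t = 1} = Nat.card {t : G // t = 1} := by
      refine Nat.card_congr (Equiv.subtypeEquivRight fun t => orderOf_eq_one_iff)
    rw [this]
    exact Nat.card_unique
  rw [hone, one_mul] at hsum
  -- `T` has at least two elements when an involution exists
  by_cases hI : Nat.card {t : G // orderOf t = 2} = 0
  · rw [hI] at hsum ⊢
    simp only [zero_mul, zero_add, add_zero, mul_zero] at hsum ⊢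
    exact hsum.symm
  · have hex : ∃ x : G, orderOf x = 2 := by
      by_contra hno
      push_neg at hno
      apply hI
      haveI : IsEmpty {t : G // orderOf t = 2} := ⟨fun z => hno z.1 z.2⟩
      exact Nat.card_of_isEmpty
    obtain ⟨x, hx⟩ := hex
    have h5 := card_FF_two H T hx
    obtain ⟨n, hn⟩ : ∃ n, Nat.card T = n + 2 := ⟨Nat.card (FF x), h5.symm⟩
    rw [hn, Nat.add_sub_cancel] at hsum
    rw [hn]
    nlinarith

end Cfsg.Agent.Lib.AutOrbits.Pair
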