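import Cfsg.Agent.Lib.AutOrbits.Prime
import Cfsg.Agent.Lib.AutOrbits.Pair
import Cfsg.Agent.Lib.AutOrbits.Num

/-!
# Groups with four automorphism orbits: the order is 60
-/

set_option autoImplicit false
set_option linter.unusedSectionVars false

namespace Cfsg.Agent.Lib.AutOrbits.Main

open Subgroup Cfsg.Agent.Lib.AutOrbits.Basic Cfsg.Agent.Lib.AutOrbits.Syl
  Cfsg.Agent.Lib.AutOrbits.Struct Cfsg.Agent.Lib.AutOrbits.Prime Cfsg.Agent.Lib.AutOrbits.Pair
  Cfsg.Agent.Lib.AutOrbits.Num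

universe u

variable {G : Type u} [Group G] [Finite G]

/-- Partition by the order. -/
theorem sum_three (H : Hyp G) {q₁ q₂ q₃ : ℕ} (h12 : q₁ ≠ q₂) (h13 : q₁ ≠ q₃) (h23 : q₂ ≠ q₃)
    (hπ : (Nat.card G).primeFactors = {q₁, q₂, q₃}) :
    Nat.card {x : G // orderOf x = q₁} + Nat.card {x : G // orderOf x = q₂} +
      Nat.card {x : G // orderOf x = q₃} + 1 = Nat.card G := by
  classical
  haveI := Fintype.ofFinite G
  have hprimes : ∀ q ∈ ({q₁, q₂, q₃} : Finset ℕ), q.Prime := by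
    intro q hq
    rw [← hπ] at hq
    exact Nat.prime_of_mem_primeFactors hq
  have h11 : 1 ≠ q₁ := (hprimes q₁ (by simp)).ne_one.symm
  have h12' : 1 ≠ q₂ := (hprimes q₂ (by simp)).ne_one.symm
  have h13' : 1 ≠ q₃ := (hprimes q₃ (by simp)).ne_one.symm
  let S : Finset ℕ := {1, q₁, q₂, q₃}
  have hmaps : ∀ x ∈ (Finset.univ : Finset G), orderOf x ∈ S := by
    intro x _
    by_cases hx : x = 1
    · simp [S, hx]
    · have h1 : orderOf x ∈ (Nat.card G).primeFactors :=
        Nat.mem_primeFactors.2 ⟨H.prime x hx, orderOf_dvd_natCard x, Nat.card_pos.ne'⟩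
      rw [hπ] at h1
      simp only [Finset.mem_insert, Finset.mem_singleton] at h1
      simp only [S, Finset.mem_insert, Finset.mem_singleton]
      tauto
  have hsplit := Finset.card_eq_sum_card_fiberwise hmaps
  have hcardf : ∀ m : ℕ, ((Finset.univ : Finset G).filter fun x => orderOf x = m).card =
      Nat.card {t : G // orderOf t = m} := by
    intro m
    rw [Nat.card_eq_fintype_card, Fintype.card_subtype]
  have hone : Nat.card {t : G // orderOf t = 1} = 1 := by
    have : Nat.card {t : G // orderOf t = 1} = Nat.card {t : G // t = 1} := by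
      refine Nat.card_congr (Equiv.subtypeEquivRight fun t => orderOf_eq_one_iff)
    rw [this]
    exact Nat.card_unique
  simp only [S] at hsplit
  rw [Finset.sum_insert (by simp [h11, h12', h13']), Finset.sum_insert (by simp [h12, h13]),
    Finset.sum_insert (by simpa using h23), Finset.sum_singleton] at hsplit
  simp only [hcardf, hone] at hsplit
  rw [Finset.card_univ, ← Nat.card_eq_fintype_card] at hsplit
  omega

/-- The order is the product of the Sylow orders. -/
theorem prod_three {q₁ q₂ q₃ : ℕ} [Fact q₁.Prime] [Fact q₂.Prime] [Fact q₃.Prime]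
    (h12 : q₁ ≠ q₂) (h13 : q₁ ≠ q₃) (h23 : q₂ ≠ q₃)
    (hπ : (Nat.card G).primeFactors = {q₁, q₂, q₃})
    (P₁ : Sylow q₁ G) (P₂ : Sylow q₂ G) (P₃ : Sylow q₃ G) :
    Nat.card G = Nat.card P₁ * Nat.card P₂ * Nat.card P₃ := by
  have hprod := Nat.factorization_prod_pow_eq_self (n := Nat.card G) Nat.card_pos.ne'
  rw [Finsupp.prod, Nat.support_factorization, hπ, Finset.prod_insert (by simp [h12, h13]),
    Finset.prod_insert (by simpa using h23), Finset.prod_singleton] at hprod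
  rw [P₁.card_eq_multiplicity, P₂.card_eq_multiplicity, P₃.card_eq_multiplicity, mul_assoc, hprod]

/-- The heart. -/
theorem main_aux (H : Hyp G) [IsSimpleGroup G] {p r : ℕ} [hf2 : Fact (Nat.Prime 2)] [hpf : Fact p.Prime]
    [hrf : Fact r.Prime] (hp2 : p ≠ 2) (hr2 : r ≠ 2) (hpr : p ≠ r)
    (hπ : (Nat.card G).primeFactors = {2, p, r}) (P : Sylow p G) (hkP : kk P = 2) :
    Nat.card G = 60 ∨ Nat.card G = 504 := by
  obtain ⟨T⟩ : Nonempty (Sylow 2 G) := inferInstance
  obtain ⟨R⟩ : Nonempty (Sylow r G) := inferInstance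
  have hmem : ∀ q ∈ ({2, p, r} : Finset ℕ), q ∣ Nat.card G := by
    intro q hq
    rw [← hπ] at hq
    exact Nat.dvd_of_mem_primeFactors hq
  have hd2 : 2 ∣ Nat.card G := hmem 2 (by simp)
  have hdp : p ∣ Nat.card G := hmem p (by simp)
  have hdr : r ∣ Nat.card G := hmem r (by simp)
  have hg := prod_three hp2.symm hr2.symm hpr hπ T P R
  have hsum := sum_three H hp2.symm hr2.symm hpr hπ
  have hall : ∀ x : G, x ≠ 1 → orderOf x = 2 ∨ orderOf x = p ∨ orderOf x = r := by
    intro x hx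
    have h1 : orderOf x ∈ (Nat.card G).primeFactors :=
      Nat.mem_primeFactors.2 ⟨H.prime x hx, orderOf_dvd_natCard x, Nat.card_pos.ne'⟩
    rw [hπ] at h1
    simpa using h1
  have hTc := comm_of_two H T
  have hPc := kk_two H hp2 P hkP
  have hzT : zc T = Nat.card T := zc_of_comm T hTc
  have hzP : zc P = Nat.card P := zc_of_comm P hPc
  have cT := count_eq H T
  have cP := count_eq H P
  have cR := count_eq H R
  rw [hzT] at cT
  rw [hzP, hkP] at cP
  have hk2 : 2 ≤ kk T := by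
    have h1 := kk_ne_one H T hd2 hTc
    have h2 := kk_pos T
    omega
  have hkodd : kk T % 2 = 1 := by
    have h1 : ¬ 2 ∣ kk T := not_dvd_kk T
    omega
  have hkn : kk T ∣ Nat.card T - 1 := by
    have := kk_dvd_zc H T
    rwa [hzT] at this
  refine arith hg T.card_eq_multiplicity
    (Nat.Prime.factorization_pos_of_dvd Nat.prime_two Nat.card_pos.ne' hd2)
    P.card_eq_multiplicity R.card_eq_multiplicity
    (Nat.Prime.factorization_pos_of_dvd hpf.out Nat.card_pos.ne' hdp)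
    (Nat.Prime.factorization_pos_of_dvd hrf.out Nat.card_pos.ne' hdr)
    hpf.out hrf.out hp2 hr2 cT cP cR hsum (by omega) hkodd hkn (kk_dvd_card T) (kk_dvd_card R)
    (alt H R hdr) (kk_ne_four H hr2 R hdr) (kk_dvd_zc H R) (kk_prime H T hd2 hk2) ?_
  intro hkr
  exact pair_count H hp2 hr2 hpr hall T P R hkP hkr

/-- **The order is 60 or 504.** -/
theorem main (H : Hyp G) [IsSimpleGroup G] : Nat.card G = 60 ∨ Nat.card G = 504 := by
  classical
  haveI hf2 : Fact (Nat.Prime 2) := ⟨Nat.prime_two⟩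
  obtain ⟨q₁, q₂, q₃, h12, h13, h23, hπ⟩ := Finset.card_eq_three.1 H.three
  have hprimes : ∀ q ∈ ({q₁, q₂, q₃} : Finset ℕ), q.Prime ∧ q ∣ Nat.card G := by
    intro q hq
    rw [← hπ] at hq
    exact ⟨Nat.prime_of_mem_primeFactors hq, Nat.dvd_of_mem_primeFactors hq⟩
  haveI f1 : Fact q₁.Prime := ⟨(hprimes q₁ (by simp)).1⟩
  haveI f2 : Fact q₂.Prime := ⟨(hprimes q₂ (by simp)).1⟩
  haveI f3 : Fact q₃.Prime := ⟨(hprimes q₃ (by simp)).1⟩
  obtain ⟨P₁⟩ : Nonempty (Sylow q₁ G) := inferInstance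
  obtain ⟨P₂⟩ : Nonempty (Sylow q₂ G) := inferInstance
  obtain ⟨P₃⟩ : Nonempty (Sylow q₃ G) := inferInstance
  have hcardge : ∀ {q : ℕ} [Fact q.Prime] (P : Sylow q G), q ∣ Nat.card G → 2 ≤ Nat.card P := by
    intro q _ P hd
    have h1 := P.ne_bot_of_dvd_card hd
    have h2 : Nat.card P ≠ 1 := fun h => h1 (Subgroup.eq_bot_of_card_eq _ h)
    have h3 : 0 < Nat.card P := Nat.card_pos
    omega
  have htwo := exists_two (prod_three h12 h13 h23 hπ P₁ P₂ P₃)
    (hcardge P₁ (hprimes q₁ (by simp)).2) (hcardge P₂ (hprimes q₂ (by simp)).2)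
    (hcardge P₃ (hprimes q₃ (by simp)).2) (zc_pos P₁) (zc_pos P₂) (zc_pos P₃)
    (count_eq H P₁) (count_eq H P₂) (count_eq H P₃)
    (alt H P₁ (hprimes q₁ (by simp)).2) (alt H P₂ (hprimes q₂ (by simp)).2)
    (alt H P₃ (hprimes q₃ (by simp)).2) (sum_three H h12 h13 h23 hπ)
  have hex : ∃ (ℓ : ℕ) (_ : Fact ℓ.Prime) (P : Sylow ℓ G), ℓ ∈ (Nat.card G).primeFactors ∧ kk P = 2 := by
    rw [hπ]
    rcases htwo with h | h | h
    · exact ⟨q₁, f1, P₁, by simp, h⟩
    · exact ⟨q₂, f2, P₂, by simp, h⟩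
    · exact ⟨q₃, f3, P₃, by simp, h⟩
  obtain ⟨p, hpf, P, hpπ, hkP⟩ := hex
  have hp2 : p ≠ 2 := by
    rintro rfl
    have := not_dvd_kk P
    rw [hkP] at this
    exact this (dvd_refl 2)
  have h2π : 2 ∈ (Nat.card G).primeFactors :=
    Nat.mem_primeFactors.2 ⟨Nat.prime_two, hkP ▸ kk_dvd_card P, Nat.card_pos.ne'⟩
  -- the third prime
  have hc1 : ((Nat.card G).primeFactors.erase 2).card = 2 := by
    rw [Finset.card_erase_of_mem h2π, H.three]
  have hpe : p ∈ (Nat.card G).primeFactors.erase 2 := Finset.mem_erase.2 ⟨hp2, hpπ⟩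
  have hc2 : (((Nat.card G).primeFactors.erase 2).erase p).card = 1 := by
    rw [Finset.card_erase_of_mem hpe, hc1]
  obtain ⟨r, hr⟩ := Finset.card_eq_one.1 hc2
  have hrmem : r ∈ ((Nat.card G).primeFactors.erase 2).erase p := by
    rw [hr]
    simp
  obtain ⟨hrp, hrm⟩ := Finset.mem_erase.1 hrmem
  obtain ⟨hr2, hrπ⟩ := Finset.mem_erase.1 hrm
  haveI hrf : Fact r.Prime := ⟨Nat.prime_of_mem_primeFactors hrπ⟩
  have hπ' : (Nat.card G).primeFactors = {2, p, r} := by
    ext q
    simp only [Finset.mem_insert, Finset.mem_singleton]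
    constructor
    · intro hq
      by_cases hq2 : q = 2
      · exact Or.inl hq2
      by_cases hqp : q = p
      · exact Or.inr (Or.inl hqp)
      right; right
      have : q ∈ ((Nat.card G).primeFactors.erase 2).erase p :=
        Finset.mem_erase.2 ⟨hqp, Finset.mem_erase.2 ⟨hq2, hq⟩⟩
      rw [hr] at this
      simpa using this
    · rintro (rfl | rfl | rfl)
      · exact h2π
      · exact hpπ
      · exact hrπ
  exact main_aux H hp2 hr2 hrp.symm hπ' P hkP

end Cfsg.Agent.Lib.AutOrbits.Main
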