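import Cfsg.Agent.Lib.AutOrbits.Struct
import Cfsg.Agent.Lib.FPF.Concrete
import Cfsg.Agent.Lib.Small.Ord504

/-!
# Groups with four automorphism orbits: the normalizer index of the Sylow 2-subgroup is prime;
order 504 does not occur.
-/

set_option autoImplicit false
set_option linter.unusedSectionVars false

namespace Cfsg.Agent.Lib.AutOrbits.Prime

open Subgroup Cfsg.Agent.Lib.AutOrbits.Basic Cfsg.Agent.Lib.AutOrbits.Syl
  Cfsg.Agent.Lib.AutOrbits.Struct

universe u

variable {G : Type u} [Group G] [Finite G]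

/-- A cyclic subgroup has prime order or is trivial. -/
theorem cyclic_contra (H : Hyp G) (B : Subgroup G) [IsCyclic B] (h1 : Nat.card B ≠ 1)
    (h2 : ¬ (Nat.card B).Prime) : False := by
  obtain ⟨g, hg⟩ := IsCyclic.exists_generator (α := B)
  have ho : orderOf g = Nat.card B := orderOf_eq_card_of_forall_mem_zpowers hg
  have hg1 : (g : G) ≠ 1 := by
    intro h
    have : g = 1 := Subtype.ext h
    rw [this, orderOf_one] at ho
    exact h1 ho.symm
  have := H.prime _ hg1
  rw [Subgroup.orderOf_coe, ho] at this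
  exact h2 this

/-- **The index `|N(T) : T|` is prime.** -/
theorem kk_prime (H : Hyp G) [hf : Fact (Nat.Prime 2)] (T : Sylow 2 G) (hd : 2 ∣ Nat.card G)
    (hk : 2 ≤ kk T) : (kk T).Prime := by
  classical
  have hTc := comm_of_two H T
  have hT1 : (T : Subgroup G) ≠ ⊥ := T.ne_bot_of_dvd_card hd
  have hodd : ¬ 2 ∣ kk T := not_dvd_kk T
  -- a complement in the normalizer
  let T' : Subgroup (NN T) := (T : Subgroup G).subgroupOf (NN T)
  haveI hT'n : T'.Normal := Subgroup.normal_in_normalizer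
  have hT'card : Nat.card T' = Nat.card T :=
    Nat.card_congr (Subgroup.subgroupOfEquivOfLe (Subgroup.le_normalizer)).toEquiv
  have hT'index : T'.index = kk T := rfl
  obtain ⟨m, hm⟩ := IsPGroup.iff_card.1 T.isPGroup'
  have hcop : Nat.Coprime (Nat.card T') T'.index := by
    rw [hT'card, hT'index]
    change Nat.Coprime (Nat.card (T : Subgroup G)) _
    rw [hm]
    exact Nat.Coprime.pow_left _ ((Nat.Prime.coprime_iff_not_dvd Nat.prime_two).2 hodd)
  obtain ⟨K₀, hK₀⟩ := Subgroup.exists_right_complement'_of_coprime hcop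
  have hK₀card : Nat.card K₀ = kk T := by
    rw [← hT'index]
    exact hK₀.symm.index_eq_card.symm
  let K : Subgroup G := K₀.map (NN T).subtype
  have hKcard : Nat.card K = kk T := by
    rw [Subgroup.card_map_of_injective (Subgroup.subtype_injective _), hK₀card]
  have hKN : K ≤ NN T := Subgroup.map_subtype_le K₀
  have hfpf : ∀ a ∈ K, a ≠ 1 → ∀ v ∈ T, a * v = v * a → v = 1 := by
    intro a ha ha1 v hv hav
    by_contra hv1
    have ho := order_eq_of_commute H ha1 hv1 hav
    rw [order_of_mem_pgroup H T.isPGroup' hv hv1] at ho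
    have h1 : orderOf a ∣ Nat.card K := Subgroup.orderOf_dvd_natCard K ha
    rw [ho, hKcard] at h1
    exact hodd h1
  -- squares do not divide
  have hsq : ∀ s : ℕ, s.Prime → ¬ s * s ∣ kk T := by
    intro s hs hdvd
    haveI : Fact s.Prime := ⟨hs⟩
    obtain ⟨B₀, hB₀⟩ := Sylow.exists_subgroup_card_pow_prime (G := K) s (n := 2)
      (by rw [hKcard, pow_two]; exact hdvd)
    let B : Subgroup G := B₀.map K.subtype
    have hBcard : Nat.card B = s ^ 2 := by
      rw [Subgroup.card_map_of_injective (Subgroup.subtype_injective _), hB₀]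
    have hBK : B ≤ K := Subgroup.map_subtype_le B₀
    have hBcomm : ∀ a ∈ B, ∀ b ∈ B, a * b = b * a := by
      intro a ha b hb
      have := IsPGroup.commutative_of_card_eq_prime_sq hBcard ⟨a, ha⟩ ⟨b, hb⟩
      exact congrArg Subtype.val this
    haveI hcyc : IsCyclic B := Cfsg.Agent.Lib.FPF.Concrete.isCyclic_of_comm B T hTc hT1
      (hBK.trans hKN) (fun a ha ha1 v hv h => hfpf a (hBK ha) ha1 v hv h) hBcomm
    refine cyclic_contra H B ?_ ?_
    · rw [hBcard]
      have := hs.two_le
      nlinarith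
    · rw [hBcard]
      exact Nat.Prime.not_prime_pow (by norm_num)
  -- two primes
  have hpq : ∀ s t : ℕ, s.Prime → t.Prime → kk T ≠ s * t := by
    intro s t hs ht hst
    haveI hcyc : IsCyclic K := Cfsg.Agent.Lib.FPF.Concrete.isCyclic_of_card_mul K T hTc hT1 hKN hfpf
      hs ht (by rw [hKcard, hst])
    refine cyclic_contra H K ?_ ?_
    · rw [hKcard]
      omega
    · rw [hKcard, hst]
      exact Nat.not_prime_mul hs.ne_one ht.ne_one
  -- conclude
  by_contra hnp
  have hk1 : kk T ≠ 1 := by omega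
  set s := (kk T).minFac with hs
  have hsp : s.Prime := Nat.minFac_prime hk1
  obtain ⟨w, hw⟩ : s ∣ kk T := Nat.minFac_dvd _
  have hw1 : w ≠ 1 := by
    rintro rfl
    rw [mul_one] at hw
    exact hnp (hw ▸ hsp)
  have hw0 : w ≠ 0 := by
    rintro rfl
    rw [mul_zero] at hw
    omega
  set s' := w.minFac with hs'
  have hs'p : s'.Prime := Nat.minFac_prime hw1
  obtain ⟨w', hw'⟩ : s' ∣ w := Nat.minFac_dvd _
  have hw'1 : w' ≠ 1 := by
    rintro rfl
    rw [mul_one] at hw'
    exact hpq s s' hsp hs'p (by rw [hw, hw'])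
  have hw'0 : w' ≠ 0 := by
    rintro rfl
    rw [mul_zero] at hw'
    exact hw0 hw'
  set s'' := w'.minFac with hs''
  have hs''p : s''.Prime := Nat.minFac_prime hw'1
  obtain ⟨w'', hw''⟩ : s'' ∣ w' := Nat.minFac_dvd _
  have hk3 : kk T = s * s' * s'' * w'' := by
    rw [hw, hw', hw'']
    ring
  have hne1 : s ≠ s' := by
    intro h
    exact hsq s hsp ⟨s'' * w'', by rw [hk3, ← h]; ring⟩
  have hne2 : s ≠ s'' := by
    intro h
    exact hsq s hsp ⟨s' * w'', by rw [hk3, ← h]; ring⟩
  have hne3 : s' ≠ s'' := by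
    intro h
    exact hsq s' hs'p ⟨s * w'', by rw [hk3, ← h]; ring⟩
  have hdvdk : ∀ q, q ∣ kk T → q ≠ 1 → q.Prime → q ≠ 2 ∧ q ∈ (Nat.card G).primeFactors := by
    intro q hq _ hqp
    refine ⟨?_, Nat.mem_primeFactors.2 ⟨hqp, hq.trans (kk_dvd_card T), Nat.card_pos.ne'⟩⟩
    rintro rfl
    exact hodd hq
  have h1 := hdvdk s ⟨s' * s'' * w'', by rw [hk3]; ring⟩ hsp.ne_one hsp
  have h2 := hdvdk s' ⟨s * s'' * w'', by rw [hk3]; ring⟩ hs'p.ne_one hs'p
  have h3 := hdvdk s'' ⟨s * s' * w'', by rw [hk3]; ring⟩ hs''p.ne_one hs''p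
  have h2π : 2 ∈ (Nat.card G).primeFactors :=
    Nat.mem_primeFactors.2 ⟨Nat.prime_two, hd, Nat.card_pos.ne'⟩
  have hsub : ({2, s, s', s''} : Finset ℕ) ⊆ (Nat.card G).primeFactors := by
    intro q hq
    simp only [Finset.mem_insert, Finset.mem_singleton] at hq
    rcases hq with rfl | rfl | rfl | rfl
    · exact h2π
    · exact h1.2
    · exact h2.2
    · exact h3.2
  have hcard4 : ({2, s, s', s''} : Finset ℕ).card = 4 := by
    rw [Finset.card_insert_of_notMem, Finset.card_insert_of_notMem, Finset.card_insert_of_notMem,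
      Finset.card_singleton]
    · simpa using hne3
    · simp [hne1, hne2]
    · simp [h1.1.symm, h2.1.symm, h3.1.symm]
  have := Finset.card_le_card hsub
  rw [hcard4, H.three] at this
  omega

section PSL

open Cfsg.Agent.Lib.Small.F8 Cfsg.Agent.Lib.Small.F8.Feight Matrix

/-- The element of order nine in `SL(2,8)`. -/
def A9 : Matrix.SpecialLinearGroup (Fin 2) Feight :=
  ⟨!![0, 1; 1, y], by
    rw [Matrix.det_fin_two_of]
    decide +kernel⟩

theorem A9_cube : ((A9 ^ 3 : Matrix.SpecialLinearGroup (Fin 2) Feight) : Matrix (Fin 2) (Fin 2) Feight) 0 1 ≠ 0 := by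
  decide +kernel

theorem A9_pow_nine : A9 ^ 9 = 1 := by
  apply Subtype.ext
  apply Matrix.ext
  intro i j
  fin_cases i <;> fin_cases j <;> decide +kernel

/-- Order `504` does not occur. -/
theorem no_504 (H : Hyp G) [IsSimpleGroup G] (h : Nat.card G = 504) : False := by
  obtain ⟨e⟩ := Cfsg.Agent.Lib.Small.Ord504.nonempty_mulEquiv_PSL h
  let x : Matrix.ProjectiveSpecialLinearGroup (Fin 2) Feight := QuotientGroup.mk A9
  have h9 : x ^ 3 ^ (1 + 1) = 1 := by
    change ((QuotientGroup.mk A9 : Matrix.ProjectiveSpecialLinearGroup (Fin 2) Feight)) ^ 9 = 1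
    rw [← QuotientGroup.mk_pow, A9_pow_nine, QuotientGroup.mk_one]
  have h3 : ¬ x ^ 3 ^ 1 = 1 := by
    intro h3
    have h4 : ((QuotientGroup.mk (A9 ^ 3) : Matrix.ProjectiveSpecialLinearGroup (Fin 2) Feight)) = 1 := by
      rw [QuotientGroup.mk_pow]
      simpa using h3
    rw [QuotientGroup.eq_one_iff, Matrix.SpecialLinearGroup.mem_center_iff] at h4
    obtain ⟨r, -, hr⟩ := h4
    apply A9_cube
    rw [← hr]
    simp
  have ho : orderOf x = 3 ^ (1 + 1) := orderOf_eq_prime_pow h3 h9
  have ho' : orderOf (e.symm x) = 9 := by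
    rw [MulEquiv.orderOf_eq, ho]
    norm_num
  have hg1 : e.symm x ≠ 1 := by
    intro h1
    rw [h1, orderOf_one] at ho'
    omega
  have := H.prime _ hg1
  rw [ho'] at this
  norm_num at this

end PSL

end Cfsg.Agent.Lib.AutOrbits.Prime
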