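import Cfsg.Agent.Lib.AutOrbits.Syl

/-!
# Groups with four automorphism orbits: normalizers of Sylow subgroups
-/

set_option autoImplicit false
set_option linter.unusedSectionVars false

namespace Cfsg.Agent.Lib.AutOrbits.Struct

open Subgroup Cfsg.Agent.Lib.AutOrbits.Basic Cfsg.Agent.Lib.AutOrbits.Syl

variable {G : Type*} [Group G] [Finite G]

/-- Commutative Sylow: the centre is everything. -/
theorem zc_of_comm {ℓ : ℕ} (P : Sylow ℓ G) (hc : ∀ a ∈ P, ∀ b ∈ P, a * b = b * a) :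
    zc P = Nat.card P := by
  have h : Subgroup.center (P : Subgroup G) = ⊤ := by
    rw [eq_top_iff]
    intro a _
    rw [Subgroup.mem_center_iff]
    intro b
    exact Subtype.ext (hc _ b.2 _ a.2)
  rw [zc, h, Subgroup.card_top]

/-- Burnside's transfer: commutative Sylow subgroups of a simple group are not self-normalizing. -/
theorem kk_ne_one (H : Hyp G) [IsSimpleGroup G] {ℓ : ℕ} [hℓ : Fact ℓ.Prime] (P : Sylow ℓ G)
    (hd : ℓ ∣ Nat.card G) (hc : ∀ a ∈ P, ∀ b ∈ P, a * b = b * a) : kk P ≠ 1 := by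
  intro h1
  have hN : NN P ≤ P := Subgroup.relIndex_eq_one.1 h1
  have hP : normalizer (P : Set G) ≤ centralizer (P : Set G) := by
    intro n hn
    rw [Subgroup.mem_centralizer_iff]
    intro a ha
    exact hc a ha n (hN hn)
  have hco := MonoidHom.ker_transferSylow_isComplement' P hP
  have hcard := hco.card_mul
  rcases IsSimpleGroup.eq_bot_or_eq_top_of_normal _ (MonoidHom.normal_ker (MonoidHom.transferSylow P hP)) with h | h
  · rw [h, Subgroup.card_bot, one_mul] at hcard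
    apply not_pgroup H (ℓ := ℓ)
    obtain ⟨m, hm⟩ := IsPGroup.iff_card.1 P.isPGroup'
    exact IsPGroup.of_card (n := m) (by rw [← hcard, hm])
  · rw [h, Subgroup.card_top] at hcard
    have h2 : Nat.card P = 1 := by
      have hpos : 0 < Nat.card G := Nat.card_pos
      have : Nat.card G * Nat.card P = Nat.card G * 1 := by rw [hcard, mul_one]
      exact Nat.eq_of_mul_eq_mul_left hpos this
    exact P.ne_bot_of_dvd_card hd (Subgroup.eq_bot_of_card_eq _ h2)

/-- Exponent two: commutative. -/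
theorem comm_of_two (H : Hyp G) [hf : Fact (Nat.Prime 2)] (P : Sylow 2 G) :
    ∀ a ∈ P, ∀ b ∈ P, a * b = b * a := by
  have hsq : ∀ a ∈ P, a * a = 1 := by
    intro a ha
    by_cases ha1 : a = 1
    · rw [ha1, one_mul]
    · have := order_of_mem_pgroup H P.isPGroup' ha ha1
      rw [← pow_two, ← this]
      exact pow_orderOf_eq_one a
  intro a ha b hb
  have h1 := hsq _ (P.toSubgroup.mul_mem ha hb)
  have h2 := hsq a ha
  have h3 := hsq b hb
  calc a * b = a * (a * b * (a * b)) * b := by rw [h1, mul_one]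
    _ = (a * a) * (b * a) * (b * b) := by group
    _ = b * a := by rw [h2, h3, one_mul, mul_one]

/-- Non-commutative Sylow: `|P : Z(P)| ≥ 9`. -/
theorem nine_le {ℓ : ℕ} [hℓ : Fact ℓ.Prime] (hℓ2 : ℓ ≠ 2) (P : Sylow ℓ G)
    (hnc : ¬ ∀ a ∈ P, ∀ b ∈ P, a * b = b * a) : 9 * zc P ≤ Nat.card P := by
  have hmul := (Subgroup.center (P : Subgroup G)).card_mul_index
  obtain ⟨m, hm⟩ := IsPGroup.iff_card.1 P.isPGroup'
  have hdvd : (Subgroup.center (P : Subgroup G)).index ∣ ℓ ^ m := by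
    rw [← hm]
    change _ ∣ Nat.card (P : Subgroup G)
    exact Subgroup.index_dvd_card _
  obtain ⟨j, -, hj⟩ := (Nat.dvd_prime_pow hℓ.out).1 hdvd
  have hℓ3 : 3 ≤ ℓ := by
    have := hℓ.out.two_le
    omega
  rcases (by omega : j = 0 ∨ j = 1 ∨ 2 ≤ j) with rfl | rfl | h2
  · exfalso
    apply hnc
    rw [pow_zero] at hj
    have htop := Subgroup.index_eq_one.1 hj
    intro a ha b hb
    have h1 : (⟨a, ha⟩ : (P : Subgroup G)) ∈ Subgroup.center (P : Subgroup G) := by rw [htop]; trivial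
    have h2 := (Subgroup.mem_center_iff.1 h1) ⟨b, hb⟩
    exact (congrArg Subtype.val h2).symm
  · exfalso
    apply hnc
    rw [pow_one] at hj
    haveI : Fact (Nat.card ((P : Subgroup G) ⧸ Subgroup.center (P : Subgroup G))).Prime :=
      ⟨by rw [show Nat.card ((P : Subgroup G) ⧸ Subgroup.center (P : Subgroup G)) = (Subgroup.center (P : Subgroup G)).index from rfl, hj]; exact hℓ.out⟩
    haveI : IsCyclic ((P : Subgroup G) ⧸ Subgroup.center (P : Subgroup G)) := isCyclic_of_prime_card rfl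
    intro a ha b hb
    have h3 := commutative_of_cyclic_center_quotient (QuotientGroup.mk' (Subgroup.center (P : Subgroup G)))
      (by rw [QuotientGroup.ker_mk']) ⟨a, ha⟩ ⟨b, hb⟩
    exact congrArg Subtype.val h3
  · have h9 : 9 ≤ (Subgroup.center (P : Subgroup G)).index := by
      rw [hj]
      calc 9 = 3 ^ 2 := by norm_num
        _ ≤ ℓ ^ 2 := Nat.pow_le_pow_left hℓ3 2
        _ ≤ ℓ ^ j := Nat.pow_le_pow_right hℓ.out.pos h2
    calc 9 * zc P ≤ (Subgroup.center (P : Subgroup G)).index * zc P := Nat.mul_le_mul_right _ h9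
      _ = Nat.card P := by
        rw [mul_comm]
        exact hmul

/-- The alternative needed in the arithmetic. -/
theorem alt (H : Hyp G) [IsSimpleGroup G] {ℓ : ℕ} [hℓ : Fact ℓ.Prime] (P : Sylow ℓ G)
    (hd : ℓ ∣ Nat.card G) :
    (zc P = Nat.card P ∧ 2 ≤ kk P) ∨ (9 * zc P ≤ Nat.card P ∧ 1 ≤ kk P) := by
  by_cases hc : ∀ a ∈ P, ∀ b ∈ P, a * b = b * a
  · left
    refine ⟨zc_of_comm P hc, ?_⟩
    have h1 := kk_ne_one H P hd hc
    have h2 := kk_pos P
    omega
  · right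
    have hℓ2 : ℓ ≠ 2 := by
      rintro rfl
      exact hc (comm_of_two H P)
    exact ⟨nine_le hℓ2 P hc, kk_pos P⟩

/-- A fixed-point-free involution on `P` inverts `P`. -/
theorem inverts (H : Hyp G) {ℓ : ℕ} [hℓ : Fact ℓ.Prime] (hℓ2 : ℓ ≠ 2) (P : Sylow ℓ G) {t : G}
    (ht : t ∈ NN P) (ht2 : t * t = 1) (ht1 : t ≠ 1) (y : G) (hy : y ∈ P) : t * y * t⁻¹ = y⁻¹ := by
  have htord : orderOf t = 2 := orderOf_eq_prime (by rw [pow_two, ht2]) ht1
  have htinv : t⁻¹ = t := inv_eq_of_mul_eq_one_left ht2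
  have hfix : ∀ a ∈ P, t * a * t⁻¹ = a → a = 1 := by
    intro a ha hat
    by_contra ha1
    have h1 := order_of_mem_pgroup H P.isPGroup' ha ha1
    have hcomm : Commute a t := by
      rw [mul_inv_eq_iff_eq_mul] at hat
      exact hat.symm
    have := order_eq_of_commute H ha1 ht1 hcomm
    rw [h1, htord] at this
    exact hℓ2 this
  have hmem : ∀ a ∈ P, t * a * t⁻¹ ∈ P := fun a ha => (Subgroup.mem_normalizer_iff.1 ht a).1 ha
  let φ : ↥(P : Subgroup G) → ↥(P : Subgroup G) := fun a =>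
    ⟨(a : G)⁻¹ * (t * a * t⁻¹), (P : Subgroup G).mul_mem ((P : Subgroup G).inv_mem a.2) (hmem _ a.2)⟩
  have hinj : Function.Injective φ := by
    intro a b hab
    have h1 : (a : G)⁻¹ * (t * a * t⁻¹) = (b : G)⁻¹ * (t * b * t⁻¹) := congrArg Subtype.val hab
    have h2 : t * ((b : G) * (a : G)⁻¹) * t⁻¹ = (b : G) * (a : G)⁻¹ := by
      have h3 : (b : G) * ((a : G)⁻¹ * (t * a * t⁻¹)) = t * b * t⁻¹ := by
        rw [h1]
        group
      calc t * ((b : G) * (a : G)⁻¹) * t⁻¹ = (t * b * t⁻¹) * (t * a * t⁻¹)⁻¹ := by group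
        _ = (b : G) * ((a : G)⁻¹ * (t * a * t⁻¹)) * (t * a * t⁻¹)⁻¹ := by rw [h3]
        _ = (b : G) * (a : G)⁻¹ := by group
    have h4 := hfix _ ((P : Subgroup G).mul_mem b.2 ((P : Subgroup G).inv_mem a.2)) h2
    apply Subtype.ext
    rw [mul_inv_eq_one] at h4
    exact h4.symm
  have hsurj := Finite.injective_iff_surjective.1 hinj
  obtain ⟨a, ha⟩ := hsurj ⟨y, hy⟩
  have h1 : (a : G)⁻¹ * (t * a * t⁻¹) = y := congrArg Subtype.val ha
  rw [← h1, htinv]
  have h5 : t * t = 1 := ht2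
  calc t * ((a : G)⁻¹ * (t * a * t)) * t = t * (a : G)⁻¹ * (t * a) * (t * t) := by group
    _ = t * (a : G)⁻¹ * (t * a) := by rw [h5, mul_one]
    _ = t * (a : G)⁻¹ * (t * a) * (t⁻¹ * t) := by simp
    _ = t * (a : G)⁻¹ * t * (a * t⁻¹ * t) := by group
    _ = _ := by
      rw [htinv, mul_assoc (a : G), h5, mul_one]
      have : ((a : G)⁻¹ * (t * (a : G) * t))⁻¹ = t * (a : G)⁻¹ * t * a := by
        rw [mul_inv_rev, mul_inv_rev, mul_inv_rev, htinv]
        group
      rw [this]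

/-- Index two: `P` is commutative, inverted by an involution. -/
theorem kk_two (H : Hyp G) {ℓ : ℕ} [hℓ : Fact ℓ.Prime] (hℓ2 : ℓ ≠ 2) (P : Sylow ℓ G) (hk : kk P = 2) :
    (∀ a ∈ P, ∀ b ∈ P, a * b = b * a) := by
  haveI : Fact (Nat.Prime 2) := ⟨Nat.prime_two⟩
  have hc : Nat.card (NN P) = Nat.card P * 2 := by rw [card_normalizer, hk]
  obtain ⟨t, ht⟩ := exists_prime_orderOf_dvd_card' (G := NN P) 2 (by rw [hc]; exact Dvd.intro_left _ rfl)
  have htG : orderOf (t : G) = 2 := by rw [Subgroup.orderOf_coe, ht]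
  have ht2 : (t : G) * t = 1 := by
    rw [← pow_two, ← htG]
    exact pow_orderOf_eq_one _
  have ht1 : (t : G) ≠ 1 := by
    intro h
    rw [h, orderOf_one] at htG
    omega
  intro a ha b hb
  have h1 := inverts H hℓ2 P t.2 ht2 ht1 a ha
  have h2 := inverts H hℓ2 P t.2 ht2 ht1 b hb
  have h3 := inverts H hℓ2 P t.2 ht2 ht1 (a * b) ((P : Subgroup G).mul_mem ha hb)
  have h4 : (t : G) * (a * b) * (t : G)⁻¹ = ((t : G) * a * (t : G)⁻¹) * ((t : G) * b * (t : G)⁻¹) := by group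
  rw [h4, h1, h2, mul_inv_rev] at h3
  have h5 : a⁻¹ * b⁻¹ = (b * a)⁻¹ := by group
  have h6 : b⁻¹ * a⁻¹ = (a * b)⁻¹ := by group
  rw [h5, h6] at h3
  exact (inv_injective h3).symm

/-- The index is not four. -/
theorem kk_ne_four (H : Hyp G) {ℓ : ℕ} [hℓ : Fact ℓ.Prime] (hℓ2 : ℓ ≠ 2) (P : Sylow ℓ G)
    (hd : ℓ ∣ Nat.card G) : kk P ≠ 4 := by
  intro hk
  haveI : Fact (Nat.Prime 2) := ⟨Nat.prime_two⟩
  have hc : Nat.card (NN P) = Nat.card P * 4 := by rw [card_normalizer, hk]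
  obtain ⟨Q, hQ⟩ := Sylow.exists_subgroup_card_pow_prime (G := NN P) 2 (n := 2)
    (by rw [hc]; exact ⟨Nat.card P, by ring⟩)
  have hQ2 : IsPGroup 2 Q := IsPGroup.of_card hQ
  have hQmap : IsPGroup 2 (Q.map (NN P).subtype) := hQ2.map _
  -- two distinct involutions
  have hcard4 : Nat.card Q = 4 := by rw [hQ]; norm_num
  haveI : Nontrivial Q := by
    apply Finite.one_lt_card_iff_nontrivial.1
    omega
  obtain ⟨s, hs⟩ := exists_ne (1 : Q)
  obtain ⟨u, hu⟩ : ∃ u : Q, u ≠ 1 ∧ u ≠ s := by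
    by_contra hall
    push_neg at hall
    have h1 : (Set.univ : Set Q) ⊆ {1, s} := by
      intro x _
      by_cases hx : x = 1
      · simp [hx]
      · simp [hall x hx]
    have h2 := Set.ncard_le_ncard h1 (Set.toFinite _)
    have h3 : ({1, s} : Set Q).ncard ≤ 2 := Set.ncard_insert_le _ _ |>.trans (by simp)
    rw [Set.ncard_univ] at h2
    omega
  have hinv : ∀ q : Q, q ≠ 1 → (((q : NN P) : G)) * ((q : NN P) : G) = 1 ∧ (((q : NN P) : G)) ≠ 1 := by
    intro q hq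
    have hq1 : (((q : NN P) : G)) ≠ 1 := fun h => hq (Subtype.ext (Subtype.ext h))
    have hmem : (((q : NN P) : G)) ∈ Q.map (NN P).subtype := ⟨q, q.2, rfl⟩
    have := order_of_mem_pgroup H hQmap hmem hq1
    refine ⟨?_, hq1⟩
    rw [← pow_two, ← this]
    exact pow_orderOf_eq_one _
  obtain ⟨hs2, hs1⟩ := hinv s hs
  obtain ⟨hu2, hu1⟩ := hinv u hu.1
  have hsu : s * u ≠ 1 := by
    intro h
    have h1 : s = u⁻¹ := eq_inv_of_mul_eq_one_left h
    have h2 : u⁻¹ = u := by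
      apply Subtype.ext
      apply Subtype.ext
      exact inv_eq_of_mul_eq_one_left hu2
    exact hu.2 (by rw [h1, h2])
  obtain ⟨hsu2, hsu1⟩ := hinv (s * u) hsu
  -- a nontrivial element of P
  have hP1 : (P : Subgroup G) ≠ ⊥ := P.ne_bot_of_dvd_card hd
  obtain ⟨y, hy⟩ := Subgroup.ne_bot_iff_exists_ne_one.1 hP1
  have hy1 : (y : G) ≠ 1 := fun h => hy (Subtype.ext h)
  have hyo := order_of_mem_pgroup H P.isPGroup' y.2 hy1
  have hs' := inverts H hℓ2 P (s : NN P).2 hs2 hs1 y y.2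
  have hu' := inverts H hℓ2 P (u : NN P).2 hu2 hu1 ((y : G)⁻¹) ((P : Subgroup G).inv_mem y.2)
  have hcomm : Commute (((s * u : Q) : NN P) : G) (y : G) := by
    change ((s : NN P) : G) * ((u : NN P) : G) * y = y * (((s : NN P) : G) * ((u : NN P) : G))
    have h1 : ((u : NN P) : G) * (y : G)⁻¹ * ((u : NN P) : G)⁻¹ = (y : G) := by
      rw [hu', inv_inv]
    have h2 : ((u : NN P) : G) * (y : G)⁻¹ = (y : G) * ((u : NN P) : G) := by
      rwa [mul_inv_eq_iff_eq_mul] at h1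
    have h3 : ((u : NN P) : G) * (y : G) = (y : G)⁻¹ * ((u : NN P) : G) := by
      have := inverts H hℓ2 P (u : NN P).2 hu2 hu1 y y.2
      rwa [mul_inv_eq_iff_eq_mul] at this
    have h4 : ((s : NN P) : G) * (y : G)⁻¹ = (y : G) * ((s : NN P) : G) := by
      have : ((s : NN P) : G) * (y : G)⁻¹ * ((s : NN P) : G)⁻¹ = (y : G) := by
        rw [inverts H hℓ2 P (s : NN P).2 hs2 hs1 _ ((P : Subgroup G).inv_mem y.2), inv_inv]
      rwa [mul_inv_eq_iff_eq_mul] at this
    calc ((s : NN P) : G) * ((u : NN P) : G) * y = ((s : NN P) : G) * (((u : NN P) : G) * y) := by group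
      _ = ((s : NN P) : G) * ((y : G)⁻¹ * ((u : NN P) : G)) := by rw [h3]
      _ = (((s : NN P) : G) * (y : G)⁻¹) * ((u : NN P) : G) := by group
      _ = (y : G) * ((s : NN P) : G) * ((u : NN P) : G) := by rw [h4]
      _ = _ := by group
  have h5 := order_eq_of_commute H hsu1 hy1 hcomm
  have h6 : orderOf (((s * u : Q) : NN P) : G) = 2 := orderOf_eq_prime (by rw [pow_two]; exact hsu2) hsu1
  rw [h6, hyo] at h5
  exact hℓ2 h5.symm

end Cfsg.Agent.Lib.AutOrbits.Struct
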