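import Cfsg.Agent.Lib.AutOrbits.Basic

/-!
# Groups with four automorphism orbits: centralizers are Sylow, the partition
-/

set_option autoImplicit false
set_option linter.unusedSectionVars false

namespace Cfsg.Agent.Lib.AutOrbits.Syl

open Subgroup Cfsg.Agent.Lib.AutOrbits.Basic

variable {G : Type*} [Group G] [Finite G]

/-- The centralizer of an element of order `ℓ` is an `ℓ`-group. -/
theorem isP_centralizer (H : Hyp G) {ℓ : ℕ} [hℓ : Fact ℓ.Prime] {x : G} (hx : orderOf x = ℓ) :
    IsPGroup ℓ (centralizer ({x} : Set G)) := by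
  have hx1 : x ≠ 1 := by
    rintro rfl
    rw [orderOf_one] at hx
    exact hℓ.out.ne_one hx.symm
  rw [IsPGroup.iff_orderOf]
  intro g
  by_cases hg : g = 1
  · exact ⟨0, by rw [hg, orderOf_one, pow_zero]⟩
  · refine ⟨1, ?_⟩
    rw [pow_one, ← Subgroup.orderOf_coe, ← hx]
    have hc : Commute (g : G) x := (Subgroup.mem_centralizer_singleton_iff.1 g.2)
    exact order_eq_of_commute H (fun h => hg (Subtype.ext h)) hx1 hc

/-- The centralizer of an element of order `ℓ` is a Sylow subgroup. -/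
theorem exists_sylow (H : Hyp G) {ℓ : ℕ} [hℓ : Fact ℓ.Prime] {x : G} (hx : orderOf x = ℓ) :
    ∃ Q : Sylow ℓ G, (Q : Subgroup G) = centralizer ({x} : Set G) := by
  have hd : ℓ ∣ Nat.card G := by
    rw [← hx]
    exact orderOf_dvd_natCard x
  obtain ⟨P⟩ : Nonempty (Sylow ℓ G) := inferInstance
  have hP1 : (P : Subgroup G) ≠ ⊥ := P.ne_bot_of_dvd_card hd
  haveI : Nontrivial (P : Subgroup G) := (Subgroup.nontrivial_iff_ne_bot _).2 hP1
  have hcn := P.isPGroup'.center_nontrivial
  obtain ⟨z, hz⟩ := exists_ne (1 : Subgroup.center (P : Subgroup G))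
  have hz1 : (((z : (P : Subgroup G))) : G) ≠ 1 := fun h => hz (Subtype.ext (Subtype.ext h))
  have hzo : orderOf (((z : (P : Subgroup G))) : G) = ℓ :=
    order_of_mem_pgroup H P.isPGroup' (z : (P : Subgroup G)).2 hz1
  obtain ⟨σ, hσ⟩ := H.trans _ x (by rw [hzo, hx])
  have hsub : (P : Subgroup G).map σ.toMonoidHom ≤ centralizer ({x} : Set G) := by
    rintro _ ⟨a, ha, rfl⟩
    rw [Subgroup.mem_centralizer_singleton_iff]
    change σ a * x = x * σ a
    rw [← hσ, ← map_mul, ← map_mul]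
    congr 1
    have h2 := (Subgroup.mem_center_iff.1 z.2) ⟨a, ha⟩
    exact (congrArg Subtype.val h2)
  obtain ⟨Q, hQ⟩ := (isP_centralizer H hx).exists_le_sylow
  have hcards : Nat.card Q = Nat.card ((P : Subgroup G).map σ.toMonoidHom) := by
    rw [Subgroup.card_map_of_injective (MulEquiv.injective σ), Q.card_eq_multiplicity,
      P.card_eq_multiplicity]
  have heq : (P : Subgroup G).map σ.toMonoidHom = Q :=
    Subgroup.eq_of_le_of_card_ge (hsub.trans hQ) (by rw [← hcards])
  refine ⟨Q, le_antisymm ?_ hQ⟩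
  rw [← heq]
  exact hsub

/-- The centre of a Sylow subgroup: characterization of the fibre. -/
theorem fiber_iff (H : Hyp G) {ℓ : ℕ} [hℓ : Fact ℓ.Prime] (Q : Sylow ℓ G) (x : G) :
    (orderOf x = ℓ ∧ centralizer ({x} : Set G) = Q) ↔
      (x ≠ 1 ∧ x ∈ Q ∧ ∀ y ∈ Q, x * y = y * x) := by
  constructor
  · rintro ⟨h1, h2⟩
    have hx1 : x ≠ 1 := by
      rintro rfl
      rw [orderOf_one] at h1
      exact hℓ.out.ne_one h1.symm
    refine ⟨hx1, ?_, ?_⟩
    · change x ∈ (Q : Subgroup G)
      rw [← h2]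
      exact Subgroup.mem_centralizer_singleton_iff.2 rfl
    · intro y hy
      have h3 : y ∈ centralizer ({x} : Set G) := by rw [h2]; exact hy
      exact (Subgroup.mem_centralizer_singleton_iff.1 h3).symm
  · rintro ⟨hx1, hxQ, hc⟩
    have ho : orderOf x = ℓ := order_of_mem_pgroup H Q.isPGroup' hxQ hx1
    refine ⟨ho, ?_⟩
    obtain ⟨Q', hQ'⟩ := exists_sylow H ho
    have hle : (Q : Subgroup G) ≤ Q' := by
      rw [hQ']
      intro y hy
      exact Subgroup.mem_centralizer_singleton_iff.2 (hc y hy).symm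
    rw [← hQ']
    have : (Q : Subgroup G) = Q' := Subgroup.eq_of_le_of_card_ge hle (by
      rw [Q.card_eq_multiplicity, Q'.card_eq_multiplicity])
    exact this.symm

/-- Nonidentity count. -/
theorem card_ne_one {A : Type*} [Group A] [Finite A] : Nat.card {a : A // a ≠ 1} = Nat.card A - 1 := by
  classical
  have hsum : Nat.card {x : A // x = 1} + Nat.card {x : A // x ≠ 1} = Nat.card A := by
    rw [← Nat.card_sum]
    exact Nat.card_congr (Equiv.sumCompl _)
  have h2 : Nat.card {x : A // x = 1} = 1 := Nat.card_unique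
  omega

/-- The order of the centre of a Sylow subgroup. -/
noncomputable def zc {ℓ : ℕ} (Q : Sylow ℓ G) : ℕ := Nat.card (Subgroup.center (Q : Subgroup G))

theorem zc_eq {ℓ : ℕ} [Fact ℓ.Prime] (Q Q' : Sylow ℓ G) : zc Q = zc Q' :=
  Nat.card_congr (Subgroup.centerCongr (Q.equiv Q')).toEquiv

/-- Fibre count. -/
theorem card_fiber (H : Hyp G) {ℓ : ℕ} [hℓ : Fact ℓ.Prime] (Q : Sylow ℓ G) :
    Nat.card {x : G // orderOf x = ℓ ∧ centralizer ({x} : Set G) = Q} = zc Q - 1 := by
  rw [zc, ← card_ne_one]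
  refine Nat.card_congr ?_
  refine
    { toFun := fun x => ⟨⟨⟨x.1, ((fiber_iff H Q x.1).1 x.2).2.1⟩, ?_⟩, ?_⟩
      invFun := fun c => ⟨(c.1.1 : G), (fiber_iff H Q _).2 ⟨?_, c.1.1.2, ?_⟩⟩
      left_inv := fun x => rfl
      right_inv := fun c => rfl }
  · rw [Subgroup.mem_center_iff]
    intro y
    apply Subtype.ext
    exact (((fiber_iff H Q x.1).1 x.2).2.2 y y.2).symm
  · intro h
    have h1 := congrArg (fun a : Subgroup.center (Q : Subgroup G) => ((a : (Q : Subgroup G)) : G)) h
    exact ((fiber_iff H Q x.1).1 x.2).1 h1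
  · intro h
    apply c.2
    exact Subtype.ext (Subtype.ext h)
  · intro y hy
    have := (Subgroup.mem_center_iff.1 c.1.2) ⟨y, hy⟩
    exact (congrArg Subtype.val this).symm

/-- **Element count**. -/
theorem card_elements (H : Hyp G) {ℓ : ℕ} [hℓ : Fact ℓ.Prime] (P : Sylow ℓ G) :
    Nat.card {x : G // orderOf x = ℓ} = Nat.card (Sylow ℓ G) * (zc P - 1) := by
  classical
  haveI := Fintype.ofFinite (Sylow ℓ G)
  let φ : {x : G // orderOf x = ℓ} → Sylow ℓ G := fun x => (exists_sylow H x.2).choose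
  have hφ : ∀ x, ((φ x : Sylow ℓ G) : Subgroup G) = centralizer ({x.1} : Set G) :=
    fun x => (exists_sylow H x.2).choose_spec
  have h1 : Nat.card {x : G // orderOf x = ℓ} = Nat.card (Σ Q : Sylow ℓ G, {x // φ x = Q}) :=
    Nat.card_congr (Equiv.sigmaFiberEquiv φ).symm
  rw [h1, Nat.card_sigma]
  have h2 : ∀ Q : Sylow ℓ G, Nat.card {x // φ x = Q} = zc P - 1 := by
    intro Q
    rw [zc_eq P Q, ← card_fiber H Q]
    refine Nat.card_congr ?_
    refine
      { toFun := fun x => ⟨x.1.1, x.1.2, ?_⟩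
        invFun := fun x => ⟨⟨x.1, x.2.1⟩, ?_⟩
        left_inv := fun x => rfl
        right_inv := fun x => rfl }
    · rw [← hφ x.1, x.2]
    · apply Sylow.ext
      rw [hφ]
      exact x.2.2
  simp only [h2, Finset.sum_const, Finset.card_univ, smul_eq_mul]
  rw [Nat.card_eq_fintype_card]

/-- The normalizer of a Sylow subgroup. -/
abbrev NN {ℓ : ℕ} (P : Sylow ℓ G) : Subgroup G := normalizer (((P : Subgroup G)) : Set G)

/-- The index of a Sylow subgroup in its normalizer. -/
noncomputable def kk {ℓ : ℕ} (P : Sylow ℓ G) : ℕ := (P : Subgroup G).relIndex (NN P)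

theorem kk_mul_index {ℓ : ℕ} (P : Sylow ℓ G) : kk P * (NN P).index = (P : Subgroup G).index :=
  Subgroup.relIndex_mul_index Subgroup.le_normalizer

theorem card_mul_kk {ℓ : ℕ} (P : Sylow ℓ G) : Nat.card P * (kk P * (NN P).index) = Nat.card G := by
  rw [kk_mul_index]
  exact (P : Subgroup G).card_mul_index

theorem kk_pos {ℓ : ℕ} (P : Sylow ℓ G) : 0 < kk P := by
  have h := card_mul_kk P
  by_contra h0
  have h1 : kk P = 0 := by omega
  rw [h1] at h
  have : 0 < Nat.card G := Nat.card_pos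
  simp at h
  omega

theorem card_normalizer {ℓ : ℕ} (P : Sylow ℓ G) : Nat.card (NN P) = Nat.card P * kk P := by
  have h1 := card_mul_kk P
  have h2 := (NN P).card_mul_index
  have hpos : 0 < (NN P).index := Nat.pos_of_ne_zero (Subgroup.index_ne_zero_of_finite)
  apply Nat.eq_of_mul_eq_mul_right hpos
  rw [h2, ← h1, mul_assoc]

theorem kk_dvd_card {ℓ : ℕ} (P : Sylow ℓ G) : kk P ∣ Nat.card G :=
  ⟨Nat.card P * (NN P).index, by rw [← card_mul_kk P]; ring⟩

theorem not_dvd_kk {ℓ : ℕ} [Fact ℓ.Prime] (P : Sylow ℓ G) : ¬ ℓ ∣ kk P := by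
  intro h
  exact P.not_dvd_index (by
    rw [← kk_mul_index P]
    exact h.mul_right _)

theorem zc_pos {ℓ : ℕ} (P : Sylow ℓ G) : 0 < zc P := Nat.card_pos

/-- The basic count. -/
theorem count_eq (H : Hyp G) {ℓ : ℕ} [Fact ℓ.Prime] (P : Sylow ℓ G) :
    Nat.card {x : G // orderOf x = ℓ} * (Nat.card P * kk P) + Nat.card G = Nat.card G * zc P := by
  rw [card_elements H P, P.card_eq_index_normalizer]
  have h1 := card_mul_kk P
  have h2 := zc_pos P
  obtain ⟨z, hz⟩ : ∃ z, zc P = z + 1 := ⟨zc P - 1, by omega⟩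
  rw [hz, Nat.add_sub_cancel]
  calc (NN P).index * z * (Nat.card P * kk P) + Nat.card G
      = (Nat.card P * (kk P * (NN P).index)) * z + Nat.card G := by ring
    _ = Nat.card G * (z + 1) := by rw [h1]; ring

/-- Orbit count: all stabilizers equal. -/
theorem index_dvd_of_stabilizer {A X : Type*} [Group A] [Finite A] [MulAction A X] [Finite X]
    (L : Subgroup A) (hL : ∀ x : X, MulAction.stabilizer A x = L) : L.index ∣ Nat.card X := by
  classical
  haveI := Fintype.ofFinite (MulAction.orbitRel.Quotient A X)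
  rw [Nat.card_congr (MulAction.selfEquivSigmaOrbits A X), Nat.card_sigma]
  apply Finset.dvd_sum
  intro ω _
  have h2 := MulAction.index_stabilizer (G := A) ω.out
  rw [hL ω.out] at h2
  rw [h2, ← Nat.card_coe_set_eq]

/-- The normalizer acts freely modulo `P` on `Z(P)`. -/
theorem kk_dvd_zc (H : Hyp G) {ℓ : ℕ} [hℓ : Fact ℓ.Prime] (P : Sylow ℓ G) : kk P ∣ zc P - 1 := by
  classical
  let X := {x : G // orderOf x = ℓ ∧ centralizer ({x} : Set G) = P}
  have hcard : Nat.card X = zc P - 1 := card_fiber H P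
  rw [← hcard]
  have hconj : ∀ (n : NN P) (x : X), orderOf ((n : G) * x.1 * (n : G)⁻¹) = ℓ ∧
      centralizer ({(n : G) * x.1 * (n : G)⁻¹} : Set G) = P := by
    intro n x
    rw [fiber_iff H P]
    obtain ⟨hx1, hxP, hc⟩ := (fiber_iff H P x.1).1 x.2
    have hnm := Subgroup.mem_normalizer_iff.1 n.2
    refine ⟨?_, (hnm x.1).1 hxP, ?_⟩
    · intro h
      apply hx1
      have : x.1 = (n : G)⁻¹ * ((n : G) * x.1 * (n : G)⁻¹) * n := by group
      rw [this, h]
      group
    · intro y hy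
      have hy' : (n : G)⁻¹ * y * (n : G) ∈ (P : Subgroup G) := by
        have h2 := (hnm ((n : G)⁻¹ * y * (n : G)))
        apply h2.2
        have : (n : G) * ((n : G)⁻¹ * y * (n : G)) * (n : G)⁻¹ = y := by group
        rw [this]
        exact hy
      have h3 := hc _ hy'
      calc (n : G) * x.1 * (n : G)⁻¹ * y
          = (n : G) * (x.1 * ((n : G)⁻¹ * y * (n : G))) * (n : G)⁻¹ := by group
        _ = (n : G) * (((n : G)⁻¹ * y * (n : G)) * x.1) * (n : G)⁻¹ := by rw [h3]
        _ = y * ((n : G) * x.1 * (n : G)⁻¹) := by group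
  letI : MulAction (NN P) X :=
    { smul := fun n x => ⟨(n : G) * x.1 * (n : G)⁻¹, hconj n x⟩
      one_smul := fun x => by
        apply Subtype.ext
        change ((1 : NN P) : G) * x.1 * ((1 : NN P) : G)⁻¹ = x.1
        simp
      mul_smul := fun a b x => by
        apply Subtype.ext
        change ((a * b : NN P) : G) * x.1 * ((a * b : NN P) : G)⁻¹ =
          (a : G) * ((b : G) * x.1 * (b : G)⁻¹) * (a : G)⁻¹
        simp only [Subgroup.coe_mul]
        group }
  have hsm : ∀ (n : NN P) (x : X), ((n • x : X) : G) = (n : G) * x.1 * (n : G)⁻¹ := fun _ _ => rfl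
  have := index_dvd_of_stabilizer (A := NN P) (X := X) ((P : Subgroup G).subgroupOf (NN P)) ?_
  · exact this
  · intro x
    ext n
    rw [MulAction.mem_stabilizer_iff, Subgroup.mem_subgroupOf]
    constructor
    · intro h
      have h1 := congrArg Subtype.val h
      rw [hsm] at h1
      change (n : G) ∈ (P : Subgroup G)
      rw [← x.2.2, Subgroup.mem_centralizer_singleton_iff]
      rw [mul_inv_eq_iff_eq_mul] at h1
      exact h1
    · intro h
      apply Subtype.ext
      rw [hsm]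
      obtain ⟨-, -, hc⟩ := (fiber_iff H P x.1).1 x.2
      rw [mul_inv_eq_iff_eq_mul]
      exact (hc _ h).symm

end Cfsg.Agent.Lib.AutOrbits.Syl
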